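import Cfsg.Agent.H34.PCMain

/-! Specification of the tower for coprime linear groups with two orbits on non-zero vectors. -/

set_option autoImplicit false

namespace H70.R3

open Cfsg H28 H90 H34.TL Module Subgroup MulAction

universe u

/-- The class number. -/
noncomputable abbrev cls (G : Type*) [Group G] : ℕ := Nat.card (ConjClasses G)

section defs

variable (G V : Type u) [Group G] [AddCommGroup V] [DistribMulAction G V]

/-- A `p'`-group with exactly two orbits on the non-zero vectors of a space of order `p ^ n`. -/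
structure Two (p n : ℕ) (v₁ v₂ : V) : Prop where
  prime : p.Prime
  two_le : 2 ≤ n
  card : Nat.card V = p ^ n
  cop : ¬ p ∣ Nat.card G
  ne₁ : v₁ ≠ 0
  ne₂ : v₂ ≠ 0
  sep : ∀ g : G, g • v₁ ≠ v₂
  cover : ∀ v : V, v ≠ 0 → (∃ g : G, g • v₁ = v) ∨ ∃ g : G, g • v₂ = v

/-- A counterexample to the class number bound. -/
structure Bad (p n : ℕ) (v₁ v₂ : V) : Prop extends Two G V p n v₁ v₂ where
  lt : 2 * cls G < p
  ge11 : 11 ≤ p
  ge13 : 4 ≤ n → 13 ≤ p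

/-- Every abelian normal subgroup generates a field of scalars. -/
def Prim : Prop := ∀ A : Subgroup G, A.Normal → IsMulCommutative A →
  ∃ (E : Type) (_ : Field E) (_ : Fintype E) (_ : Module E V), Nonempty (FD V A E)

/-- The group permutes two complementary subspaces. -/
def Imprim : Prop := ∃ W₁ W₂ : AddSubgroup V, IsCompl W₁ W₂ ∧ W₁ ≠ ⊥ ∧ W₂ ≠ ⊥ ∧
  ∀ g : G, ((∀ v ∈ W₁, g • v ∈ W₁) ∧ ∀ v ∈ W₂, g • v ∈ W₂) ∨
    ((∀ v ∈ W₁, g • v ∈ W₂) ∧ ∀ v ∈ W₂, g • v ∈ W₁)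

variable {G} in
/-- A maximal abelian normal subgroup with its field of scalars of order `p ^ k`. -/
structure Frame (p n : ℕ) (A : Subgroup G) (E : Type) [Field E] [Module E V] (k : ℕ) : Prop where
  max : MaxAb A
  fd : Nonempty (FD V A E)
  pos : 0 < k
  card : Nat.card E = p ^ k
  mul : k * finrank E V = n
  char : CharP E p

/-- Every abelian normal subgroup lies in a frame of dimension at least `d`. -/
def Framed (p n d : ℕ) : Prop := ∀ B : Subgroup G, B.Normal → IsMulCommutative B →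
  ∃ (A : Subgroup G) (E : Type) (_ : Field E) (_ : Fintype E) (_ : Module E V) (k : ℕ),
    B ≤ A ∧ Frame V p n A E k ∧ d ≤ finrank E V

/-- All multiples of `v` by integers prime to `p` lie in the orbit of `v`. -/
def Scal (p : ℕ) (v : V) : Prop := ∀ c : ℕ, ¬ p ∣ c → ∃ g : G, g • v = c • v

end defs

/-- A faithful irreducible character of degree at most `d`. -/
def Chr (G : Type u) [Group G] (d : ℕ) : Prop :=
  ∃ ψ : G → ℂ, IsIrrCharacter G ψ ∧ charKer ψ = ⊥ ∧ charDegree ψ ≤ d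

/-- A faithful character of degree at most `d`. -/
def FChr (G : Type u) [Group G] (d : ℕ) : Prop :=
  ∃ χ : G → ℂ, IsCharacter G χ ∧ charKer χ = ⊥ ∧ charDegree χ ≤ d

theorem Chr.fchr {G : Type u} [Group G] {d : ℕ} (h : Chr G d) : FChr G d :=
  h.imp fun _ h => ⟨h.1.isCharacter, h.2⟩

section basic

variable {G V : Type u} [Group G] [AddCommGroup V] [DistribMulAction G V] [Finite G] [Finite V]
  {p n : ℕ} {v₁ v₂ : V}

omit [Finite V] in
theorem center_le_cls : Nat.card (center G) ≤ cls G :=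
  Nat.card_le_card_of_injective (fun z : center G => ConjClasses.mk (z : G)) fun a b e => by
    obtain ⟨c, hc⟩ := isConj_iff.1 (ConjClasses.mk_eq_mk_iff_isConj.1 e)
    exact Subtype.ext (by rw [← hc, mem_center_iff.1 a.2 c, mul_inv_cancel_right])

omit [Finite G] [Finite V] in
theorem Two.symm (h : Two G V p n v₁ v₂) : Two G V p n v₂ v₁ :=
  ⟨h.prime, h.two_le, h.card, h.cop, h.ne₂, h.ne₁,
    fun g e => h.sep g⁻¹ (by rw [← e, inv_smul_smul]), fun v hv => (h.cover v hv).symm⟩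

omit [Finite G] [Finite V] in
theorem Bad.symm (h : Bad G V p n v₁ v₂) : Bad G V p n v₂ v₁ :=
  ⟨h.toTwo.symm, h.lt, h.ge11, h.ge13⟩

omit [Finite G] [Finite V] in
theorem Two.nontrivial (h : Two G V p n v₁ v₂) : Nontrivial V := ⟨⟨_, _, h.ne₁⟩⟩

omit [Finite G] in
/-- The two orbit lengths add up to `p ^ n - 1`. -/
theorem Two.add (h : Two G V p n v₁ v₂) :
    (stabilizer G v₁).index + (stabilizer G v₂).index + 1 = p ^ n := by
  have h1 : orbit G v₁ ∪ orbit G v₂ = {0}ᶜ := Set.ext fun w => ⟨by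
    rintro (⟨g, rfl⟩ | ⟨g, rfl⟩)
    exacts [(smul_ne_zero_iff_ne g).2 h.ne₁, (smul_ne_zero_iff_ne g).2 h.ne₂], h.cover w⟩
  have h2 : Disjoint (orbit G v₁) (orbit G v₂) := Set.disjoint_left.2 (by
    rintro _ ⟨g, rfl⟩ ⟨k, e⟩
    exact h.sep (k⁻¹ * g) (by rw [mul_smul]; exact inv_smul_eq_iff.2 e.symm))
  rw [index_stabilizer, index_stabilizer, ← Set.ncard_union_eq h2, h1, Set.ncard_compl,
    Set.ncard_singleton, h.card]
  have := Nat.pow_pos (n := n) h.prime.pos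
  omega

theorem Two.le_card (h : Two G V p n v₁ v₂) : p ^ n ≤ 2 * Nat.card G + 1 := by
  have h1 := Nat.le_of_dvd Nat.card_pos (stabilizer G v₁).index_dvd_card
  have h2 := Nat.le_of_dvd Nat.card_pos (stabilizer G v₂).index_dvd_card
  have := h.add
  omega

theorem Two.not_dvd (h : Two G V p n v₁ v₂) (v : V) : ¬ p ∣ (stabilizer G v).index :=
  fun e => h.cop (e.trans (index_dvd_card _))

/-- Irreducibility. -/
theorem Two.irr (h : Two G V p n v₁ v₂) (W : AddSubgroup V) (hW : ∀ g : G, ∀ v ∈ W, g • v ∈ W) :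
    W = ⊥ ∨ W = ⊤ := by
  by_contra! h0
  wlog h1 : v₁ ∈ W generalizing v₁ v₂
  · refine this h.symm ?_
    obtain ⟨⟨u, hu⟩, hu0⟩ := (AddSubgroup.ne_bot_iff_exists_ne_zero).1 h0.1
    rcases h.cover u fun e => hu0 (Subtype.ext e) with ⟨g, rfl⟩ | ⟨g, rfl⟩
    · exact absurd (by simpa using hW g⁻¹ _ hu) h1
    · simpa using hW g⁻¹ _ hu
  have h2 : v₂ ∉ W := fun e => h0.2 (eq_top_iff.2 fun w _ => by
    by_cases w0 : w = 0
    · exact w0 ▸ W.zero_mem
    rcases h.cover w w0 with ⟨g, rfl⟩ | ⟨g, rfl⟩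
    exacts [hW g _ h1, hW g _ e])
  have h3 : orbit G v₂ = (W : Set V)ᶜ := Set.ext fun w => ⟨by
    rintro ⟨g, rfl⟩ e
    exact h2 (by simpa using hW g⁻¹ _ e), fun hw => (h.cover w fun e => hw (e ▸ W.zero_mem)).resolve_left
      fun ⟨g, e⟩ => hw (e ▸ hW g _ h1)⟩
  obtain ⟨i, -, hi⟩ := (Nat.dvd_prime_pow h.prime).1 (h.card ▸ W.card_addSubgroup_dvd_card)
  refine h.not_dvd v₂ ?_
  rw [index_stabilizer, h3, Set.ncard_compl, h.card, ← Nat.card_coe_set_eq]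
  refine Nat.dvd_sub (dvd_pow_self p (by have := h.two_le; omega)) ?_
  change p ∣ Nat.card W
  rw [hi]
  refine dvd_pow_self p ?_
  rintro rfl
  exact h0.1 (AddSubgroup.card_eq_one.1 hi)

/-- The space is elementary abelian. -/
theorem Two.exp (h : Two G V p n v₁ v₂) (v : V) : p • v = 0 := by
  have := Fact.mk h.prime
  obtain ⟨u, hu⟩ := exists_prime_addOrderOf_dvd_card' (G := V) p
    (h.card ▸ dvd_pow_self p (by have := h.two_le; omega))
  rcases h.irr (nsmulAddMonoidHom p : V →+ V).ker fun g w hw => (show p • g • w = 0 by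
    rw [smul_comm, show p • w = 0 from hw, smul_zero]) with h1 | h1
  · have h2 : u ∈ (nsmulAddMonoidHom p : V →+ V).ker := show p • u = 0 from
      hu ▸ addOrderOf_nsmul_eq_zero u
    rw [h1, AddSubgroup.mem_bot] at h2
    exact absurd (by rw [← hu, h2, addOrderOf_zero]) h.prime.one_lt.ne'
  · exact (h1.ge (AddSubgroup.mem_top v) :)

omit [Finite G] in
theorem Two.field (h : Two G V p n v₁ v₂) (E : Type*) [Field E] [Finite E] [Module E V] :
    ∃ k, 0 < k ∧ Nat.card E = p ^ k ∧ k * finrank E V = n ∧ CharP E p := by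
  have := Fintype.ofFinite E
  obtain ⟨r, hr0, ⟨k, hk0⟩, hr, hk⟩ := FiniteField.card' E
  rw [← Nat.card_eq_fintype_card] at hk
  have : Module.Finite E V := Module.Finite.of_finite
  have h1 := Module.natCard_eq_pow_finrank (K := E) (V := V)
  rw [h.card, hk, ← pow_mul] at h1
  obtain rfl : p = r := (Nat.prime_dvd_prime_iff_eq h.prime hr).1
    (h.prime.dvd_of_dvd_pow (h1 ▸ dvd_pow_self p (by have := h.two_le; omega)))
  exact ⟨k, hk0, hk, (Nat.pow_right_injective hr.two_le h1).symm, hr0⟩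

omit [Finite G] [Finite V] in
/-- The order of an abelian normal subgroup. -/
theorem Framed.dvd [FaithfulSMul G V] {d : ℕ} (h : Framed G V p n d) (B : Subgroup G) [hB : B.Normal]
    [hB' : IsMulCommutative B] :
    ∃ k e, d ≤ e ∧ 0 < k ∧ k * e = n ∧ Nat.card B ∣ p ^ k - 1 := by
  obtain ⟨A, E, _, _, _, k, h1, h2, h3⟩ := h B hB hB'
  obtain ⟨D⟩ := h2.fd
  exact ⟨k, _, h3, h2.pos, h2.mul, (card_dvd_of_le h1).trans (h2.card ▸ D.card_dvd)⟩

end basic

/-- Theorem T. -/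
def JobT : Prop := ∀ (G V : Type u) [Group G] [AddCommGroup V] [DistribMulAction G V] [Finite G]
  [Finite V] [FaithfulSMul G V] (p n : ℕ) (v₁ v₂ : V), Two G V p n v₁ v₂ → p ≤ 2 * cls G

/-- Groups with few classes. -/
def JobSmall : Prop := ∀ (G : Type u) [Group G] [Finite G],
  (cls G ≤ 3 → Nat.card G ≤ 6) ∧ (cls G ≤ 5 → Nat.card G ≤ 1806)

def JobAb : Prop := ∀ (G V : Type u) [Group G] [AddCommGroup V] [DistribMulAction G V] [Finite G]
  [Finite V] [FaithfulSMul G V] (p n : ℕ) (v₁ v₂ : V), Two G V p n v₁ v₂ →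
  (∀ W : AddSubgroup V, (∀ g : G, ∀ v ∈ W, g • v ∈ W) → W = ⊥ ∨ W = ⊤) → Prim G V ∨ Imprim G V

def JobImp : Prop := ∀ (G V : Type u) [Group G] [AddCommGroup V] [DistribMulAction G V] [Finite G]
  [Finite V] [FaithfulSMul G V] (p n : ℕ) (v₁ v₂ : V), Bad G V p n v₁ v₂ → ¬ Imprim G V

def JobTwo : Prop := ∀ (G V : Type u) [Group G] [AddCommGroup V] [DistribMulAction G V] [Finite G]
  [Finite V] [FaithfulSMul G V] (p : ℕ) (v₁ v₂ : V), Bad G V p 2 v₁ v₂ → Framed G V p 2 2 →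
  ¬ Chr G 2

/-- Lifting the module of the centralizer of the scalars to a faithful complex character. -/
def JobLift : Prop := ∀ (G V : Type u) [Group G] [AddCommGroup V] [DistribMulAction G V] [Finite G]
  [Finite V] [FaithfulSMul G V] [Nontrivial V] (p : ℕ) (A : Subgroup G) (E : Type) [Field E]
  [Finite E] [Module E V] [CharP E p], p.Prime → ¬ p ∣ Nat.card G → FD V A E →
  FChr (centralizer (A : Set G)) (finrank E V)

def JobD2 : Prop := ∀ (G V : Type u) [Group G] [AddCommGroup V] [DistribMulAction G V] [Finite G]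
  [Finite V] [FaithfulSMul G V] (p n : ℕ) (v₁ v₂ : V) (A : Subgroup G) (E : Type) [Field E]
  [Finite E] [Module E V] (k : ℕ), Bad G V p n v₁ v₂ → 3 ≤ n → Frame V p n A E k →
  finrank E V = 2 → ¬ FChr (centralizer (A : Set G)) 2

/-- Two orbits on the non-trivial additive characters. -/
def JobDual : Prop := ∀ (G V : Type u) [Group G] [AddCommGroup V] [DistribMulAction G V] [Finite G]
  [Finite V] (p n : ℕ) (v₁ v₂ : V), Two G V p n v₁ v₂ →
  ∃ S T : Finset (AddChar V ℂ), Disjoint S T ∧ 0 ∉ S ∧ 0 ∉ T ∧ (∀ ξ, ξ ≠ 0 → ξ ∈ S ∨ ξ ∈ T) ∧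
    S.card ∣ Nat.card G ∧ T.card ∣ Nat.card G ∧
    (∀ ξ ∈ S, ∀ η ∈ S, ∃ g : G, ∀ v, η v = ξ (g • v)) ∧
    ∀ ξ ∈ T, ∀ η ∈ T, ∃ g : G, ∀ v, η v = ξ (g • v)

/-- The eigenvalues of the strongly regular Cayley graph. -/
def JobFour : Prop := JobDual.{u} → ∀ (G V : Type u) [Group G] [AddCommGroup V]
  [DistribMulAction G V] [Finite G] [Finite V] (p n : ℕ) (v₁ v₂ : V), Two G V p n v₁ v₂ →
  Scal G V p v₁ → ∃ (a' b' : ℕ) (r s : ℤ), a' ∣ Nat.card G ∧ b' ∣ Nat.card G ∧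
    a' + b' + 1 = p ^ n ∧ ((stabilizer G v₁).index : ℤ) + a' * r + b' * s = 0 ∧
    ((stabilizer G v₁).index : ℤ) ^ 2 + a' * r ^ 2 + b' * s ^ 2 =
      p ^ n * (stabilizer G v₁).index ∧ r - s ∣ (p : ℤ) ^ n

def JobSrgN : Prop := ∀ (p n a b a' b' : ℕ) (r s : ℤ), p.Prime → ¬ p ∣ a → ¬ p ∣ b → ¬ p ∣ a' →
  ¬ p ∣ b' → a + b + 1 = p ^ n → a' + b' + 1 = p ^ n → (a : ℤ) + a' * r + b' * s = 0 →
  (a : ℤ) ^ 2 + a' * r ^ 2 + b' * s ^ 2 = p ^ n * a → r - s ∣ (p : ℤ) ^ n →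
  ∃ m, n = 2 * m ∧ (p ^ m + 1 ∣ a ∨ (p ^ m - 1 ∣ a ∧ p ^ m - 1 ∣ b))

def JobTypeI : Prop := ∀ (G V : Type u) [Group G] [AddCommGroup V] [DistribMulAction G V]
  [Finite G] [Finite V] [FaithfulSMul G V] (p n : ℕ) (v₁ v₂ : V) (D : ℕ), Bad G V p n v₁ v₂ →
  3 ≤ n → Framed G V p n 2 → Chr G n → D ∣ Nat.card G →
  ¬ (2 * D + 1 = p ^ n ∨ ∃ m, n = 2 * m ∧ D = p ^ m + 1)

/-- Primes above `2 d + 1` have normal Sylow subgroups. -/
def JobBig : Prop := ∀ (X : Type u) [Group X] [Finite X] (d r : ℕ) [Fact r.Prime], FChr X d →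
  2 * d + 1 < r → ∀ P : Sylow r X, (P : Subgroup X).Normal

/-- Orders of `r`-elements when `O_r = 1`. -/
def JobExp : Prop := ∀ (X : Type u) [Group X] [Finite X] (d r j : ℕ) (g : X), r.Prime → FChr X d →
  (∀ N : Subgroup X, N.Normal → IsPGroup r N → N = ⊥) → orderOf g = r ^ (j + 1) → r ^ j < d

/-- An `r`-group for a primitive prime divisor `r` of `p ^ m - 1` in dimension `2 m`. -/
def JobRank : Prop := ∀ (G V : Type u) [Group G] [AddCommGroup V] [DistribMulAction G V]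
  [Finite G] [Finite V] [FaithfulSMul G V] (p m r c : ℕ) (R : Subgroup G), p.Prime → 2 ≤ m →
  Nat.card V = p ^ (2 * m) → Ppd p m r → IsPGroup r R → (∀ g ∈ R, g ^ r ^ c = 1) →
  Nat.card R ∣ r ^ (2 * c)

/-- All primitive prime divisors of `p ^ m - 1` are small in terms of `d`. -/
def PB (p m d : ℕ) : Prop := ∀ r e, Ppd p m r → r ^ e ∣ p ^ m - 1 →
  r ≤ 2 * d + 1 ∧ ∀ c, d ≤ r ^ c → e ≤ 2 * c

/-- The bound for the primitive part of `p ^ m - 1`. -/
def pbound (m : ℕ) : ℕ :=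
  (if (m + 1).Prime then (m + 1) ^ 4 else 1) * (if (2 * m + 1).Prime then (2 * m + 1) ^ 2 else 1) *
    (if (3 * m + 1).Prime then (3 * m + 1) ^ 2 else 1) *
    (if (4 * m + 1).Prime then (4 * m + 1) ^ 2 else 1)

def JobNumA : Prop := ∀ p m : ℕ, 13 ≤ p → 3 ≤ m → PB p m (2 * m) →
  (∀ t, H27.IsPrimDiv p m t → t ∣ pbound m) ∧ m ≤ 3362 ∧ p ^ m.totient ≤ 4 * (pbound m * m)

def JobNumB : Prop := ∀ p m : ℕ, p.Prime → 13 ≤ p → 3 ≤ m → m ≤ 3362 →
  (∀ t, H27.IsPrimDiv p m t → t ∣ pbound m) → p ^ m.totient ≤ 4 * (pbound m * m) →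
  (m = 4 ∧ (p = 13 ∨ p = 47)) ∨ (m = 6 ∧ (p = 17 ∨ p = 19 ∨ p = 23 ∨ p = 31))

def JobLatA : Prop := JobBig.{u} → JobExp.{u} → JobRank.{u} → ∀ (G V : Type u) [Group G]
  [AddCommGroup V] [DistribMulAction G V] [Finite G] [Finite V] [FaithfulSMul G V] (p m : ℕ)
  (v₁ v₂ : V) (A : Subgroup G) (E : Type) [Field E] [Finite E] [Module E V] (k : ℕ),
  Two G V p (2 * m) v₁ v₂ → 2 ≤ m → Framed G V p (2 * m) 3 → p ^ m - 1 ∣ Nat.card G →
  Frame V p (2 * m) A E k → 3 ≤ finrank E V → FChr (centralizer (A : Set G)) (finrank E V) →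
  PB p m (finrank E V)

def JobLatB : Prop := JobBig.{u} → ∀ (G V : Type u) [Group G] [AddCommGroup V]
  [DistribMulAction G V] [Finite G] [Finite V] [FaithfulSMul G V] (p m : ℕ) (v₁ v₂ : V),
  Bad G V p (2 * m) v₁ v₂ → Framed G V p (2 * m) 3 → Chr G (2 * m) → p ^ m - 1 ∣ Nat.card G →
  (∀ (A : Subgroup G) (E : Type) [Field E] [Finite E] [Module E V] (k : ℕ),
    Frame V p (2 * m) A E k → 3 ≤ finrank E V → PB p m (finrank E V)) →
  ¬ ((m = 4 ∧ (p = 13 ∨ p = 47)) ∨ (m = 6 ∧ (p = 17 ∨ p = 19 ∨ p = 23 ∨ p = 31)))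

def JobMon : Prop := ∀ (X : Type u) [Group X] [Finite X] [Group.IsNilpotent X], FChr X 4 →
  ∃ T : Subgroup X, IsMulCommutative T ∧ T.index ∣ 24

def JobMeet : Prop := ∀ (X : Type u) [Group X] [Finite X] (T : Subgroup X) [IsMulCommutative T]
  (c : ConjClasses X), FChr X 4 → {t : X | t ∈ T ∧ ConjClasses.mk t = c}.ncard ≤ 24

/-- The class count for linear groups of degree four. -/
def Cnt (k z x : ℕ) : Prop := ∃ c₂ c₃ c₅, z + c₂ + c₃ + c₅ ≤ k ∧
  z * 2 ^ x.factorization 2 ≤ 8 * (24 * c₂ + z) ∧ z * 3 ^ x.factorization 3 ≤ 3 * (24 * c₃ + z) ∧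
  z * 5 ^ x.factorization 5 ≤ 24 * c₅ + z

def JobCnt : Prop := JobMon.{u} → JobMeet.{u} → ∀ (X : Type u) [Group X] [Finite X], FChr X 4 →
  Cnt (cls X) (Nat.card (center X)) (center X).index

def JobX4 : Prop := ∀ (X : Type u) [Group X] [Finite X], Chr X 4 →
  (∀ B : Subgroup X, B.Normal → IsMulCommutative B → B ≤ center X) →
  (∀ r, r.Prime → r ∣ (center X).index → r ≤ 5) ∨ (center X).index = 168 ∨ (center X).index = 2520

def JobNum4 : Prop := ∀ p z e u w x k : ℕ, p.Prime → 13 ≤ p → z * e + 1 = p → u + w = p ^ 2 + 1 →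
  0 < x → e * (p + 1) * u ∣ x → e * (p + 1) * w ∣ x →
  ((∀ r, r.Prime → r ∣ x → r ≤ 5) ∨ x = 168 ∨ x = 2520) →
  x * z ∣ (p ^ 4 - 1) * (p ^ 4 - p) * (p ^ 4 - p ^ 2) * (p ^ 4 - p ^ 3) → Cnt k z x → 2 * k < p →
  p = 19 ∧ 160 ∣ x * z

def Job19 : Prop := ∀ (G V : Type u) [Group G] [AddCommGroup V] [DistribMulAction G V] [Finite G]
  [Finite V] [FaithfulSMul G V] (v : V), Nat.card V = 19 ^ 4 → (∀ w : V, 19 • w = 0) → v ≠ 0 →
  Scal G V 19 v → Chr G 4 → 160 ∣ Nat.card G → 10 ≤ cls G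

def JobLat4 : Prop := JobX4.{u} → JobNum4 → Job19.{u} → ∀ (G V : Type u) [Group G]
  [AddCommGroup V] [DistribMulAction G V] [Finite G] [Finite V] [FaithfulSMul G V] (p : ℕ)
  (v₁ v₂ : V), Bad G V p 4 v₁ v₂ → Framed G V p 4 3 → Chr G 4 → Scal G V p v₁ →
  p ^ 2 - 1 ∣ (stabilizer G v₁).index → p ^ 2 - 1 ∣ (stabilizer G v₂).index →
  ¬ Cnt (cls G) (Nat.card (center G)) (center G).index

/-- At most two classes of non-trivial `p`-elements. -/
def C3 (p : ℕ) (G : Type u) [Group G] : Prop := ∃ x₁ x₂ : G, ∀ y : G, y ≠ 1 →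
  (∃ k, orderOf y = p ^ k) → IsConj x₁ y ∨ IsConj x₂ y

def JobQ : Prop := ∀ (G : Type u) [Group G] [Finite G] (p : ℕ) [Fact p.Prime] (N : Subgroup G)
  [N.Normal], (¬ p ∣ Nat.card N → N ≠ ⊥ → kp p (G ⧸ N) + 1 ≤ kp p G) ∧
  (C3 p G → C3 p (G ⧸ N)) ∧
  (IsPSolvable p G → C3 p G → IsPGroup p N → N ≠ ⊥ → p ∣ N.index → p ≤ 2 * kp p G)

def JobAff : Prop := JobT.{u} → ∀ (G : Type u) [Group G] [Finite G] (p : ℕ) [Fact p.Prime],
  IsPSolvable p G → pPrimeCore p G = ⊥ → p ∣ Nat.card G → C3 p G →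
  (∀ N : Subgroup G, N.Normal → IsPGroup p N → N ≠ ⊥ → ¬ p ∣ N.index) →
  p ≤ 2 * kp p G ∨ (p - 1 ≤ 2 * kp p G ∧ p ≠ 2 ∧ 2 * Nat.card G = p * (p - 1) ∧
    ∃ f : G →* affineGroup (ZMod p), Function.Injective f)

def JobConv : Prop := ∀ (G : Type u) [Group G] [Finite G] (p : ℕ) [Fact p.Prime]
  (f : G →* affineGroup (ZMod p)), Function.Injective f → p ≠ 2 →
  2 * Nat.card G = p * (p - 1) → 2 * kp p G ≤ p - 1

end H70.R3
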