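import Cfsg.Agent.H12.CLSpec
import Cfsg.Agent.H29.Burnside

/-! CL3 tower, chapter 3: the slots CARD and GL. -/

set_option autoImplicit false

open Module

namespace H70.CL

open H12.CL

theorem sq_lt_three_pow (k : ℕ) : k * k < 3 ^ k := by
  induction k with
  | zero => simp
  | succ k ih =>
    rcases Nat.lt_or_ge k 2 with h | h
    · interval_cases k <;> simp
    · rw [pow_succ]; nlinarith

theorem jobCARD : JobCARD := by
  intro r _ K V W _ _ _ _ _ _ _ _ _ _ S _ M N D v₀ Pj fr pt hD
  subst hD
  classical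
  -- non-degeneracy
  have hM : ∀ m ∈ M, (∀ n ∈ N, S.B m n = 0) → m = 0 := fun m hm h => S.sp.nd m fun w => by
    obtain ⟨a, ha, b, hb, d, hd, rfl⟩ := fr.dec w
    rw [(Submodule.mem_bot _).1 hd, add_zero, map_add, fr.iM m hm a ha, h b hb, add_zero]
  have h1 : Nat.card W ≤ Nat.card M * Nat.card N := by
    rw [← Nat.card_prod]
    refine Nat.card_le_card_of_surjective (fun p : M × N => (p.1 : W) + p.2) fun w => ?_
    obtain ⟨a, ha, b, hb, d, hd, rfl⟩ := fr.dec w
    exact ⟨(⟨a, ha⟩, ⟨b, hb⟩), by rw [(Submodule.mem_bot _).1 hd, add_zero]⟩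
  have h2 : Nat.card M ≤ Nat.card N := by
    haveI : Module.Finite (ZMod r) N := Module.Finite.of_finite
    have e : Nat.card (Dual (ZMod r) N) = Nat.card N :=
      Nat.card_congr (Free.chooseBasis (ZMod r) N).toDualEquiv.toEquiv.symm
    haveI : Finite (Dual (ZMod r) N) :=
      Finite.of_equiv _ (Free.chooseBasis (ZMod r) N).toDualEquiv.toEquiv
    rw [← e]
    refine Nat.card_le_card_of_injective (fun m : M => (S.B m).domRestrict N) fun a b h => ?_
    refine Subtype.ext (sub_eq_zero.1 (hM _ (M.sub_mem a.2 b.2) fun n hn => ?_))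
    have := LinearMap.congr_fun h ⟨n, hn⟩
    simp only [LinearMap.domRestrict_apply] at this
    rw [map_sub, LinearMap.sub_apply, this, sub_self]
  have hcm : ∀ n, S.Cm M v₀ n (S.t n v₀) := fun n m _ c hc => by
    have := LinearMap.congr_fun (S.comm m n) v₀
    simp only [End.mul_apply, LinearMap.smul_apply] at this
    rw [this, hc, map_smul, smul_smul]
  have hne : ∀ n, S.t n v₀ ≠ 0 := fun n h => by
    obtain ⟨c, hc, e⟩ := S.t_mul (-n) n
    have := LinearMap.congr_fun e v₀
    rw [neg_add_cancel, S.t_zero] at this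
    simp only [End.mul_apply, LinearMap.smul_apply, End.one_apply, h, map_zero] at this
    exact pt.ne ((smul_eq_zero.1 this.symm).resolve_left hc)
  haveI := Fintype.ofFinite N
  have hP : ∀ (f : N → K) (n : N), Pj n (∑ x : N, f x • S.t x v₀) = f n • S.t n v₀ := fun f n => by
    rw [map_sum, Finset.sum_eq_single n]
    · rw [map_smul, pt.self n n _ (hcm n) (by rw [sub_self]; exact Submodule.zero_mem _)]
    · intro b _ hb
      rw [map_smul, pt.zero n b _ (hcm b), smul_zero]
      intro k
      rw [sup_bot_eq] at k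
      exact hb (Subtype.ext (sub_eq_zero.1 (hM _ k fun x hx =>
        fr.iN _ (N.sub_mem n.2 b.2) x hx)).symm)
    · simp
  have h3 : Nat.card K ^ Nat.card N ≤ Nat.card V := by
    rw [← Nat.card_fun]
    refine Nat.card_le_card_of_injective (fun f : N → K => ∑ x : N, f x • S.t x v₀) fun f g h => ?_
    funext n
    have := congrArg (Pj n) h
    simp only [hP] at this
    exact smul_left_injective K (hne n) this
  have h4 : 3 ≤ Nat.card K := by
    have a1 : S.χ 1 ≠ 1 := fun h => one_ne_zero ((S.χ_eq 1).1 h)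
    have a0 : S.χ 1 ≠ 0 := fun h => by
      have := S.χ_add 1 (-1)
      rw [add_neg_cancel, h, zero_mul, (S.χ_eq 0).2 rfl] at this
      exact one_ne_zero this
    haveI := Fintype.ofFinite K
    rw [Nat.card_eq_fintype_card]
    exact Fintype.two_lt_card_iff.2 ⟨0, 1, S.χ 1, zero_ne_one, a0.symm, a1.symm⟩
  calc Nat.card W ≤ Nat.card N * Nat.card N := h1.trans (Nat.mul_le_mul_right _ h2)
    _ < 3 ^ Nat.card N := sq_lt_three_pow _
    _ ≤ Nat.card K ^ Nat.card N := Nat.pow_le_pow_left h4 _
    _ ≤ Nat.card V := h3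

theorem ringEquiv_card_three {K : Type} [Field K] [Finite K] (h : Nat.card K = 3) (σ : K ≃+* K)
    (a : K) : σ a = a := by
  haveI := Fintype.ofFinite K
  have e : a ^ 3 = a := by
    rw [← h, Nat.card_eq_fintype_card]; exact FiniteField.pow_card a
  have : a * (a - 1) * (a + 1) = 0 := by linear_combination e
  rcases mul_eq_zero.1 this with k | k
  · rcases mul_eq_zero.1 k with k | k
    · rw [k, map_zero]
    · rw [sub_eq_zero.1 k, map_one]
  · rw [eq_neg_of_add_eq_zero_left k, map_neg, map_one]

theorem jobGL : JobGL := by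
  intro K V Γ _ _ _ _ _ _ _ _ _ _ sc G H s hK hV
  classical
  have hl : ∀ h : H, ∀ (a : K) (v : V), (h : Γ) • a • v = a • (h : Γ) • v := fun h a v => by
    obtain ⟨σ, k⟩ := s.semi h h.2
    rw [k, ringEquiv_card_three hK]
  let f : H →* End K V :=
    { toFun := fun h =>
        { toFun := fun v => (h : Γ) • v
          map_add' := smul_add _
          map_smul' := hl h }
      map_one' := LinearMap.ext fun v => one_smul _ v
      map_mul' := fun a b => LinearMap.ext fun v => mul_smul (a : Γ) (b : Γ) v }
  have hf : Function.Injective f.toHomUnits := fun a b h => by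
    have := congrArg Units.val h
    exact Subtype.ext (eq_of_smul_eq_smul (α := V) fun v => LinearMap.congr_fun this v)
  haveI : Module.Finite K V := Module.Finite.of_finite
  haveI := Fintype.ofFinite K
  have hc : Nat.card (End K V)ˣ = 48 := by
    have e := Nat.card_congr (Matrix.GeneralLinearGroup.toLin' (finBasisOfFinrankEq K V hV)).toEquiv
    have e2 := Matrix.card_GL_field (𝔽 := K) 2
    rw [← Nat.card_eq_fintype_card, hK] at e2
    refine e.symm.trans (e2.trans ?_)
    simp
  refine H29.isSolvable_of_card_dvd_pow_mul_pow (p := 2) (q := 3) (a := 4) (b := 1) Nat.prime_two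
    Nat.prime_three ?_
  have := Subgroup.card_dvd_of_injective _ hf
  rwa [hc] at this

end H70.CL
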