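import Cfsg.Agent.H91.AHSpec
import Cfsg.Agent.H98.Sylow
import Cfsg.Agent.S0022
import Cfsg.Agent.S0028

/-! AH tower, slot `AB`: class preserving elements of odd order centralise a Sylow 2-subgroup. -/

set_option autoImplicit false

namespace H70.AHAB

open H33.Solv Subgroup MulAction H91.AH H98

theorem selfnorm (sn : JobSN) {M : Type} [Group M] [Finite M] {C T : Subgroup M}
    (hs : Group.IsSolvable C) (hr : ∀ c ∈ C, ∃ d ∈ C, d * c * d⁻¹ = c⁻¹) (hT : IsSyl 2 T C) {d : M}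
    (hd : d ∈ C) (hn : d ∈ normalizer (T : Set M)) : d ∈ T := by
  obtain ⟨S, hS⟩ := hT.exists_sylow
  have := sn C hs (fun c => by
    obtain ⟨d, h1, h2⟩ := hr c c.2
    exact isConj_iff.2 ⟨⟨d, h1⟩, Subtype.ext h2⟩) S (x := ⟨d, hd⟩) (by
      rw [hS]
      exact mem_normalizer_fintype fun x hx => conj_mem_of_mem_normalizer (H := T) hn hx)
  rwa [hS] at this

/-- Burnside's fusion lemma for a self-normalising Sylow subgroup. -/
theorem burn {M : Type} [Group M] [Finite M] {C T : Subgroup M} (hT : IsSyl 2 T C)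
    (sn : ∀ d ∈ C, d ∈ normalizer (T : Set M) → d ∈ T) {m d : M} (hd : d ∈ C)
    (h1 : ∀ t ∈ T, t * m = m * t) (h2 : ∀ t ∈ T, t * (d * m * d⁻¹) = d * m * d⁻¹ * t) :
    d * m * d⁻¹ = m := by
  have s1 : IsSyl 2 T (C ⊓ centralizer {d * m * d⁻¹}) :=
    hT.of_le (le_inf hT.le fun t ht => mem_centralizer_singleton_iff.2 (h2 t ht)) inf_le_left
  have s2 : IsSyl 2 (cj d T) (C ⊓ centralizer {d * m * d⁻¹}) :=
    (hT.cj_of_mem hd).of_le (le_inf (hT.cj_of_mem hd).le (by
      rintro _ ⟨t, ht, rfl⟩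
      refine mem_centralizer_singleton_iff.2 ?_
      change d * t * d⁻¹ * (d * m * d⁻¹) = d * m * d⁻¹ * (d * t * d⁻¹)
      calc _ = d * (t * m) * d⁻¹ := by group
        _ = _ := by rw [h1 t ht]; group)) inf_le_left
  obtain ⟨g, hg, e⟩ := s2.exists_cj_eq s1
  rw [cj_cj, cj_eq_self_iff] at e
  have h3 := h1 _ (sn _ (mul_mem hg.1 hd) e)
  have h4 := mem_centralizer_singleton_iff.1 hg.2
  have h5 : g * (d * m * d⁻¹) * g⁻¹ = m := by
    calc _ = g * d * m * (g * d)⁻¹ := by group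
      _ = m := by rw [h3]; group
  rwa [h4, mul_inv_cancel_right] at h5

theorem aux (sn : JobSN) (n : ℕ) : ∀ (M : Type) [Group M] [Finite M] (C T : Subgroup M) (z : M),
    Nat.card M = n → C.Normal → Group.IsSolvable C → (∀ c ∈ C, ∃ d ∈ C, d * c * d⁻¹ = c⁻¹) →
    IsSyl 2 T C → Odd (orderOf z) → z ∈ normalizer (T : Set M) →
    (∀ c ∈ C, ∃ d ∈ C, z * c * z⁻¹ = d * c * d⁻¹) → ∀ c ∈ T, Commute c z := by
  induction n using Nat.strong_induction_on with
  | _ n ih =>
  intro M _ _ C T z hn hC hs hr hT hz hzT cp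
  by_cases C0 : C = ⊥
  · intro c hc
    rw [show c = 1 by simpa [C0] using hT.le hc]
    exact Commute.one_left z
  obtain ⟨N, q, n0, le, ne, hq, -, qG, -, ab, -⟩ := exists_minN C hs C0
  let π := QuotientGroup.mk' N
  have surj := QuotientGroup.mk'_surjective N
  have lt : Nat.card (M ⧸ N) < n := by
    rw [← hn, card_eq_card_quotient_mul_card_subgroup N]
    exact lt_mul_of_one_lt_right Nat.card_pos ((one_lt_card_iff_ne_bot N).2 ne)
  have q1 := ih _ lt (M ⧸ N) (C.map π) (T.map π) (π z) rfl (hC.map π surj)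
    (Group.isSolvable_of_surjective (π.subgroupMap_surjective C))
    (by
      rintro _ ⟨c, hc, rfl⟩
      obtain ⟨d, h1, h2⟩ := hr c hc
      exact ⟨π d, ⟨d, h1, rfl⟩, by rw [← map_inv, ← map_mul, ← map_mul, h2, map_inv]⟩)
    (hT.map π) (hz.of_dvd_nat (orderOf_map_dvd π z))
    (map_le_normalizer_map π (zpowers_le.2 hzT) ⟨z, mem_zpowers z, rfl⟩)
    (by
      rintro _ ⟨c, hc, rfl⟩
      obtain ⟨d, h1, h2⟩ := cp c hc
      exact ⟨π d, ⟨d, h1, rfl⟩, by
        rw [← map_inv, ← map_inv, ← map_mul, ← map_mul, h2, map_mul, map_mul]⟩)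
  have cm : ∀ c ∈ T, ∀ a ∈ zpowers z, a * c * a⁻¹ * c⁻¹ ∈ N := fun c hc a ⟨k, e⟩ => by
    rw [← QuotientGroup.eq_one_iff]
    change π _ = 1
    have := ((q1 _ ⟨c, hc, rfl⟩).zpow_right k).eq
    rw [← e, map_mul, map_mul, map_mul, map_inv, map_inv, map_zpow, ← this]
    group
  by_cases q2 : q = 2
  swap
  · intro c hc
    have := Fact.mk hq
    have h1 := (IsPGroup.disjoint_of_ne q 2 q2 N T qG hT.isPGroup).le_bot
      (mem_inf.2 ⟨cm c hc z (mem_zpowers z), mul_mem (conj_mem_of_mem_normalizer hzT hc) (inv_mem hc)⟩)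
    rw [mem_bot, mul_inv_eq_one, mul_inv_eq_iff_eq_mul] at h1
    exact h1.symm
  subst q2
  have NT : N ≤ T := hT.le_of_le_normalizer qG le le_normalizer_of_normal
  have co : (Nat.card (zpowers z)).Coprime 2 := by
    rw [Nat.card_zpowers]; exact Nat.coprime_two_right.2 hz
  obtain ⟨k, hk⟩ := IsPGroup.iff_card.1 hT.isPGroup
  have dec : ∀ c ∈ T, ∃ p ∈ T ⊓ centralizer (zpowers z : Set M), c⁻¹ * p ∈ N := fun c hc =>
    Cfsg.Agent.S0022.result (zpowers z) T (zpowers_le.2 hzT) (hk ▸ co.pow_right k)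
      (.inl inferInstance) N NT le_normalizer_of_normal le_normalizer_of_normal c hc (cm c hc)
  have key := Cfsg.Agent.S0028.result 2 (T ⊓ centralizer (zpowers z : Set M)) (zpowers z) N
    (hT.isPGroup.to_inf_left) co qG inf_le_right le_normalizer_of_normal le_normalizer_of_normal
    (fun m hm => by
      have h1 : ∀ t ∈ T, t * m = m * t := fun t ht => by
        obtain ⟨p, hp, e⟩ := dec t ht
        have e1 : Commute p m := hm.2 p hp
        simpa using (e1.mul_left (ab _ e m hm.1).inv_left).eq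
      obtain ⟨d, hd, e⟩ := cp m (le hm.1)
      have h2 := burn hT (fun d => selfnorm sn hs hr hT) hd h1 fun t ht => by
        rw [← e]
        have := h1 _ (conj_mem_of_mem_normalizer' hzT ht)
        calc _ = z * (z⁻¹ * t * z * m) * z⁻¹ := by group
          _ = _ := by rw [this]; group
      rw [← e, mul_inv_eq_iff_eq_mul] at h2
      rintro _ ⟨j, rfl⟩
      exact ((show Commute z m from h2).zpow_left j).eq)
  intro c hc
  obtain ⟨p, hp, e⟩ := dec c hc
  have e1 : Commute p z := (hp.2 z (mem_zpowers z)).symm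
  have e2 : Commute (c⁻¹ * p) z := key (mem_zpowers z) _ e
  simpa using e1.mul_left e2.inv_left

theorem jobAB : JobAB := fun sn M _ _ C T z hC hs hr le hT ho =>
  aux sn _ M C T z rfl hC hs hr
    (isSyl_of_not_dvd_relIndex le hT (by rwa [← Nat.not_even_iff_odd, even_iff_two_dvd] at ho))

end H70.AHAB
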