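import Cfsg.Agent.H91.AHSpec
import Cfsg.Agent.H98.Sylow
import Cfsg.Agent.H3.NormalRankOne
import Cfsg.Agent.S0009
import Cfsg.Agent.S0044

/-! AH tower, slots `G3` and `G4`: groups with cyclic or quaternion Sylow subgroups. -/

set_option autoImplicit false

namespace H70.AHG

open H33.Solv Subgroup MulAction H91.AH H98 Cfsg

variable {Y : Type} [Group Y] [Finite Y]

/-- An element that centralises all `O_q` lies in `C(F)`. -/
theorem memA {y : Y} (h : ∀ q : ℕ, q.Prime → ∀ a ∈ pCore q Y, a * y = y * a) :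
    y ∈ centralizer (fittingSubgroup Y : Set Y) := by
  have : fittingSubgroup Y ≤ centralizer {y} := by
    rw [Cfsg.Agent.S0009.result]
    exact iSup_le fun q a ha => mem_centralizer_singleton_iff.2 (h q q.2 a ha)
  exact fun a ha => mem_centralizer_singleton_iff.1 (this ha)

theorem powA (hs : Group.IsSolvable Y) {q k : ℕ} (hq : q.Prime) {a : Y}
    (ha : a ∈ centralizer (fittingSubgroup Y : Set Y)) (e : a ^ q ^ k = 1) : a ∈ pCore q Y :=
  have := Fact.mk hq
  zpowers_le.1 (H2.le_pCore_of_le_fitting (isPGroup_zpowers e)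
    (zpowers_le.2 (Cfsg.Agent.S0044.result ha)))

theorem cyc_odd (h : CQ Y) {q : ℕ} (hq : q.Prime) (q2 : q ≠ 2) {P : Subgroup Y} (hP : IsPGroup q P) :
    IsCyclic P := (h q P hq hP).resolve_right fun k => q2 k.1

theorem ker_conj {Q : Subgroup Y} [Q.Normal] {y : Y} (h : MulAut.conjNormal (H := Q) y = 1) :
    ∀ a ∈ Q, a * y = y * a := fun a ha => by
  have := congrArg Subtype.val (DFunLike.congr_fun h ⟨a, ha⟩)
  exact (mul_inv_eq_iff_eq_mul.1 this).symm

theorem jobG3 : JobG3 := by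
  intro qa Y _ _ hs cq fr r hr r2 r7
  have := Fact.mk hr
  by_cases h0 : pCore r Y = ⊥
  swap
  · obtain ⟨k, hk⟩ := IsPGroup.iff_card.1 (H2.pCore_isPGroup r Y)
    obtain ⟨c, hc⟩ := exists_prime_orderOf_dvd_card' (G := pCore r Y) r (hk ▸ dvd_pow_self r (by
      rintro rfl
      exact h0 (card_eq_one.1 hk)))
    rw [← orderOf_coe] at hc
    refine (Set.ncard_le_ncard (t := (zpowers (c : Y) : Set Y)) fun y hy => ?_).trans ?_
    · have e : y ^ r = 1 := by rw [← show orderOf y = r from hy, pow_orderOf_eq_one]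
      exact H3.mem_zpowers_of_isCyclic_subgroup (cyc_odd cq hr r2 (IsPGroup.to_sup_of_normal_left
        (H2.pCore_isPGroup r Y) (isPGroup_zpowers (k := 1) (by rw [pow_one, e]))))
        (mem_sup_right (mem_zpowers y)) (mem_sup_left c.2) e hc
    · rw [← Nat.card_coe_set_eq]
      change Nat.card (zpowers (c : Y)) ≤ 8
      rw [Nat.card_zpowers, hc]; omega
  have triv : ∀ a ∈ centralizer (fittingSubgroup Y : Set Y), a ^ r = 1 → a = 1 := fun a ha e => by
    have := powA hs (k := 1) hr ha (by rw [pow_one, e])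
    rwa [h0, mem_bot] at this
  have odd : ∀ y : Y, orderOf y = r → ∀ q : ℕ, q.Prime → q ≠ 2 → ∀ a ∈ pCore q Y, Commute y a :=
    fun y hy q hq q2 a ha => by
      by_cases e : q = r
      · rw [e, h0, mem_bot] at ha
        rw [ha]; exact Commute.one_right y
      have := Fact.mk hq
      have := cyc_odd cq hq q2 (H2.pCore_isPGroup q Y)
      obtain ⟨k, hk⟩ := IsPGroup.iff_card.1 (H2.pCore_isPGroup q Y)
      exact fr y (hy ▸ hr) _ inferInstance
        (by rw [hk, hy]; exact ((Nat.coprime_primes hq hr).2 e).pow_left k)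
        (le_normalizer_of_normal (mem_top y)) a ha
  refine le_trans (Set.ncard_le_ncard_of_injOn (MulAut.conjNormal (H := pCore 2 Y))
    (fun y hy => And.intro (fun e => ?_) ?_) fun y1 h1 y2 h2 e => ?_) (qa (pCore 2 Y)
      (H2.pCore_isPGroup 2 Y) ((cq 2 _ Nat.prime_two (H2.pCore_isPGroup 2 Y)).imp_right And.right))
  · have hy' : orderOf y = r := hy
    have := triv y (memA fun q hq a ha => by
      by_cases q2 : q = 2
      · exact ker_conj e a (q2 ▸ ha)
      · exact (odd y hy q hq q2 a ha).symm) (by rw [← hy', pow_orderOf_eq_one])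
    rw [this, orderOf_one] at hy'
    exact hr.one_lt.ne hy'
  · exact (hr.odd_of_ne_two r2).of_dvd_nat ((orderOf_map_dvd _ y).trans (dvd_of_eq hy))
  · have h1' : orderOf y1 = r := h1
    have h2' : orderOf y2 = r := h2
    have hf : y1 * y2⁻¹ ∈ centralizer (fittingSubgroup Y : Set Y) := memA fun q hq a ha => by
      by_cases q2 : q = 2
      · exact ker_conj (by rw [map_mul, map_inv, e, mul_inv_cancel]) a (q2 ▸ ha)
      · exact ((odd y1 h1 q hq q2 a ha).mul_left (odd y2 h2 q hq q2 a ha).inv_left).symm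
    have := H2.fitting_normal Y
    have c := fr y2 (h2' ▸ hr) (centralizer (fittingSubgroup Y : Set Y))
      ⟨⟨fun a b => Subtype.ext (b.2 a (Cfsg.Agent.S0044.result a.2))⟩⟩ (by
        rw [h2', Nat.coprime_comm, hr.coprime_iff_not_dvd]
        intro k
        obtain ⟨a, ha⟩ := exists_prime_orderOf_dvd_card' r k
        have := triv a a.2 (by rw [← ha, ← orderOf_coe, pow_orderOf_eq_one])
        rw [← orderOf_coe, this, orderOf_one] at ha
        exact hr.one_lt.ne ha)
      (le_normalizer_of_normal (mem_top y2)) _ hf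
    refine mul_inv_eq_one.1 (triv _ hf ?_)
    have e1 := c.symm.mul_pow r
    rw [inv_mul_cancel_right, ← h1', pow_orderOf_eq_one, h1', ← h2', pow_orderOf_eq_one, mul_one] at e1
    rw [← h2', ← e1]

/-- The cyclic subgroup of index at most two. -/
theorem exists_s (h : CQ Y) {S : Subgroup Y} (hS : IsPGroup 2 S) :
    ∃ s ∈ S, ∀ x ∈ S, x ∈ zpowers s ∨ orderOf x = 4 ∧ x * s * x⁻¹ = s⁻¹ := by
  rcases h 2 S Nat.prime_two hS with c | ⟨-, n, ⟨e⟩⟩
  · obtain ⟨s, hs⟩ := c.exists_generator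
    refine ⟨s, s.2, fun x hx => .inl ?_⟩
    obtain ⟨k, hk⟩ := hs ⟨x, hx⟩
    exact ⟨k, congrArg Subtype.val hk⟩
  refine ⟨e.symm (.a 1), (e.symm (.a 1)).2, fun x hx => ?_⟩
  obtain ⟨z, hz⟩ := e.symm.surjective ⟨x, hx⟩
  obtain rfl : (e.symm z : Y) = x := congrArg Subtype.val hz
  rcases z with i | i
  · refine .inl ⟨i.val, ?_⟩
    change (e.symm (.a 1) : Y) ^ (i.val : ℤ) = _
    rw [zpow_natCast, ← coe_pow, ← map_pow, QuaternionGroup.a_one_pow, ZMod.natCast_zmod_val]
  · refine .inr ⟨by rw [orderOf_coe, e.symm.orderOf_eq, QuaternionGroup.orderOf_xa], ?_⟩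
    rw [mul_inv_eq_iff_eq_mul, eq_inv_mul_iff_mul_eq, ← coe_mul, ← coe_mul, ← map_mul, ← map_mul]
    simp

theorem jobG4 : JobG4 := by
  intro Y _ _ hs cq h7
  classical
  obtain ⟨S, hS⟩ := exists_isSyl 2 (⊤ : Subgroup Y)
  obtain ⟨s, sS, hs'⟩ := exists_s cq hS.isPGroup
  have QS : pCore 2 Y ≤ S := hS.le_of_le_normalizer (H2.pCore_isPGroup 2 Y) le_top
    le_normalizer_of_normal
  have key : ∀ y : Y, orderOf y = 16 → y ^ 4 ∈ zpowers s := fun y hy => by
    obtain ⟨g, -, hg⟩ := hS.exists_cj_le (isPGroup_zpowers (x := y) (k := 4)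
      (by rw [← pow_orderOf_eq_one y, hy]; rfl)) le_top
    have o1 : orderOf (g * y * g⁻¹) = 16 := by rw [← hy]; exact (MulAut.conj g).orderOf_eq y
    have m1 := (hs' _ (hg (conj_mem_cj (mem_zpowers y)))).resolve_right fun k => by
      rw [o1] at k; exact absurd k.1 (by decide)
    have back : ∀ n : ℕ, (g * y * g⁻¹) ^ n ∈ pCore 2 Y → y ^ n ∈ pCore 2 Y := fun n hn => by
      rw [conj_pow] at hn
      simpa [mul_assoc] using (pCore_normal 2 Y).conj_mem _ hn g⁻¹
    generalize g * y * g⁻¹ = x at o1 m1 back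
    by_cases hQ : pCore 2 Y ≤ zpowers s
    · refine hQ (back 4 (powA hs (k := 2) Nat.prime_two (memA fun q hq a ha => ?_)
        (by rw [← pow_mul, ← pow_orderOf_eq_one x, o1]; rfl)))
      by_cases q2 : q = 2
      · obtain ⟨i, rfl⟩ := hQ (q2 ▸ ha)
        obtain ⟨j, rfl⟩ := m1
        exact (((Commute.refl s).zpow_zpow i j).pow_right 4).eq
      have := Fact.mk hq
      have := cyc_odd cq hq q2 (H2.pCore_isPGroup q Y)
      obtain ⟨k, hk⟩ := IsPGroup.iff_card.1 (H2.pCore_isPGroup q Y)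
      refine ker_conj ?_ a ha
      have d1 := orderOf_map_dvd (MulAut.conjNormal (H := pCore q Y)) x
      have d2 := orderOf_dvd_natCard (MulAut.conjNormal (H := pCore q Y) x)
      rw [map_pow, ← orderOf_dvd_iff_pow_eq_one]
      rw [IsCyclic.card_mulAut, hk] at d2
      rw [o1] at d1
      generalize orderOf (MulAut.conjNormal (H := pCore q Y) x) = o at d1 d2
      rcases k with _ | k
      · exact d2.trans (by simp)
      have q7 := h7 q hq ((dvd_pow_self q k.succ_ne_zero).trans (hk ▸ card_subgroup_dvd_card _))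
      rw [Nat.totient_prime_pow_succ hq] at d2
      have d3 := (Nat.Coprime.coprime_dvd_left d1 (Nat.Coprime.pow 4 k
        ((Nat.coprime_primes Nat.prime_two hq).2 (Ne.symm q2)))).dvd_of_dvd_mul_left d2
      have d4 := Nat.dvd_gcd d1 d3
      have := hq.two_le
      refine d4.trans ?_
      interval_cases q <;> first | decide | exact absurd hq (by decide)
    · obtain ⟨x', h1, h2⟩ := SetLike.not_le_iff_exists.1 hQ
      have e := ((hs' x' (QS h1)).resolve_left h2).2
      have s2 : s ^ 2 ∈ pCore 2 Y := by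
        have := mul_mem ((pCore_normal 2 Y).conj_mem _ h1 s) (inv_mem h1)
        rwa [show s * x' * s⁻¹ * x'⁻¹ = s * (x' * s * x'⁻¹)⁻¹ by group, e, inv_inv, ← pow_two] at this
      obtain ⟨j, rfl⟩ := m1
      have y2 := back 2 (by
        have := zpow_mem s2 j
        rwa [← zpow_natCast, ← zpow_mul, mul_comm, zpow_mul, zpow_natCast] at this)
      have := (hs' _ (QS y2)).resolve_right fun k => by
        rw [orderOf_pow, hy] at k; exact absurd k.1 (by decide)
      rw [show 4 = 2 * 2 from rfl, pow_mul]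
      exact pow_mem this 2
  rcases Set.eq_empty_or_nonempty {w : Y | ∃ y : Y, orderOf y = 16 ∧ w = y ^ 4} with e | ⟨_, y0, h0, rfl⟩
  · rw [e]; simp
  have o4 : ∀ y : Y, orderOf y = 16 → orderOf (y ^ 4) = 4 := fun y hy => by
    rw [orderOf_pow, hy]; decide
  refine (Set.ncard_le_ncard (t := {y0 ^ 4, (y0 ^ 4) ^ 3}) ?_).trans
    ((Set.ncard_insert_le _ _).trans (by simp))
  rintro _ ⟨y, hy, rfl⟩
  have h1 := H3.mem_zpowers_of_isCyclic_subgroup (H := zpowers s) inferInstance (key y hy) (key y0 h0)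
    (by rw [← pow_orderOf_eq_one (y ^ 4), o4 y hy]) (o4 y0 h0)
  rw [mem_zpowers_iff_mem_range_orderOf, o4 y0 h0, Finset.mem_image] at h1
  obtain ⟨i, hi, e⟩ := h1
  have h2 := o4 y hy
  rw [← e, orderOf_pow, o4 y0 h0] at h2
  rw [Finset.mem_range] at hi
  rw [← e]
  interval_cases i <;> simp at h2 ⊢

end H70.AHG
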