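import Cfsg.Agent.H91.AHSpec
import Cfsg.Agent.H1.Coprime

/-! AH tower, slot `TP3`: the lower bound for centraliser orders in `V H`. -/

set_option autoImplicit false

namespace H70.AHTP3

open H33.Solv Subgroup MulAction H91.AH

theorem parts {X : Type} [Group X] [Finite X] {p : ℕ} (hp : p.Prime) (x : X) :
    ∃ (a g : X) (j n : ℕ), Commute a x ∧ x = a * g ∧ a ^ p ^ j = 1 ∧ g ^ n = 1 ∧ n.Coprime p := by
  obtain ⟨j, n, hn, e⟩ := Nat.exists_eq_pow_mul_and_not_dvd (orderOf_pos x).ne' p hp.ne_one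
  have c := ((Nat.Prime.coprime_iff_not_dvd hp).2 hn)
  obtain ⟨m, m1, m2⟩ := Nat.chineseRemainder (c.pow_left j) 1 0
  obtain ⟨k, k1, k2⟩ := Nat.chineseRemainder (c.pow_left j) 0 1
  refine ⟨x ^ m, x ^ k, j, n, (Commute.refl x).pow_left m, ?_, ?_, ?_, c.symm⟩
  · rw [← pow_add]
    conv_lhs => rw [← pow_one x]
    rw [pow_eq_pow_iff_modEq, e]
    exact ((Nat.modEq_and_modEq_iff_modEq_mul (c.pow_left j)).1 ⟨m1.add k1, m2.add k2⟩).symm
  · rw [← pow_mul, ← orderOf_dvd_iff_pow_eq_one, e, mul_comm]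
    exact Nat.mul_dvd_mul_right (Nat.modEq_zero_iff_dvd.1 m2) _
  · rw [← pow_mul, ← orderOf_dvd_iff_pow_eq_one, e]
    exact Nat.mul_dvd_mul_right (Nat.modEq_zero_iff_dvd.1 k1) _

theorem jobTP3 : JobTP3 := by
  intro X _ _ hs p V _ mon W _ _ π md x
  have := Fact.mk mon.pr
  obtain ⟨a, g, j, n, ax, e, ha, hg, hn⟩ := parts mon.pr x
  have aV : a ∈ V := by
    rw [← QuotientGroup.eq_one_iff, ← orderOf_eq_one_iff]
    refine Nat.eq_one_of_dvd_coprimes (((Nat.Prime.coprime_iff_not_dvd mon.pr).2 mon.cop).pow_left j)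
      (orderOf_dvd_of_pow_eq_one (by rw [← QuotientGroup.mk_pow, ha, QuotientGroup.mk_one]))
      (orderOf_dvd_natCard _)
  have fx : ∀ (h : X), ∀ b ∈ V, (h : X ⧸ V) • π b = π b → Commute h b := fun h b hb k => by
    rw [md.act h b hb, md.sec.eq_iff (‹V.Normal›.conj_mem b hb h) hb, mem_bot, inv_mul_eq_one] at k
    exact mul_inv_eq_iff_eq_mul.1 k
  have gx : (g : X ⧸ V) = x := by
    rw [e, QuotientGroup.mk_mul, (QuotientGroup.eq_one_iff a).2 aV, one_mul]
  obtain ⟨k, hk⟩ := IsPGroup.iff_card.1 (show IsPGroup p V from fun v =>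
    ⟨1, Subtype.ext (by simpa using mon.ex v v.2)⟩)
  have lift : ∀ h : (centralizer ({(x : X ⧸ V)} : Set (X ⧸ V)) ⊓ stabilizer (X ⧸ V) (π a) :
      Subgroup (X ⧸ V)), ∃ s : X, (s : X ⧸ V) = h ∧ Commute s x := fun ⟨h, h1, h2⟩ => by
    obtain ⟨h, rfl⟩ := QuotientGroup.mk_surjective h
    obtain ⟨v, hv, hc⟩ := H1.exists_centralizer_mem_coset' (A := zpowers g) (N := V)
      le_normalizer_of_normal (by
        rw [Nat.card_zpowers, hk]
        exact (Nat.Coprime.coprime_dvd_left (orderOf_dvd_of_pow_eq_one hg) hn).pow_right k)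
      (.inl inferInstance) h (by
        rintro _ ⟨i, rfl⟩
        have := ((mem_cent.1 h1).zpow_right i).eq
        rw [← QuotientGroup.eq_one_iff]
        simp only [QuotientGroup.mk_mul, QuotientGroup.mk_inv, QuotientGroup.mk_zpow, gx, ← this]
        group)
    have e1 : ((v * h : X) : X ⧸ V) = h := by
      rw [QuotientGroup.mk_mul, (QuotientGroup.eq_one_iff v).2 hv, one_mul]
    refine ⟨v * h, e1, ?_⟩
    rw [e]
    exact (fx _ a aV (e1 ▸ h2)).mul_right (hc g (mem_zpowers g)).symm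
  choose σ s1 s2 using lift
  choose β b1 b2 using md.sec.surj
  refine ⟨π a, by rw [md.act x a aV, ← ax.eq, mul_inv_cancel_right], ?_⟩
  rw [lk, ← Nat.card_prod]
  refine Nat.card_le_card_of_injective (fun q => ⟨β q.1 * σ q.2, mem_cent.2
    ((fx x _ (b1 _) (by rw [b2]; exact q.1.2)).symm.mul_left (s2 _))⟩) ?_
  rintro ⟨w, h⟩ ⟨w', h'⟩ k
  have k1 : β w * σ h = β w' * σ h' := congrArg Subtype.val k
  have k2 := congrArg (QuotientGroup.mk (s := V)) k1
  rw [QuotientGroup.mk_mul, QuotientGroup.mk_mul, (QuotientGroup.eq_one_iff _).2 (b1 _),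
    (QuotientGroup.eq_one_iff _).2 (b1 _), one_mul, one_mul, s1, s1] at k2
  obtain rfl : h = h' := Subtype.ext k2
  have k3 := congrArg π (mul_right_cancel k1)
  rw [b2, b2] at k3
  rw [Subtype.ext k3]

end H70.AHTP3
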