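import Cfsg.Agent.Base

/-! Abelian permutation groups of large order. -/

open Equiv Equiv.Perm

namespace H70.Ab

universe u

variable {α : Type u} [Fintype α] [DecidableEq α]

/-- the size of a colour class -/
noncomputable def sz {α Q : Type*} (c : α → Q) (q : Q) : ℕ := Nat.card {x // c x = q}

omit [DecidableEq α] in
theorem sum_sz {Q : Type*} [Fintype Q] (c : α → Q) : ∑ q, sz c q = Fintype.card α := by
  rw [← Nat.card_eq_fintype_card, ← Nat.card_congr (sigmaFiberEquiv c), Nat.card_sigma]; rfl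

omit [DecidableEq α] in
theorem exists_orbits (A : Subgroup (Perm α)) (hA : IsMulCommutative A) :
    ∃ (Q : Type u) (_ : Fintype Q) (c : α → Q), (∀ s ∈ A, ∀ x, c (s x) = c x) ∧
      (∀ s ∈ A, ∀ x y, c x = c y → s x = x → s y = y) ∧ (∀ x y, c x = c y → ∃ s ∈ A, s x = y) ∧
      Function.Surjective c ∧ Nat.card A ∣ ∏ q, sz c q ∧
      (Nat.card A = ∏ q, sz c q → ∀ s ∈ A, ∀ q, ∃ t ∈ A, (∀ x, c x = q → t x = s x) ∧ ∀ x, c x ≠ q → t x = x) := by
  classical
  let Q := MulAction.orbitRel.Quotient A α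
  let c : α → Q := Quotient.mk''
  have := Fintype.ofFinite Q
  have tr : ∀ x y, c x = c y → ∃ s ∈ A, s x = y := fun x y h => by
    obtain ⟨s, hs⟩ := MulAction.orbitRel_apply.1 (Quotient.exact' h.symm)
    exact ⟨s, s.2, hs⟩
  have cm : ∀ s ∈ A, ∀ t ∈ A, ∀ x, s (t x) = t (s x) := fun s hs t ht x =>
    congrArg (fun u : A => u.1 x) (hA.is_comm.comm ⟨s, hs⟩ ⟨t, ht⟩)
  have eqn : ∀ s ∈ A, ∀ t ∈ A, ∀ x y, c x = c y → s x = t x → s y = t y := fun s hs t ht x y h e => by
    obtain ⟨r, hr, rfl⟩ := tr x y h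
    rw [cm s hs r hr, e, cm t ht r hr]
  have co : ∀ q : Q, c q.out = q := fun q => Quotient.out_eq' q
  have hN : ∀ q : Q, (MulAction.stabilizer A q.out).Normal := fun q => inferInstance
  let f : A →* ∀ q : Q, A ⧸ MulAction.stabilizer A q.out := MonoidHom.pi fun q => QuotientGroup.mk' _
  have hf' : ∀ (s t : A) (q : Q), f s q = f t q ↔ s.1 q.out = t.1 q.out := fun s t q => by
    change (s : A ⧸ MulAction.stabilizer A q.out) = t ↔ _
    rw [QuotientGroup.eq, MulAction.mem_stabilizer_iff, mul_smul, inv_smul_eq_iff, eq_comm]; rfl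
  have hf : Function.Injective f := fun s t h => Subtype.ext (Equiv.ext fun x =>
    eqn s s.2 t t.2 _ x (co (c x)) ((hf' s t _).1 (congrFun h _)))
  have hc : Nat.card (∀ q : Q, A ⧸ MulAction.stabilizer A q.out) = ∏ q, sz c q := by
    rw [Nat.card_pi]
    refine Finset.prod_congr rfl fun q _ => ?_
    rw [← Nat.card_congr (MulAction.orbitEquivQuotientStabilizer A q.out)]
    refine Nat.card_congr (Equiv.subtypeEquivRight fun x => ?_)
    rw [← MulAction.orbitRel_apply, ← Quotient.eq'', Quotient.out_eq']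
  refine ⟨Q, this, c, fun s hs x => Quotient.sound' (MulAction.orbitRel_apply.2 ⟨⟨s, hs⟩, rfl⟩),
    fun s hs x y h e => eqn s hs 1 A.one_mem x y h e, tr, fun q => ⟨_, co q⟩,
    hc ▸ Subgroup.card_dvd_of_injective f hf, fun h s hs q => ?_⟩
  obtain ⟨t, ht⟩ := ((Nat.bijective_iff_injective_and_card f).2 ⟨hf, h.trans hc.symm⟩).2
    (Pi.mulSingle q (f ⟨s, hs⟩ q))
  refine ⟨t, t.2, fun x hx => eqn _ t.2 s hs q.out x ((co q).trans hx.symm) ((hf' t ⟨s, hs⟩ q).1 ?_),
    fun x hx => eqn _ t.2 1 A.one_mem (c x).out x (co _) ((hf' t 1 _).1 ?_)⟩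
  · rw [ht, Pi.mulSingle_eq_same]
  · rw [ht, Pi.mulSingle_eq_of_ne hx, map_one, Pi.one_apply]

theorem cube_le (m : ℕ) : m ^ 3 ≤ 3 ^ m := by
  induction m using Nat.strong_induction_on with
  | _ m ih =>
    rcases Nat.lt_or_ge m 4 with h | h
    · interval_cases m <;> simp
    · obtain ⟨k, rfl⟩ := Nat.exists_eq_add_of_le' h
      have := ih (k + 3) (by omega)
      calc _ ≤ 3 * (k + 3) ^ 3 := by nlinarith [Nat.zero_le (k ^ 3), Nat.zero_le (k ^ 2)]
        _ ≤ _ := by rw [pow_succ 3 (k + 3)]; omega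

theorem cube_le' (m : ℕ) (h2 : m ≠ 2) (h3 : m ≠ 3) (h4 : m ≠ 4) : 243 * m ^ 3 ≤ 125 * 3 ^ m := by
  rcases Nat.lt_or_ge m 5 with h | h
  · interval_cases m <;> simp_all
  · induction m, h using Nat.le_induction with
    | base => simp
    | succ k hk ih =>
      have := ih (by omega) (by omega) (by omega)
      calc _ ≤ 243 * (3 * k ^ 3) := by nlinarith [Nat.zero_le (k ^ 3), Nat.zero_le (k ^ 2)]
        _ ≤ _ := by rw [pow_succ 3 k]; omega

theorem prod_cube_le {Q : Type*} (s : Finset Q) (n : Q → ℕ) : (∏ q ∈ s, n q) ^ 3 ≤ 3 ^ ∑ q ∈ s, n q := by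
  rw [← Finset.prod_pow, ← Finset.prod_pow_eq_pow_sum]
  exact Finset.prod_le_prod' fun q _ => cube_le _

theorem parts_mem {Q : Type*} [Fintype Q] (n : Q → ℕ) (h : 4096 * 3 ^ ∑ q, n q ≤ 6561 * (∏ q, n q) ^ 3) (q : Q) :
    n q = 2 ∨ n q = 3 ∨ n q = 4 := by
  classical
  by_contra hn
  push Not at hn
  have h1 := cube_le' _ hn.1 hn.2.1 hn.2.2
  have h2 := prod_cube_le (Finset.univ.erase q) n
  rw [← Finset.mul_prod_erase _ _ (Finset.mem_univ q), ← Finset.add_sum_erase _ _ (Finset.mem_univ q), mul_pow,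
    pow_add] at h
  have h3 := Nat.mul_le_mul h1 h2
  have h4 : 0 < 3 ^ n q * 3 ^ ∑ x ∈ Finset.univ.erase q, n x := by positivity
  nlinarith

theorem count_parts {Q : Type*} [Fintype Q] (n : Q → ℕ) (h : ∀ q, n q = 2 ∨ n q = 3 ∨ n q = 4) :
    ∏ q, n q = 2 ^ (Nat.card {q // n q = 2} + 2 * Nat.card {q // n q = 4}) * 3 ^ Nat.card {q // n q = 3} ∧
    ∑ q, n q = 2 * (Nat.card {q // n q = 2} + 2 * Nat.card {q // n q = 4}) + 3 * Nat.card {q // n q = 3} := by
  have e : ∀ k, Nat.card {q // n q = k} = ∑ q, if n q = k then 1 else 0 := fun k => by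
    rw [Nat.card_eq_fintype_card, Fintype.card_subtype, Finset.card_filter]
  simp only [e, Finset.mul_sum, ← Finset.sum_add_distrib, ← Finset.prod_pow_eq_pow_sum, ← Finset.prod_mul_distrib]
  constructor
  · refine Finset.prod_congr rfl fun q _ => ?_
    rcases h q with h | h | h <;> simp [h]
  · refine Finset.sum_congr rfl fun q _ => ?_
    rcases h q with h | h | h <;> simp [h]

theorem two_three_le (j e b : ℕ) : 2 ^ (3 * j + e) * 3 ^ b ≤ 2 ^ e * 3 ^ (b + 2 * j) := by
  have : 8 ^ j ≤ 9 ^ j := Nat.pow_le_pow_left (by norm_num) j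
  rw [pow_add, pow_mul, pow_add, pow_mul]
  norm_num
  nlinarith [Nat.zero_le (2 ^ e * 3 ^ b)]

omit [DecidableEq α] in
/-- an abelian group of large order, in the symmetric group -/
theorem sym_large (A : Subgroup (Perm α)) (hA : IsMulCommutative A)
    (h : 4096 * 3 ^ Fintype.card α ≤ 6561 * Nat.card A ^ 3) :
    ∃ e b, Nat.card A ≤ 2 ^ e * 3 ^ b ∧ Fintype.card α = 2 * e + 3 * b := by
  obtain ⟨Q, _, c, -, -, -, hc, h1, -⟩ := exists_orbits A hA
  have p : 0 < ∏ q, sz c q := Finset.prod_pos fun q _ => by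
    obtain ⟨x, hx⟩ := hc q
    have : Nonempty {x // c x = q} := ⟨⟨x, hx⟩⟩
    exact Nat.card_pos
  have h2 := Nat.le_of_dvd p h1
  have := count_parts _ (parts_mem (sz c) (by
    rw [sum_sz]; exact h.trans (Nat.mul_le_mul_left _ (Nat.pow_le_pow_left h2 3))))
  exact ⟨_, _, this.1 ▸ h2, sum_sz c ▸ this.2⟩

/-- permutations which act on the colour classes as three-cycles or double transpositions -/
def Nice {α Q : Type*} (c : α → Q) (s : Perm α) : Prop :=
  (∀ x, c (s x) = c x) ∧ (∀ x y, c x = c y → s x = x → s y = y) ∧ ∀ x, sz c (c x) = 4 → s (s x) = x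

/-- restriction to a colour class -/
noncomputable def res {Q : Type*} {c : α → Q} {q : Q} {k : ℕ} (hk : sz c q = k) (s : Perm α) (hs : ∀ x, c (s x) = c x) :
    Perm (Fin k) :=
  (Finite.equivFinOfCardEq hk).permCongr (s.subtypePerm fun x => by rw [hs])

omit [DecidableEq α] in
theorem res_apply {Q : Type*} {c : α → Q} {q : Q} {k : ℕ} (hk : sz c q = k) (s : Perm α) (hs : ∀ x, c (s x) = c x)
    (x : {x // c x = q}) :
    res hk s hs (Finite.equivFinOfCardEq hk x) = Finite.equivFinOfCardEq hk ⟨s x, (hs x).trans x.2⟩ := by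
  simp [res, subtypePerm]

omit [DecidableEq α] in
theorem res_semi {Q : Type*} {c : α → Q} {q : Q} {k : ℕ} (hk : sz c q = k) {s : Perm α} (hs : ∀ x, c (s x) = c x)
    (h : ∀ x y, c x = c y → s x = x → s y = y) (i j : Fin k) (e : res hk s hs i = i) : res hk s hs j = j := by
  obtain ⟨x, rfl⟩ := (Finite.equivFinOfCardEq hk).surjective i
  obtain ⟨y, rfl⟩ := (Finite.equivFinOfCardEq hk).surjective j
  rw [res_apply] at e ⊢
  exact congrArg _ (Subtype.ext (h x y (x.2.trans y.2.symm) (congrArg Subtype.val (Equiv.injective _ e))))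

omit [DecidableEq α] in
theorem Nice.commute {Q : Type*} {c : α → Q} (hc : ∀ q, sz c q = 3 ∨ sz c q = 4) {s t : Perm α} (hs : Nice c s)
    (ht : Nice c t) : Commute s t := by
  refine Equiv.ext fun x => ?_
  have key : ∀ {k} (hk : sz c (c x) = k), res hk s hs.1 * res hk t ht.1 = res hk t ht.1 * res hk s hs.1 →
      (s * t) x = (t * s) x := fun hk e => by
    have := Equiv.congr_fun e (Finite.equivFinOfCardEq hk ⟨x, rfl⟩)
    simp only [mul_apply, res_apply] at this
    exact congrArg Subtype.val (Equiv.injective _ this)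
  rcases hc (c x) with h | h
  · have : ∀ s t : Perm (Fin 3), (∀ i j, s i = i → s j = j) → (∀ i j, t i = i → t j = j) → s * t = t * s := by
      decide
    exact key h (this _ _ (res_semi h _ hs.2.1) (res_semi h _ ht.2.1))
  · have : ∀ s t : Perm (Fin 4), (∀ i j, s i = i → s j = j) → (∀ i j, t i = i → t j = j) → (∀ i, s (s i) = i) →
        (∀ i, t (t i) = i) → s * t = t * s := by
      decide +kernel
    have k : ∀ {s : Perm α} (hs : Nice c s) i, res h s hs.1 (res h s hs.1 i) = i := fun hs i => by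
      obtain ⟨y, rfl⟩ := (Finite.equivFinOfCardEq h).surjective i
      rw [res_apply, res_apply]
      exact congrArg _ (Subtype.ext (hs.2.2 y (by rw [y.2, h])))
    exact key h (this _ _ (res_semi h _ hs.2.1) (res_semi h _ ht.2.1) (k hs) (k ht))

theorem sign_res {Q : Type*} {c : α → Q} {q : Q} {k : ℕ} (hk : sz c q = k) {s : Perm α} (hs : ∀ x, c (s x) = c x)
    (h : ∀ x, c x ≠ q → s x = x) : sign (res hk s hs) = sign s := by
  classical
  rw [res, sign_permCongr, sign_subtypePerm _ _ fun x hx => by_contra fun e => hx (h x e)]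

/-- an abelian group of large order, in the alternating group -/
theorem alt_large (A : Subgroup (Perm α)) (hA : IsMulCommutative A) (he : A ≤ alternatingGroup α)
    (h : 4096 * 3 ^ Fintype.card α ≤ 6561 * Nat.card A ^ 3) :
    ∃ (Q : Type u) (_ : Fintype Q) (c : α → Q), (∀ q, sz c q = 3 ∨ sz c q = 4) ∧ (∀ s ∈ A, Nice c s) ∧
      Nat.card A = 2 ^ (2 * Nat.card {q // sz c q = 4}) * 3 ^ Nat.card {q // sz c q = 3} ∧
      Fintype.card α = 4 * Nat.card {q // sz c q = 4} + 3 * Nat.card {q // sz c q = 3} := by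
  obtain ⟨Q, _, c, h1, h2, h3, hc, h4, h5⟩ := exists_orbits A hA
  have p : 0 < ∏ q, sz c q := Finset.prod_pos fun q _ => by
    obtain ⟨x, hx⟩ := hc q
    have : Nonempty {x // c x = q} := ⟨⟨x, hx⟩⟩
    exact Nat.card_pos
  have full : Nat.card A = ∏ q, sz c q := by
    obtain ⟨m, hm⟩ := h4
    have := prod_cube_le Finset.univ (sz c)
    rw [sum_sz, hm, mul_pow] at this
    rcases Nat.lt_or_ge m 2 with h6 | h6
    · interval_cases m
      · omega
      · omega
    · have h7 := Nat.pow_le_pow_left h6 3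
      have : 0 < 3 ^ Fintype.card α := by positivity
      nlinarith [Nat.zero_le (Nat.card A ^ 3)]
  have hp := parts_mem (sz c) (by rw [sum_sz, ← full]; exact h)
  have sg : ∀ s (hs : s ∈ A) q k (hk : sz c q = k), sign (res hk s (h1 s hs)) = 1 := fun s hs q k hk => by
    obtain ⟨t, ht, t1, t2⟩ := h5 full s hs q
    have : res hk s (h1 s hs) = res hk t (h1 t ht) := Equiv.ext fun i => by
      obtain ⟨y, rfl⟩ := (Finite.equivFinOfCardEq hk).surjective i
      rw [res_apply, res_apply]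
      exact congrArg _ (Subtype.ext (t1 y y.2).symm)
    rw [this, sign_res hk _ t2]
    exact he ht
  have n2 : ∀ q, sz c q ≠ 2 := fun q hq => by
    obtain ⟨x, hx⟩ := (Finite.equivFinOfCardEq hq).surjective 0
    obtain ⟨y, hy⟩ := (Finite.equivFinOfCardEq hq).surjective 1
    obtain ⟨s, hs, e⟩ := h3 x y (x.2.trans y.2.symm)
    have : ∀ s : Perm (Fin 2), sign s = 1 → s 0 ≠ 1 := by decide
    refine this _ (sg s hs q 2 hq) ?_
    rw [← hx, res_apply, ← hy]
    exact congrArg _ (Subtype.ext e)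
  have := count_parts _ hp
  rw [sum_sz, ← full, show Nat.card {q // sz c q = 2} = 0 from
    Nat.card_eq_zero.2 (Or.inl ⟨fun q => n2 q.1 q.2⟩), zero_add] at this
  refine ⟨Q, ‹_›, c, fun q => (hp q).resolve_left (n2 q), fun s hs => ⟨h1 s hs, h2 s hs, fun x hx => ?_⟩, this.1,
    by omega⟩
  have k : ∀ s : Perm (Fin 4), sign s = 1 → (∀ i j, s i = i → s j = j) → ∀ i, s (s i) = i := by decide +kernel
  have := k _ (sg s hs _ 4 hx) (res_semi hx _ (h2 s hs)) (Finite.equivFinOfCardEq hx ⟨x, rfl⟩)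
  rw [res_apply, res_apply] at this
  exact congrArg Subtype.val (Equiv.injective _ this)

/-- existence of abelian subgroups -/
def Ex (ev : Prop) (n c : ℕ) : Prop :=
  ∃ A : Subgroup (Perm (Fin n)), IsMulCommutative A ∧ Nat.card A = c ∧ (ev → A ≤ alternatingGroup (Fin n))

theorem Ex.add {ev : Prop} {n m c d : ℕ} (h : Ex ev n c) (k : Ex ev m d) : Ex ev (n + m) (c * d) := by
  obtain ⟨A, a1, a2, a3⟩ := h
  obtain ⟨B, b1, b2, b3⟩ := k
  let f := (finSumFinEquiv (m := n) (n := m)).permCongrHom.toMonoidHom.comp (sumCongrHom (Fin n) (Fin m))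
  have hf : Function.Injective f := fun x y e =>
    sumCongrHom_injective ((finSumFinEquiv (m := n) (n := m)).permCongrHom.injective e)
  have : IsMulCommutative (A.prod B) := ⟨⟨fun x y => Subtype.ext (Prod.ext
    (congrArg Subtype.val (a1.is_comm.comm ⟨_, x.2.1⟩ ⟨_, y.2.1⟩))
    (congrArg Subtype.val (b1.is_comm.comm ⟨_, x.2.2⟩ ⟨_, y.2.2⟩)))⟩⟩
  refine ⟨(A.prod B).map f, inferInstance, ?_, fun e => ?_⟩
  · rw [Subgroup.card_map_of_injective hf, Nat.card_congr (A.prodEquiv B).toEquiv, Nat.card_prod, a2, b2]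
  · rintro _ ⟨x, hx, rfl⟩
    change sign (finSumFinEquiv.permCongr (Perm.sumCongr x.1 x.2)) = 1
    rw [sign_permCongr, sign_sumCongr, a3 e hx.1, b3 e hx.2, mul_one]

theorem ex_zero (ev : Prop) : Ex ev 0 1 := ⟨⊥, inferInstance, by simp, fun _ => bot_le⟩

theorem ex_cyc (ev : Prop) {n : ℕ} (s : Perm (Fin n)) (h : ev → sign s = 1) : Ex ev n (orderOf s) :=
  ⟨Subgroup.zpowers s, inferInstance, Nat.card_zpowers s, fun e => Subgroup.zpowers_le.2 (h e)⟩

theorem ex_three (ev : Prop) : Ex ev 3 3 := by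
  have := ex_cyc ev (finRotate 3) fun _ => by decide
  rwa [show orderOf (finRotate 3) = 3 from (haveI := Fact.mk Nat.prime_three
    orderOf_eq_prime (by decide) (by decide))] at this

theorem ex_two : Ex False 2 2 := by
  have := ex_cyc False (finRotate 2) False.elim
  rwa [show orderOf (finRotate 2) = 2 from orderOf_eq_prime (by decide) (by decide)] at this

theorem ex_five : Ex True 5 5 := by
  have := ex_cyc True (finRotate 5) fun _ => by decide
  rwa [show orderOf (finRotate 5) = 5 from (haveI := Fact.mk Nat.prime_five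
    orderOf_eq_prime (by decide) (by decide))] at this

theorem ex_four (ev : Prop) : Ex ev 4 4 := by
  let A : Subgroup (Perm (Fin 4)) :=
    { carrier := {s | s * s = 1 ∧ sign s = 1}
      one_mem' := by decide
      mul_mem' := by
        intro a b
        simp only [Set.mem_ofPred_eq]
        revert a b
        decide +kernel
      inv_mem' := by
        intro a
        simp only [Set.mem_ofPred_eq]
        revert a
        decide +kernel }
  have k : ∀ a b : Perm (Fin 4), a * a = 1 ∧ sign a = 1 → b * b = 1 ∧ sign b = 1 → a * b = b * a := by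
    decide +kernel
  refine ⟨A, ⟨⟨fun x y => Subtype.ext (k _ _ x.2 y.2)⟩⟩, ?_, fun _ s hs => hs.2⟩
  change Nat.card {s : Perm (Fin 4) // s * s = 1 ∧ sign s = 1} = 4
  rw [Nat.card_eq_fintype_card]
  decide +kernel

theorem ex_pow (ev : Prop) (k : ℕ) : Ex ev (3 * k) (3 ^ k) := by
  induction k with
  | zero => exact ex_zero ev
  | succ k ih => exact ih.add (ex_three ev)

theorem Ex.alt {n c : ℕ} (h : Ex True n c) :
    ∃ A : Subgroup (alternatingGroup (Fin n)), IsMulCommutative A ∧ Nat.card A = c := by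
  obtain ⟨A, a1, a2, a3⟩ := h
  exact ⟨A.subgroupOf _, inferInstance, a2 ▸ Nat.card_congr (Subgroup.subgroupOfEquivOfLe (a3 trivial)).toEquiv⟩

theorem exists_even_match {Q Q' : Type*} [Fintype Q] [Fintype Q'] [Nonempty α] {c : α → Q} {c' : α → Q'}
    (hc : ∀ q, sz c q = 3 ∨ sz c q = 4) (hc' : ∀ q, sz c' q = 3 ∨ sz c' q = 4)
    (h3 : Nat.card {q // sz c q = 3} = Nat.card {q // sz c' q = 3})
    (h4 : Nat.card {q // sz c q = 4} = Nat.card {q // sz c' q = 4}) :
    ∃ (g : Perm α) (σ : Q ≃ Q'), sign g = 1 ∧ (∀ q, sz c' (σ q) = sz c q) ∧ ∀ x, c' (g x) = σ (c x) := by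
  have e1 : ∀ k, Nonempty ({q // sz c q = k} ≃ {q // sz c' q = k}) := fun k => by
    refine Finite.card_eq.1 ?_
    by_cases k3 : k = 3
    · exact k3 ▸ h3
    by_cases k4 : k = 4
    · exact k4 ▸ h4
    rw [Nat.card_eq_zero.2 (Or.inl ⟨fun q => by have := hc q.1; have := q.2; omega⟩),
      Nat.card_eq_zero.2 (Or.inl ⟨fun q => by have := hc' q.1; have := q.2; omega⟩)]
  let σ := ofFiberEquiv fun k => (e1 k).some
  have hσ : ∀ q, sz c' (σ q) = sz c q := ofFiberEquiv_map _
  have e2 : ∀ q', Nonempty ({x // σ (c x) = q'} ≃ {x // c' x = q'}) := fun q' => by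
    obtain ⟨q, rfl⟩ := σ.surjective q'
    refine Finite.card_eq.1 ?_
    simp only [σ.apply_eq_iff_eq]
    exact (hσ q).symm
  let g : Perm α := ofFiberEquiv fun q => (e2 q).some
  have hg : ∀ x, c' (g x) = σ (c x) := ofFiberEquiv_map (f := fun x => σ (c x)) _
  rcases Int.units_eq_one_or (sign g) with h | h
  · exact ⟨g, σ, h, hσ, hg⟩
  obtain ⟨x⟩ := ‹Nonempty α›
  have : Nontrivial {y // c' y = c' x} := Finite.one_lt_card_iff_nontrivial.1 (by
    have := hc' (c' x); rw [sz] at this; omega)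
  obtain ⟨a, b, hab⟩ := exists_pair_ne {y // c' y = c' x}
  refine ⟨swap a.1 b.1 * g, σ, by rw [map_mul, h, sign_swap (Subtype.coe_ne_coe.2 hab)]; rfl, hσ, fun y => ?_⟩
  rw [← hg, mul_apply, swap_apply_def]
  split_ifs with h1 h2
  · rw [h1, a.2, b.2]
  · rw [h2, a.2, b.2]
  · rfl

omit [Fintype α] [DecidableEq α] in
theorem Nice.conj {Q Q' : Type*} {c : α → Q} {c' : α → Q'} {g s : Perm α} {σ : Q ≃ Q'}
    (hσ : ∀ q, sz c' (σ q) = sz c q) (hg : ∀ x, c' (g x) = σ (c x)) (hs : Nice c s) : Nice c' (g * s * g⁻¹) := by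
  refine ⟨fun x => ?_, fun x y => ?_, fun x => ?_⟩
  · obtain ⟨x, rfl⟩ := g.surjective x
    simp [hg, hs.1]
  · obtain ⟨x, rfl⟩ := g.surjective x
    obtain ⟨y, rfl⟩ := g.surjective y
    simpa [hg] using hs.2.1 x y
  · obtain ⟨x, rfl⟩ := g.surjective x
    simpa [hg, hσ] using hs.2.2 x

theorem alt_large' (A : Subgroup (alternatingGroup α)) (hA : IsMulCommutative A)
    (h : 4096 * 3 ^ Fintype.card α ≤ 6561 * Nat.card A ^ 3) :
    ∃ (Q : Type u) (_ : Fintype Q) (c : α → Q), (∀ q, sz c q = 3 ∨ sz c q = 4) ∧ (∀ s ∈ A, Nice c s.1) ∧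
      Nat.card A = 2 ^ (2 * Nat.card {q // sz c q = 4}) * 3 ^ Nat.card {q // sz c q = 3} ∧
      Fintype.card α = 4 * Nat.card {q // sz c q = 4} + 3 * Nat.card {q // sz c q = 3} := by
  have e := Subgroup.card_map_of_injective (K := A) (alternatingGroup α).subtype_injective
  obtain ⟨Q, _, c, h1, h2, h3⟩ := alt_large (A.map (alternatingGroup α).subtype) inferInstance
    (Subgroup.map_subtype_le A) (e ▸ h)
  exact ⟨Q, ‹_›, c, h1, fun s hs => h2 _ ⟨s, hs, rfl⟩, e ▸ h3⟩

open Pointwise in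
theorem conj_of_large [Nonempty α] (A B : Subgroup (alternatingGroup α)) (hA : IsMulCommutative A)
    (hB : IsMulCommutative B) (e : Nat.card A = Nat.card B)
    (hm : ∀ C : Subgroup (alternatingGroup α), IsMulCommutative C → Nat.card C ≤ Nat.card B)
    (h : 4096 * 3 ^ Fintype.card α ≤ 6561 * Nat.card A ^ 3) : ∃ g : alternatingGroup α, B = MulAut.conj g • A := by
  obtain ⟨Q, _, c, a1, a2, a3, a4⟩ := alt_large' A hA h
  obtain ⟨Q', _, c', b1, b2, b3, b4⟩ := alt_large' B hB (e ▸ h)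
  have k := congrArg (fun n => n.factorization 2) (a3.symm.trans (e.trans b3))
  simp [Nat.factorization_mul, Nat.prime_two.factorization, Nat.prime_three.factorization,
    -Nat.card_eq_fintype_card] at k
  obtain ⟨g, σ, g1, g2, g3⟩ := exists_even_match a1 b1 (by omega) k
  let g' : alternatingGroup α := ⟨g, g1⟩
  have k2 : ∀ s ∈ (B : Set (alternatingGroup α)) ∪ (MulAut.conj g' • A : Subgroup (alternatingGroup α)), Nice c' s.1 := by
    rintro s (hs | ⟨s, hs, rfl⟩)
    · exact b2 s hs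
    · exact (a2 s hs).conj g2 g3
  have k3 := hm _ (Subgroup.isMulCommutative_closure fun s hs t ht => Subtype.ext ((k2 s hs).commute b1 (k2 t ht)))
  rw [Subgroup.closure_union, Subgroup.closure_eq, Subgroup.closure_eq] at k3
  have k4 := Subgroup.eq_of_le_of_card_ge (le_sup_left : B ≤ _) k3
  refine ⟨g', (Subgroup.eq_of_le_of_card_ge (k4 ▸ le_sup_right) ?_).symm⟩
  rw [← e]
  exact (Subgroup.card_map_of_injective (MulAut.conj g').injective).ge

theorem thresh (e b : ℕ) (he : e ≤ 4) : 4096 * 3 ^ (2 * e + 3 * b) ≤ 6561 * (2 ^ e * 3 ^ b) ^ 3 := by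
  rw [mul_pow, ← pow_mul 3, mul_comm b, pow_add, ← mul_assoc, ← mul_assoc]
  refine Nat.mul_le_mul_right _ ?_
  interval_cases e <;> norm_num

theorem sym_le {n : ℕ} (e b : ℕ) (he : e < 3) (hn : n = 2 * e + 3 * b) (A : Subgroup (Perm (Fin n)))
    (hA : IsMulCommutative A) : Nat.card A ≤ 2 ^ e * 3 ^ b := by
  by_contra h
  obtain ⟨e', b', h1, h2⟩ := sym_large A hA (by
    rw [(Fintype.card_fin n).trans hn]
    exact (thresh e b (by omega)).trans (Nat.mul_le_mul_left _ (Nat.pow_le_pow_left (by omega) 3)))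
  rw [Fintype.card_fin] at h2
  have := two_three_le (e' / 3) e b'
  rw [show 3 * (e' / 3) + e = e' by omega, show b' + 2 * (e' / 3) = b by omega] at this
  omega

theorem alt_le {n : ℕ} (e b : ℕ) (he : e < 3) (hn : n = 4 * e + 3 * b) (A : Subgroup (alternatingGroup (Fin n)))
    (hA : IsMulCommutative A) : Nat.card A ≤ 2 ^ (2 * e) * 3 ^ b := by
  by_contra h
  obtain ⟨Q, _, c, -, -, h1, h2⟩ := alt_large' A hA (by
    rw [show Fintype.card (Fin n) = 2 * (2 * e) + 3 * b by simp; omega]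
    exact (thresh (2 * e) b (by omega)).trans (Nat.mul_le_mul_left _ (Nat.pow_le_pow_left (by omega) 3)))
  rw [Fintype.card_fin] at h2
  generalize Nat.card {q // sz c q = 4} = e' at h1 h2
  generalize Nat.card {q // sz c q = 3} = b' at h1 h2
  have := two_three_le (2 * (e' / 3)) (2 * e) b'
  rw [show 3 * (2 * (e' / 3)) + 2 * e = 2 * e' by omega, show b' + 2 * (2 * (e' / 3)) = b by omega] at this
  omega

theorem ex_alt (e b : ℕ) : Ex True (4 * e + 3 * b) (2 ^ (2 * e) * 3 ^ b) := by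
  refine Ex.add ?_ (ex_pow _ b)
  induction e with
  | zero => exact ex_zero _
  | succ k ih => simpa [mul_add, pow_add] using ih.add (ex_four True)

end H70.Ab
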