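/- CL3 tower (S3621): jobs PRed, PStr, Inn. -/
import Cfsg.Agent.H91.CL3Spec
import Cfsg.Agent.H4.HallBasic

set_option autoImplicit false

namespace H70.CL

open H91.CL Subgroup
open scoped commutatorElement IsMulCommutative

/-- the action on the classes of an invariant equivalence relation -/
@[reducible] def quoA {G Ω : Type} [Group G] [MulAction G Ω] (r : Setoid Ω)
    (hr : ∀ (g : G) (a b : Ω), r a b → r (g • a) (g • b)) : MulAction G (Quotient r) where
  smul g := Quotient.map (g • ·) (hr g)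
  one_smul x := Quotient.inductionOn x fun x => congrArg (Quotient.mk r) (one_smul _ x)
  mul_smul a b x := Quotient.inductionOn x fun x => congrArg (Quotient.mk r) (mul_smul a b x)

theorem jobPRed : JobPRed := by
  intro Ω G H _ _ _ _ _ _ _ pp sol c3 np
  unfold Prim at np
  push Not at np
  obtain ⟨r, hr, rb, rt⟩ := np
  have hH : ∀ (h : H) a b, r a b → r (h • a) (h • b) := fun h a b k => by
    obtain ⟨g, e1, e2, -⟩ := c3 h a b a
    rw [e1, e2]
    exact hr g a b k
  letI := quoA r hr
  letI := quoA r hH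
  have k1 := pp (Quotient r) G H (by
    have := Fintype.ofFinite Ω
    have := Fintype.ofFinite (Quotient r)
    rw [Nat.card_eq_fintype_card, Nat.card_eq_fintype_card]
    exact Fintype.card_lt_of_surjective_not_injective _ Quotient.mk_surjective fun i =>
      rb (eq_bot_iff.2 fun a b k => i (Quotient.sound k))) sol fun h a b c => by
    obtain ⟨a, rfl⟩ := Quotient.mk_surjective a
    obtain ⟨b, rfl⟩ := Quotient.mk_surjective b
    obtain ⟨c, rfl⟩ := Quotient.mk_surjective c
    exact (c3 h a b c).imp fun g k => ⟨congrArg (Quotient.mk r) k.1, congrArg (Quotient.mk r) k.2.1,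
      congrArg (Quotient.mk r) k.2.2⟩
  let N := (MulAction.toPermHom H (Quotient r)).ker
  refine SolMod.trans N (k1.mono fun a k => Equiv.ext k) (SolMod.forall fun a => ?_)
  have hN : ∀ (g : N) x, r ((g : H) • x) x := fun g x =>
    Quotient.exact (Equiv.congr_fun g.2 (Quotient.mk r x))
  letI := resAct (H := N) {x | r x a} fun g x hx => r.trans (hN g x) hx
  letI := resAct (H := MulAction.stabilizer G (Quotient.mk r a)) {x | r x a} fun g x hx =>
    r.trans (hr g x a hx) (Quotient.exact g.2)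
  refine (pp {x | r x a} (MulAction.stabilizer G (Quotient.mk r a)) N ?_ inferInstance
    fun h x y z => ?_).mono fun g k => congrArg Subtype.val (k ⟨a, r.refl a⟩)
  · obtain ⟨x, hx⟩ : ∃ x, ¬ r x a := by
      by_contra! k
      exact rt (eq_top_iff.2 fun x y _ => r.trans (k x) (r.symm (k y)))
    exact Finite.card_subtype_lt hx
  · obtain ⟨g, e1, e2, e3⟩ := c3 h x y z
    exact ⟨⟨g, Quotient.sound (r.trans (hr g _ _ (r.symm x.2)) (e1 ▸ r.trans (hN h x) x.2))⟩,
      Subtype.ext e1, Subtype.ext e2, Subtype.ext e3⟩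

theorem jobPStr : JobPStr := by
  rintro Ω G _ _ _ _ sol pr ⟨g₁, w, hw⟩
  let φ := MulAction.toPermHom G Ω
  have : Group.IsSolvable φ.range := Group.isSolvable_of_surjective φ.rangeRestrict_surjective
  obtain ⟨N, -, nN, N0, -, -, cN, -⟩ := H4.exists_minimal_normal_elemab (⊤ : Subgroup φ.range)
    fun e => hw (Equiv.congr_fun (congrArg Subtype.val (mem_bot.1 (e.le
      (mem_top (φ.rangeRestrict g₁))))) w)
  have tr : ∀ x, ∃ n : N, n • w = x := by
    rcases pr (MulAction.orbitRel N Ω) (by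
      rintro g _ b ⟨n, rfl⟩
      refine ⟨⟨_, nN.conj_mem n n.2 (φ.rangeRestrict g)⟩, ?_⟩
      change (φ.rangeRestrict g * n * (φ.rangeRestrict g)⁻¹) • φ.rangeRestrict g • b = _
      rw [mul_smul, inv_smul_smul, mul_smul]
      rfl) with e | e
    · exact absurd (eq_bot_iff.2 fun n hn => Subtype.ext (Equiv.ext fun x =>
        e.le (show MulAction.orbitRel N Ω (n • x) x from ⟨⟨n, hn⟩, rfl⟩))) N0
    · exact fun x => (e.ge trivial : MulAction.orbitRel N Ω x w)
  let e : Additive N ≃ Ω := .ofBijective (fun n => n.toMul • w) ⟨fun n m k => by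
    refine Additive.toMul.injective (Subtype.ext (Subtype.ext (Equiv.ext fun x => ?_)))
    obtain ⟨l, rfl⟩ := tr x
    change n.toMul • l • w = m.toMul • l • w
    simp only at k
    rw [smul_smul, mul_comm, mul_smul, k, smul_smul, mul_comm, mul_smul],
    fun x => (tr x).imp' Additive.ofMul fun _ k => k⟩
  letI := e.symm.addCommGroup
  have add : ∀ n m : N, n • w + m • w = (n * m) • w := fun n m => by
    change e (e.symm (e (.ofMul n)) + e.symm (e (.ofMul m))) = _
    rw [e.symm_apply_apply, e.symm_apply_apply]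
    rfl
  have zero : (0 : Ω) = w := one_smul N w
  have cj : ∀ (g : MulAction.stabilizer φ.range w) (n : N),
      g • n • w = (⟨_, nN.conj_mem n n.2 g⟩ : N) • w := fun g n => by
    change _ = ((g : φ.range) * n * (g : φ.range)⁻¹) • w
    rw [mul_smul, mul_smul, show (g : φ.range)⁻¹ • w = w from (g⁻¹).2]
    rfl
  letI : DistribMulAction (MulAction.stabilizer φ.range w) Ω :=
    { smul_zero := fun g => by rw [zero]; exact g.2
      smul_add := fun g x y => by
        obtain ⟨n, rfl⟩ := tr x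
        obtain ⟨m, rfl⟩ := tr y
        rw [add, cj, cj, cj, add]
        congr 1
        ext : 1
        simp [mul_assoc] }
  have aff : ∀ g : G, ∃ (c : Ω) (g₀ : MulAction.stabilizer φ.range w), ∀ x : Ω,
      g • x = c + g₀ • x := fun g => by
    obtain ⟨n, hn⟩ := tr (g • w)
    refine ⟨n • w, ⟨(n : φ.range)⁻¹ * φ.rangeRestrict g, ?_⟩, fun x => ?_⟩
    · rw [MulAction.mem_stabilizer_iff, mul_smul, inv_smul_eq_iff]
      exact hn.symm
    · obtain ⟨m, hm⟩ := tr (((n : φ.range)⁻¹ * φ.rangeRestrict g) • x)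
      change _ = _ + ((n : φ.range)⁻¹ * φ.rangeRestrict g) • x
      rw [← hm, add, mul_smul, hm, mul_smul]
      exact (smul_inv_smul (n : φ.range) _).symm
  refine ⟨_, MulAction.stabilizer φ.range w, inferInstance, inferInstance, _, inferInstance,
    ⟨fun k => Subtype.ext (Subtype.ext (Equiv.ext k))⟩, fun W hW => ?_, aff⟩
  refine (pr (QuotientAddGroup.leftRel W) fun g a b k => ?_).imp
    (fun k => eq_bot_iff.2 fun x hx => ?_) fun k => eq_top_iff.2 fun x _ => ?_
  · obtain ⟨c, g₀, h⟩ := aff g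
    rw [QuotientAddGroup.leftRel_apply] at k ⊢
    have := hW g₀ _ k
    rwa [smul_add, smul_neg, ← neg_add_cancel_left c (g₀ • b), ← add_assoc, ← neg_add_rev, ← h,
      ← h] at this
  · exact (k.le (QuotientAddGroup.leftRel_apply.2 (by simpa using hx) :
      QuotientAddGroup.leftRel W 0 x)).symm
  · simpa using QuotientAddGroup.leftRel_apply.1 (k.ge trivial : QuotientAddGroup.leftRel W 0 x)

theorem jobInn : JobInn := by
  intro K V Γ _ _ _ _ _ _ _ _ _ _ sc G H s T c
  have cs : ∀ {a b}, Lin K V a → b ∈ sc.range → Commute a b := fun h ⟨k, e⟩ => e ▸ s.comm_sc h k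
  refine ⟨fun h0 => ?_, fun h hl hc => ?_⟩
  · obtain ⟨p, hp⟩ := CharP.exists K
    have := Fintype.ofFinite K
    have := Fact.mk (CharP.char_is_prime K p)
    obtain ⟨⟨x, hx⟩, o⟩ := exists_prime_orderOf_dvd_card' p ((CharP.cast_eq_zero_iff K p _).1 h0)
    have k1 : ∀ {b}, b ∈ sc.range → b ^ (Fintype.card K - 1) = 1 := fun ⟨k, e⟩ => by
      classical
      rw [← e, ← map_pow, ← Fintype.card_units, pow_card_eq_one, map_one]
    have k2 := k1 (c.cen _ (pow_mem hx (Fintype.card K - 1)) fun y hy => by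
      have m := c.comm x hx y hy
      have : ∀ k : ℕ, x ^ k * y = ⁅x, y⁆ ^ k * y * x ^ k := fun k => by
        induction k with
        | zero => simp
        | succ k ih =>
          rw [pow_succ', mul_assoc, ih, ← mul_assoc, ← mul_assoc, ((cs (c.lin x hx) m).pow_right k).eq,
            pow_succ, commutatorElement_def]
          group
      rw [this, k1 m, one_mul])
    rw [← pow_mul, ← orderOf_dvd_iff_pow_eq_one, ← orderOf_mk x hx, o, this.out.dvd_mul, or_self] at k2
    obtain ⟨n, -, e⟩ := FiniteField.card K p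
    exact this.out.one_lt.ne' (Nat.dvd_one.1 ((Nat.dvd_sub_iff_right Fintype.card_pos
      (e ▸ dvd_pow_self p n.ne_zero)).1 k2))
  let A := sc.range.subgroupOf T
  have : A.Normal := ⟨fun n hn g => by
    have := (cs (b := n) (c.lin g g.2) hn).eq
    rwa [mem_subgroupOf, coe_mul, coe_mul, this, coe_inv, mul_inv_cancel_right]⟩
  have key : ∀ h : Γ, Lin K V h → (∀ t ∈ T, ⁅h, t⁆ ∈ sc.range) → ∃ f : T ⧸ A →* K, ∀ t : T,
      ∃ k : Kˣ, sc k = ⁅h, (t : Γ)⁆ ∧ f t = k := fun h hl hc => by
    choose χ hχ using hc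
    let f : T →* Kˣ := MonoidHom.mk' (fun t => χ t t.2) fun a b => s.sc_inj (by
      have := (cs (c.lin a a.2) ⟨_, hχ b b.2⟩).eq
      rw [map_mul, hχ, hχ, hχ, ← mul_inv_eq_iff_eq_mul.2 this]
      simp only [commutatorElement_def, coe_mul]
      group)
    exact ⟨QuotientGroup.lift A ((Units.coeHom K).comp f) fun a ha => congrArg Units.val
      (s.sc_inj ((hχ a a.2).trans ((cs hl ha).commutator_eq.trans (map_one sc).symm))),
      fun t => ⟨_, hχ t t.2, rfl⟩⟩
  have uq : ∀ {h h'} {f : T ⧸ A →* K}, (∀ t : T, ∃ k : Kˣ, sc k = ⁅h, (t : Γ)⁆ ∧ f t = k) →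
      (∀ t : T, ∃ k : Kˣ, sc k = ⁅h', (t : Γ)⁆ ∧ f t = k) → ∀ t ∈ T, h⁻¹ * h' * t = t * (h⁻¹ * h') :=
    fun {h h' f} a b t ht => by
      obtain ⟨k, e1, e2⟩ := a ⟨t, ht⟩
      obtain ⟨k', e1', e2'⟩ := b ⟨t, ht⟩
      obtain rfl : k = k' := Units.ext (e2.symm.trans e2')
      have := e1.symm.trans e1'
      rw [commutatorElement_def, commutatorElement_def, mul_left_inj] at this
      calc _ = h⁻¹ * (h' * t * h'⁻¹) * h' := by group
        _ = _ := by rw [← this]; group
  choose F hF using fun t : T => key t (c.lin t t.2) (c.comm t t.2)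
  have := Fintype.ofFinite (T ⧸ A)
  have : Finite (T ⧸ A →* K) := Finite.of_injective _ DFunLike.coe_injective
  have := Fintype.ofFinite (T ⧸ A →* K)
  have bij := (show Function.Injective fun q : T ⧸ A => F q.out from fun a b e => by
    rw [← a.out_eq, ← b.out_eq]
    exact QuotientGroup.eq.2 (c.cen _ (a.out⁻¹ * b.out).2
      (uq (hF _) (by simp only at e; exact e ▸ hF _)))).bijective_of_nat_card_le (by
    simpa using (linearIndependent_monoidHom (T ⧸ A) K).fintype_card_le_finrank)
  obtain ⟨f, hf⟩ := key h hl hc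
  obtain ⟨q, rfl⟩ := bij.2 f
  exact ⟨q.out, q.out.2, uq (hF _) hf⟩

end H70.CL
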