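import Cfsg.Agent.H40.CSSpec

set_option autoImplicit false
open Cfsg

namespace H70.CSA
universe u
open H40.CS

theorem split_elem {G : Type u} [Group G] (x : G) (a b : ℕ) (hab : a.Coprime b)
    (hx : orderOf x = a * b) :
    ∃ v w : G, Commute v w ∧ v * w = x ∧ orderOf v ∣ b ∧ orderOf w ∣ a := by
  refine ⟨x ^ ((a : ℤ) * Nat.gcdA a b), x ^ ((b : ℤ) * Nat.gcdB a b), Commute.zpow_zpow (Commute.refl x) _ _, ?_, ?_, ?_⟩
  · rw [← zpow_add, ← Nat.gcd_eq_gcd_ab, hab.gcd_eq_one]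
    simp
  · apply orderOf_dvd_of_pow_eq_one
    rw [← zpow_natCast, ← zpow_mul]
    apply orderOf_dvd_iff_zpow_eq_one.1
    rw [hx]
    exact ⟨Nat.gcdA a b, by push_cast; ring⟩
  · apply orderOf_dvd_of_pow_eq_one
    rw [← zpow_natCast, ← zpow_mul]
    apply orderOf_dvd_iff_zpow_eq_one.1
    rw [hx]
    exact ⟨Nat.gcdB a b, by push_cast; ring⟩

theorem cs_one {G : Type u} [Group G] : cs (1 : G) = 1 := by
  have : Subgroup.centralizer ({1} : Set G) = ⊤ := by
    rw [eq_top_iff]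
    intro g _
    rw [Subgroup.mem_centralizer_iff]
    intro h hh
    rw [Set.mem_singleton_iff] at hh
    subst hh
    simp
  show (Subgroup.centralizer ({1} : Set G)).index = 1
  rw [this, Subgroup.index_top]

theorem job : H40.CS.JobA.{u} := by
  classical
  intro hB hN G _ _ p q h hK
  have B := hB G
  haveI : Fact p.Prime := ⟨h.hp⟩
  obtain ⟨P, K, hKn, hKP⟩ := hK
  have hcK : ¬ p ∣ Nat.card K := by
    rw [← hKP.index_eq_card]
    exact P.not_dvd_index
  obtain ⟨n, hn⟩ := P.isPGroup'.exists_card_eq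
  have hiK : K.index = p ^ n := by
    rw [hKP.symm.index_eq_card, hn]
  have hq : ∀ g : G, IsPrim q g → g ∈ K := by
    rintro g ⟨k, hk⟩
    rw [← QuotientGroup.eq_one_iff, ← orderOf_eq_one_iff]
    have h1 : orderOf (QuotientGroup.mk' K g) ∣ q ^ k := hk ▸ orderOf_map_dvd _ _
    have h2 : orderOf (QuotientGroup.mk' K g) ∣ p ^ n := by
      rw [← hiK]
      exact orderOf_dvd_natCard _
    have h3 : (q ^ k).Coprime (p ^ n) :=
      Nat.Coprime.pow _ _ ((Nat.coprime_primes h.hq h.hp).2 h.ne.symm)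
    exact Nat.eq_one_of_dvd_coprimes h3 h1 h2
  obtain ⟨y, hyK, hy⟩ := hN G p q h K hKn hq
  have hyo : ¬ p ∣ orderOf y := fun hh => hcK (hh.trans (Subgroup.orderOf_dvd_natCard K hyK))
  have hyc : ¬ p ∣ cs y := by
    intro hh
    obtain ⟨x, hx⟩ := h.exX
    exact h.hp.one_lt.ne' (Nat.eq_one_of_dvd_coprimes (h.cop x y hx hy) hx hh)
  have first : ∀ a : G, IsPrim p a → XS q a := by
    intro a ha
    obtain ⟨x, hx1, hx2⟩ := B.f5 p h.hp y a hyc hyo ha
    exact ⟨x, hy.trans hx1, hx2⟩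
  refine ⟨first, ?_⟩
  have hex : ∃ m : ℕ, ∃ x : G, orderOf x = m ∧ p ∣ cs x := by
    obtain ⟨x, hx⟩ := h.exX
    exact ⟨_, x, rfl, hx⟩
  obtain ⟨x, hxo, hx⟩ := Nat.find_spec hex
  have hmin : ∀ v : G, orderOf v < orderOf x → ¬ p ∣ cs v := by
    intro v hv hpv
    rw [hxo] at hv
    exact Nat.find_min hex hv ⟨v, rfl, hpv⟩
  have hx0 : orderOf x ≠ 0 := (orderOf_pos x).ne'
  have hx1 : orderOf x ≠ 1 := by
    intro hh
    rw [orderOf_eq_one_iff] at hh
    rw [hh, cs_one] at hx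
    exact h.hp.one_lt.ne' (Nat.dvd_one.1 hx)
  have hs : (orderOf x).minFac.Prime := Nat.minFac_prime hx1
  have hsd : (orderOf x).minFac ∣ orderOf x := Nat.minFac_dvd _
  generalize (orderOf x).minFac = s at hs hsd
  obtain ⟨k, m, hm, hkm⟩ := Nat.exists_eq_pow_mul_and_not_dvd hx0 s hs.ne_one
  have hprim : IsPrim s x := by
    by_contra hnp
    have hm1 : m ≠ 1 := by
      intro hh
      apply hnp
      exact ⟨k, by rw [hkm, hh, mul_one]⟩
    have hm0 : m ≠ 0 := by
      intro hh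
      apply hx0
      rw [hkm, hh, mul_zero]
    have hk0 : k ≠ 0 := by
      intro hh
      apply hm
      rw [hkm, hh, pow_zero, one_mul] at hsd
      exact hsd
    have hsk : 1 < s ^ k := Nat.one_lt_pow hk0 hs.one_lt
    have hm2 : 1 < m := by omega
    have hcop : (s ^ k).Coprime m := Nat.Coprime.pow_left _ ((Nat.Prime.coprime_iff_not_dvd hs).2 hm)
    obtain ⟨v, w, hvw, hmul, hv, hw⟩ := split_elem x (s ^ k) m hcop hkm
    have hvl : orderOf v < orderOf x := by
      rw [hkm]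
      calc orderOf v ≤ m := Nat.le_of_dvd (by omega) hv
        _ < s ^ k * m := by nlinarith
    have hwl : orderOf w < orderOf x := by
      rw [hkm]
      calc orderOf w ≤ s ^ k := Nat.le_of_dvd (by omega) hw
        _ < s ^ k * m := by nlinarith
    have hco : (orderOf v).Coprime (orderOf w) :=
      (hcop.symm.coprime_dvd_left hv).coprime_dvd_right hw
    have hXv : XS p v := ⟨x, hx, by rw [← hmul]; exact B.f2 v w hvw hco⟩
    have hXw : XS p w := ⟨x, hx, by rw [← hmul, hvw.eq]; exact B.f2 w v hvw.symm hco.symm⟩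
    refine (B.f3 p x).2 ⟨P, fun t ht => ?_⟩ hx
    have htp : IsPrim p t := by
      have h1 : orderOf t ∣ p ^ n := by
        rw [← hn]
        exact Subgroup.orderOf_dvd_natCard (P : Subgroup G) ht
      obtain ⟨j, -, hj⟩ := (Nat.dvd_prime_pow h.hp).1 h1
      exact ⟨j, hj⟩
    have c1 : Commute t v := B.f6 p h.hp t v htp (hmin v hvl) (h.cop' hXv (first t htp)).symm
    have c2 : Commute t w := B.f6 p h.hp t w htp (hmin w hwl) (h.cop' hXw (first t htp)).symm
    rw [← hmul]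
    exact c1.mul_right c2
  refine ⟨x, s, hs, ?_, hprim, hx⟩
  intro hsp
  subst hsp
  have hc := h.cop' (XS.self hx) (first x hprim)
  exact h.hp.one_lt.ne' (Nat.eq_one_of_dvd_coprimes hc hx hx)

end H70.CSA
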