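/- S3665: primes nonadjacent to `2` in `E₇(q)`. -/
import Cfsg.Agent.H67.ConjH
import Cfsg.Agent.H65.All
import Cfsg.Agent.H18.Misc2
import Cfsg.Agent.H40.SPAsm
import Cfsg.Agent.S1064

set_option autoImplicit false

namespace H70.IS

open Cfsg.Lie H63 H64 H65 H46 H67 Subgroup

section
variable {D : ChevalleyDatum} [RS D] [Tab D] [Comm D]

theorem reg_cent {F : Type*} [Field F] [Fintype F]
    (hinj : Function.Injective ((r3_stGen D (AlgebraicClosure F)).tor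
      (st_stGen D (AlgebraicClosure F)).stN))
    (hk : ∀ d ∈ cker D (AlgebraicClosure F)ˣ, d ^ 2 = 1)
    {L : List ℕ} {M Lm A G : List (List ℤ)} {P : List ℤ} {rtc : ℕ → ℕ → ℤ}
    (hrt : ∀ (r : Rt D) (i : Fin D.rank), rt r i = rtc r i)
    (h0 : chkW D L id M = true) (hc : CycOK D M Lm A P)
    (hG : ∀ j m : Fin D.rank, ent2 G j m = ∑ i : Fin D.rank, D.cartan i (D.simple j) * ent2 A i m)
    {q N : ℕ} (hF : Fintype.card F = q)
    (hN : (N : ℤ) = (q : ℤ) ^ D.rank + pv D.rank (fun j => P.getD j 0) q) :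
    ∃ g : ↥(D.group F), Nat.card (cker D Fˣ) * orderOf g = N ∧ ∀ r : ℕ, r.Prime → r ≠ 2 → r ∣ N →
      (∀ s : Rt D, ¬ (r : ℤ) ∣ pv D.rank (fun j => (fR D rtc G s).getD j 0) q) →
      orderOf (g ^ (N / r)) = r ∧ centralizer {g ^ (N / r)} ≤ zpowers g := by
  subst hF
  let ι := algebraMap F (AlgebraicClosure F)
  obtain ⟨φ, hφ, hfix, hq0⟩ := exists_frob F ι
  obtain ⟨x, hx, e⟩ := lang_group φ Fintype.one_lt_card hφ (nL_mem_group (D := D) L)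
  have h := twT_untw hfix hinj hx e
  have hN0 := hc.cast_ne_zero hq0 hN
  obtain ⟨ζ, hζ, hgen⟩ := exists_root_unit hN0
  obtain ⟨e1, e2⟩ := hc.spec hN hζ hgen (mem_Tw_iff hφ h0)
  have e3 := card_Tw_inf (D := D) hfix L
  rw [← range_embG, e1] at h
  rw [e1] at e3
  have hchi := chi_gen0 hrt hG (Fintype.card F) ζ
  generalize gen0 D A (Fintype.card F) ζ = c at *
  have hf := embG_injective (D := D) ι
  generalize embG (D := D) ι = f at *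
  have N0 : N ≠ 0 := fun e => hN0 (by rw [e, Nat.cast_zero])
  obtain ⟨g, hg⟩ := h.conj_mem c (mem_zpowers c)
  refine ⟨g, ?_, fun r hr r2 d hreg => ?_⟩
  · rw [← e2, ← e3, ← orderOf_injective f hf, hg, ← MulAut.conj_apply, MulEquiv.orderOf_eq,
      ← Nat.card_zpowers, ← Nat.card_zpowers, ← MonoidHom.map_zpowers, ← tor_ker]
    have h1 := card_mul_index (((tor D (AlgebraicClosure F)).domRestrict (zpowers c)).ker)
    rw [index_ker, MonoidHom.domRestrict_range, MonoidHom.ker_domRestrict] at h1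
    rw [← h1, inf_comm, ← subgroupOf_map_subtype]
    congr 1
    exact Nat.card_congr (equivMapOfInjective _ _ Subtype.val_injective).symm.toEquiv
  have := Fact.mk hr
  have oc : orderOf (c ^ (N / r)) = r := e2 ▸ orderOf_pow_orderOf_div (e2 ▸ N0) (e2 ▸ d)
  have cr : (c ^ (N / r)) ^ r = 1 := orderOf_dvd_iff_pow_eq_one.1 oc.dvd
  have cop : r.Coprime 2 := (Nat.coprime_primes hr Nat.prime_two).2 r2
  have hker : ∀ d, torG D (AlgebraicClosure F) d = 1 → d ^ r = 1 → d = 1 := fun d h1 h2 =>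
    orderOf_eq_one_iff.1 (Nat.eq_one_of_dvd_coprimes cop (orderOf_dvd_of_pow_eq_one h2)
      (orderOf_dvd_of_pow_eq_one (hk d (torG_eq_one_iff.1 h1))))
  have hg' : f (g ^ (N / r)) = x * tor D (AlgebraicClosure F) (c ^ (N / r)) * x⁻¹ := by
    rw [map_pow, hg, conj_pow, map_pow]
  refine ⟨orderOf_eq_prime (hf ?_) fun h1 => ?_, fun y hy => ?_⟩
  · rw [map_pow, hg', conj_pow, ← map_pow, cr, map_one, map_one, mul_one, mul_inv_cancel]
  · rw [h1, map_one, eq_comm, conj_eq_one_iff] at hg'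
    rw [hker _ (Subtype.ext hg') cr, orderOf_one] at oc
    exact hr.one_lt.ne oc
  · have h1 := congrArg f (mem_centralizer_singleton_iff.1 hy)
    rw [map_mul, map_mul, hg'] at h1
    have h2 := mem_CP_of_comm' torOK_xG stBG hker hr.ne_zero cr (g := ⟨x⁻¹ * f y * x,
      mul_mem (mul_mem (inv_mem h.mem) (h.le ⟨y, rfl⟩)) h.mem⟩) (by rw [GG_xG]; trivial)
      (Subtype.ext (by
        change x⁻¹ * f y * x * tor D _ _ = tor D _ _ * (x⁻¹ * f y * x)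
        calc _ = x⁻¹ * (f y * (x * tor D _ (c ^ (N / r)) * x⁻¹)) * x := by group
          _ = _ := by rw [h1]; group))
    have h3 : x⁻¹ * f y * x ∈ HH D (xU D (AlgebraicClosure F)) := by
      refine (show gen (XR D (xU D _)) {s | chi D (c ^ (N / r)) s = 1} ⊔ HH D (xU D _) ≤ HH D (xU D _)
        from sup_le (gen_le fun s hs => (hreg s ?_).elim) le_rfl) (mem_sup_xG.1 h2)
      rw [Set.mem_setOf_eq, chi_pow, hchi, ← zpow_natCast, ← zpow_mul,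
        ← orderOf_dvd_iff_zpow_eq_one, hζ] at hs
      obtain ⟨k, rfl⟩ := d
      rw [Nat.mul_div_cancel_left _ hr.pos, Nat.cast_mul] at hs
      exact (mul_dvd_mul_iff_right (Nat.cast_ne_zero.2 fun e : k = 0 => N0 (by simp [e]))).1 hs
    obtain ⟨d, hd⟩ := exists_tor_of_mem_HH h3
    obtain ⟨_, ⟨m, rfl⟩, hm⟩ := h.exists_of d ⟨y, by rw [hd]; group⟩
    refine ⟨m, hf ?_⟩
    rw [map_zpow, hg, conj_zpow, ← map_zpow, hm, hd]
    group

end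

/-- residues modulo `x ^ 6 + ε x ^ 3 + 1` -/
structure V6 where
  (a0 a1 a2 a3 a4 a5 : ℤ)

def V6.ev (v : V6) (t : ℤ) : ℤ :=
  v.a0 + v.a1 * t + v.a2 * t ^ 2 + v.a3 * t ^ 3 + v.a4 * t ^ 4 + v.a5 * t ^ 5

def V6.st (ε a : ℤ) (g v : V6) : V6 :=
  ⟨a * g.a0 - v.a5, a * g.a1 + v.a0, a * g.a2 + v.a1, a * g.a3 + v.a2 - ε * v.a5, a * g.a4 + v.a3,
    a * g.a5 + v.a4⟩

def pm (ε : ℤ) (g : V6) : List ℤ → V6
  | [] => ⟨0, 0, 0, 0, 0, 0⟩
  | a :: f => V6.st ε a g (pm ε g f)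

def hv (t : ℤ) : List ℤ → ℤ
  | [] => 0
  | a :: f => a + t * hv t f

theorem pm_ev (ε t : ℤ) (g : V6) (f : List ℤ) :
    t ^ 6 + ε * t ^ 3 + 1 ∣ (pm ε g f).ev t - hv t f * g.ev t := by
  induction f with
  | nil => simp [pm, hv, V6.ev]
  | cons a f ih =>
    have := dvd_sub (ih.mul_left t) (dvd_mul_right (t ^ 6 + ε * t ^ 3 + 1) (pm ε g f).a5)
    refine (congrArg _ ?_).mp this
    simp only [pm, hv, V6.ev, V6.st]
    ring

def V6.l (v : V6) : List ℤ := [v.a0, v.a1, v.a2, v.a3, v.a4, v.a5]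

/-- `f (x ^ k)` -/
def cj (k : ℕ) (f : List ℤ) : List ℤ := f.flatMap fun a => a :: List.replicate (k - 1) 0

def cof (ε : ℤ) (f : List ℤ) : V6 :=
  [5, 7, 11, 13, 17].foldl (fun g k => pm ε g (cj k f)) ⟨1, 0, 0, 0, 0, 0⟩

def chkR (ε : ℤ) (f : List ℤ) : Bool :=
  (fun v : V6 => decide (v.a1 = 0 ∧ v.a2 = 0 ∧ v.a3 = 0 ∧ v.a4 = 0 ∧ v.a5 = 0 ∧ 3 ^ 9 % v.a0 = 0))
    (pm ε (cof ε f) f)

theorem chkR_sound {ε t : ℤ} {f : List ℤ} (h : chkR ε f = true) {r : ℕ} (hr : r.Prime) (h3 : r ≠ 3)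
    (d : (r : ℤ) ∣ t ^ 6 + ε * t ^ 3 + 1) : ¬ (r : ℤ) ∣ hv t f := fun d' => by
  simp only [chkR, decide_eq_true_eq] at h
  obtain ⟨h1, h2, h4, h5, h6, h7⟩ := h
  have := dvd_add (d.trans (pm_ev ε t (cof ε f) f)) (d'.mul_right ((cof ε f).ev t))
  rw [sub_add_cancel, V6.ev, h1, h2, h4, h5, h6] at this
  have h8 : (r : ℤ) ∣ ((3 ^ 9 : ℕ) : ℤ) :=
    (show (r : ℤ) ∣ _ by simpa using this).trans (Int.dvd_of_emod_eq_zero h7)
  exact h3 ((Nat.prime_dvd_prime_iff_eq hr Nat.prime_three).1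
    (hr.dvd_of_dvd_pow (Int.natCast_dvd_natCast.1 h8)))

theorem pv_hv (t : ℤ) (v : ℕ → ℤ) :
    pv 7 (fun j => ((List.range 7).map v).getD j 0) t = hv t ((List.range 7).map v) := by
  rw [pv_eq]
  simp [Finset.sum_range_succ, List.range_succ, hv]
  ring

theorem e7_tor {F : Type*} [Field F] [Fintype F] {q : ℕ} (hF : Fintype.card F = q) {ε : ℤ}
    (hε : ε = 1 ∨ ε = -1) {N : ℕ} (hN : (N : ℤ) = (q - ε) * (q ^ 6 + ε * q ^ 3 + 1)) :
    ∃ g : ↥(chevE7.group F), Nat.gcd 2 (q - 1) * orderOf g = N ∧ ∀ r : ℕ, r.Prime → r ≠ 2 → r ≠ 3 →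
      (r : ℤ) ∣ q ^ 6 + ε * q ^ 3 + 1 →
      orderOf (g ^ (N / r)) = r ∧ centralizer {g ^ (N / r)} ≤ zpowers g := by
  haveI := H65.tabE7
  haveI := H65.commE7
  have key : ∀ G : List (List ℤ), allLt chevE7.nroots (fun s => chkR ε (fR chevE7 certE7.rtc G s)) =
      true → (∃ g : ↥(chevE7.group F), Nat.card (cker chevE7 Fˣ) * orderOf g = N ∧ ∀ r : ℕ, r.Prime →
      r ≠ 2 → r ∣ N → (∀ s : Rt chevE7, ¬ (r : ℤ) ∣
        pv chevE7.rank (fun j => (fR chevE7 certE7.rtc G s).getD j 0) q) →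
      orderOf (g ^ (N / r)) = r ∧ centralizer {g ^ (N / r)} ≤ zpowers g) →
      ∃ g : ↥(chevE7.group F), Nat.gcd 2 (q - 1) * orderOf g = N ∧ ∀ r : ℕ, r.Prime → r ≠ 2 →
      r ≠ 3 → (r : ℤ) ∣ q ^ 6 + ε * q ^ 3 + 1 →
      orderOf (g ^ (N / r)) = r ∧ centralizer {g ^ (N / r)} ≤ zpowers g := by
    rintro G hG ⟨g, h1, h2⟩
    rw [kerE7.card_cker_units, pow_one, Nat.card_eq_fintype_card, hF] at h1
    exact ⟨g, h1, fun r hr r2 r3 d => h2 r hr r2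
      (Int.natCast_dvd_natCast.1 (hN ▸ d.mul_left _)) fun s d' =>
        chkR_sound (allLt_iff.1 hG s s.2) hr r3 d (pv_hv _ _ ▸ d')⟩
  rcases hε with rfl | rfl
  · refine key [[0, 0, 0, 0, 1, -1, 0], [-1, 2, 0, -2, 1, 1, -1], [0, 0, 0, 1, -1, 0, 0],
      [0, -1, 1, 0, -1, 0, 1], [1, 0, -2, 1, 1, -1, 0], [0, 0, 1, -1, 0, 1, -1],
      [0, 0, 0, 1, 0, 0, 1]] (by decide +kernel) (reg_cent (tor_injective_E7 _)
      (fun d => kerE7.pow_eq_one') (L := [3, 1, 4, 5, 3, 1, 2, 0])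
      (M := [[-1, 0, 1, 0, 0, 0, 0], [-1, 0, 0, 0, 1, 0, 0], [-1, 0, 0, 1, 0, 0, 0],
        [-2, 0, 0, 1, 1, -1, 1], [-1, -1, 0, 1, 1, -1, 1], [0, 0, 0, 0, 1, -1, 1],
        [0, 0, 0, 0, 0, 0, 1]])
      (Lm := [[0, 0, 0, 0, 0, 1, -1], [0, 1, 1, -1, 0, 0, 0], [1, 0, 0, 0, -1, 1, 0],
        [0, 0, 1, -1, 0, 0, 1], [1, 0, -1, 0, 0, 0, 1], [-1, 0, 0, 0, 0, 0, 1],
        [0, 0, -1, 1, 0, -1, 1], [-1, -1, 0, 1, 0, 0, 0]])
      (A := [[1, 0, 0, 1, 0, -1, 1], [1, 1, 0, 0, 0, 0, 1], [2, 0, 0, 2, -1, -1, 2],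
        [3, 0, 0, 2, -1, -1, 3], [3, 0, -1, 2, 0, -1, 2], [2, 0, 0, 1, 0, 0, 1],
        [1, 0, 0, 1, 0, 0, 1]])
      (P := [-1, 1, 0, -1, 1, 0, -1]) rt_E7 (by decide +kernel) (by decide +kernel)
      (by decide +kernel) hF ?_)
    change _ = (q : ℤ) ^ 7 + pv 7 _ q
    rw [pv_eq, hN]
    simp only [Finset.sum_range_succ, Finset.sum_range_zero, List.getD_cons_succ,
      List.getD_cons_zero]
    ring
  · refine key [[1, -1, 0, 0, -1, 1, 0], [-1, -1, 1, 0, 1, -1, -1], [0, 1, -1, 0, 0, -1, 1],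
      [0, 0, 0, 0, 0, 1, -1], [1, 1, 0, -1, -1, 0, 2], [-2, -1, 1, 2, 1, -1, -2],
      [2, 0, -1, -1, 0, 1, 1]] (by decide +kernel) (reg_cent (tor_injective_E7 _)
      (fun d => kerE7.pow_eq_one') (L := [0, 1, 2, 3, 4, 5, 6])
      (M := [[0, 1, 0, 0, 0, 0, -1], [0, 0, 1, 0, 0, 0, -1], [1, 1, 0, 0, 0, 0, -1],
        [0, 1, 1, 0, 0, 0, -1], [0, 0, 0, 1, 0, 0, -1], [0, 0, 0, 0, 1, 0, -1],
        [0, 0, 0, 0, 0, 1, -1]])
      (Lm := [[0, 0, 0, 0, 0, 0, 1], [-1, -1, 0, 1, 0, 0, 0], [0, 0, -1, 0, 1, 0, 0],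
        [0, -1, 0, 0, 0, 1, 0], [-1, 0, 0, 0, 0, 0, 1], [0, -1, -1, 1, 0, 0, 0],
        [0, 0, 0, -1, 1, 0, 0], [0, 0, 0, 0, -1, 1, 0]])
      (A := [[1, 0, 0, 0, -1, 0, 0], [0, 0, 1, 0, 0, -1, -1], [1, 1, 0, 0, -1, -1, 0],
        [1, 1, 1, 0, -1, -1, -1], [1, 1, 1, 0, -1, -1, 0], [0, 0, 1, 1, 0, -1, -1],
        [1, 0, 0, 0, 0, 0, 0]])
      (P := [1, 1, 0, -1, -1, 0, 1]) rt_E7 (by decide +kernel) (by decide +kernel)
      (by decide +kernel) hF ?_)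
    change _ = (q : ℤ) ^ 7 + pv 7 _ q
    rw [pv_eq, hN]
    simp only [Finset.sum_range_succ, Finset.sum_range_zero, List.getD_cons_succ,
      List.getD_cons_zero]
    ring

end H70.IS
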