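import Cfsg.Agent.Base

/-! Similarity classes of three by three matrices; products of two similar matrices. -/

open Matrix

namespace H70.M3

variable {F : Type*} [Field F]

abbrev M (F : Type*) := Matrix (Fin 3) (Fin 3) F

def Sim (A B : M F) : Prop := ∃ P : M F, P.det ≠ 0 ∧ A * P = P * B

theorem Sim.refl (A : M F) : Sim A A := ⟨1, by simp, by simp⟩

theorem Sim.trans {A B C : M F} (h : Sim A B) (k : Sim B C) : Sim A C := by
  obtain ⟨P, h1, h2⟩ := h; obtain ⟨Q, k1, k2⟩ := k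
  exact ⟨P * Q, by rw [det_mul]; exact mul_ne_zero h1 k1, by rw [← mul_assoc, h2, mul_assoc, k2, mul_assoc]⟩

theorem Sim.symm {A B : M F} (h : Sim A B) : Sim B A := by
  obtain ⟨P, h1, h2⟩ := h
  have u : IsUnit P.det := h1.isUnit
  refine ⟨P⁻¹, (isUnit_nonsing_inv_det P u).ne_zero, ?_⟩
  calc B * P⁻¹ = P⁻¹ * (P * B) * P⁻¹ := by rw [← mul_assoc, nonsing_inv_mul _ u, one_mul]
    _ = _ := by rw [← h2, ← mul_assoc, mul_assoc _ P, mul_nonsing_inv _ u, mul_one]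

theorem Sim.conj {A P : M F} (h : P.det ≠ 0) : Sim A (P⁻¹ * A * P) :=
  ⟨P, h, by rw [← mul_assoc, ← mul_assoc, mul_nonsing_inv _ h.isUnit, one_mul]⟩

theorem Sim.det_eq {A B : M F} (h : Sim A B) : A.det = B.det := by
  obtain ⟨P, h1, h2⟩ := h
  have := congrArg det h2
  rw [det_mul, det_mul, mul_comm] at this
  exact mul_left_cancel₀ h1 this

theorem Sim.map {K : Type*} [Field K] (f : F →+* K) {A B : M F} (h : Sim A B) : Sim (A.map f) (B.map f) := by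
  obtain ⟨P, h1, h2⟩ := h
  refine ⟨P.map f, ?_, by rw [← Matrix.map_mul, h2, Matrix.map_mul]⟩
  rw [← RingHom.mapMatrix_apply, ← RingHom.map_det]
  exact (map_ne_zero f).2 h1

def comp (s t d : F) : M F := !![0, 0, d; 1, 0, -t; 0, 1, s]

def e2 (A : M F) : F :=
  A 0 0 * A 1 1 - A 0 1 * A 1 0 + (A 0 0 * A 2 2 - A 0 2 * A 2 0) + (A 1 1 * A 2 2 - A 1 2 * A 2 1)

/-- the matrix with columns `e, A e, A² e` -/
def kry (A : M F) (e : Fin 3 → F) : M F := (Matrix.of ![e, A *ᵥ e, A *ᵥ (A *ᵥ e)])ᵀ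

theorem sim_comp (A : M F) (e : Fin 3 → F) (h : (kry A e).det ≠ 0) : Sim A (comp A.trace (e2 A) A.det) := by
  refine ⟨kry A e, h, ?_⟩
  ext i j
  fin_cases i <;> fin_cases j <;>
    simp [kry, comp, e2, mul_apply, Fin.sum_univ_three, mulVec, dotProduct, det_fin_three, trace] <;> ring

/-- scalar plus rank one -/
def rk (c : F) (v w : Fin 3 → F) : M F := c • (1 : M F) + vecMulVec v w

def nc (f g : F) : M F := !![0, -(f * g), 0; 1, f + g, 0; 0, 0, f]

theorem dich_aux (a b c d e f : F) :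
    (∃ x, (kry !![0, a, b; 1, c, d; 0, e, f] x).det ≠ 0) ∨
      ∃ k g, Sim (!![0, a, b; 1, c, d; 0, e, f] : M F) (nc k g) := by
  by_contra hn
  push Not at hn
  obtain ⟨h1, h2⟩ := hn
  have he : e = 0 := by
    simpa [kry, mulVec, dotProduct, det_fin_three, Fin.sum_univ_three] using h1 ![1, 0, 0]
  subst he
  by_cases hf : f * f - c * f - a = 0
  · have k1 := h1 ![0, 0, 1]
    have k2 := h1 ![1, 0, 1]
    simp [kry, dotProduct, det_fin_three, Fin.sum_univ_three] at k1 k2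
    have hb : b = -f * d := by grind
    refine h2 f (c - f) ⟨!![1, 0, -d; 0, 1, 0; 0, 0, 1], by simp [det_fin_three], ?_⟩
    ext i j
    fin_cases i <;> fin_cases j <;> simp [nc, hb, mul_apply, Fin.sum_univ_three] <;> grind
  · have k := h1 ![((c - f) * (1 - b) + a * d) / (f * f - c * f - a), (f * d - (1 - b)) / (f * f - c * f - a), 1]
    simp [kry, dotProduct, det_fin_three, Fin.sum_univ_three] at k
    grind

theorem exists_indep {A : M F} (hA : ∀ c : F, A ≠ c • 1) :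
    ∃ e w : Fin 3 → F, ((Matrix.of ![e, A *ᵥ e, w])ᵀ).det ≠ 0 := by
  by_contra hn
  push Not at hn
  have k1 := hn ![1, 0, 0] ![0, 1, 0]
  have k2 := hn ![1, 0, 0] ![0, 0, 1]
  have k3 := hn ![0, 1, 0] ![1, 0, 0]
  have k4 := hn ![0, 1, 0] ![0, 0, 1]
  have k5 := hn ![0, 0, 1] ![1, 0, 0]
  have k6 := hn ![0, 0, 1] ![0, 1, 0]
  have k7 := hn ![1, 1, 0] ![0, 0, 1]
  have k8 := hn ![1, 0, 1] ![0, 1, 0]
  simp [det_fin_three, mulVec, dotProduct, Fin.sum_univ_three] at k1 k2 k3 k4 k5 k6 k7 k8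
  refine hA (A 0 0) ?_
  ext i j
  fin_cases i <;> fin_cases j <;> simp <;> grind

theorem Sim.inv {A B : M F} (h : Sim A B) : A.trace = B.trace ∧ e2 A = e2 B := by
  obtain ⟨P, h1, h2⟩ := h
  have k : ∀ x : F, (x • 1 - A).det = (x • 1 - B).det := fun x =>
    Sim.det_eq ⟨P, h1, by rw [sub_mul, mul_sub, h2, smul_mul_assoc, mul_smul_comm, one_mul, mul_one]⟩
  have t : A.trace = B.trace := by
    have : A = P * B * P⁻¹ := by rw [← h2, mul_assoc, mul_nonsing_inv _ h1.isUnit, mul_one]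
    rw [this, trace_mul_cycle, nonsing_inv_mul _ h1.isUnit, one_mul]
  refine ⟨t, ?_⟩
  have k0 := k 0
  have k1 := k 1
  simp [det_fin_three, trace, Fin.sum_univ_three, e2] at k0 k1 t ⊢
  grind

theorem dich {A : M F} (hA : ∀ c : F, A ≠ c • 1) :
    Sim A (comp A.trace (e2 A) A.det) ∨ ∃ f g, Sim A (nc f g) := by
  obtain ⟨e, w, h⟩ := exists_indep hA
  set P := (Matrix.of ![e, A *ᵥ e, w])ᵀ with hP
  have s := Sim.conj (A := A) h
  set B := P⁻¹ * A * P with hB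
  have c : B *ᵥ Pi.single 0 1 = Pi.single 1 1 := by
    have e1 : P *ᵥ Pi.single 0 1 = e := by ext i; simp [hP]
    have e2 : P *ᵥ Pi.single 1 1 = A *ᵥ e := by ext i; simp [hP]
    rw [hB, ← mulVec_mulVec, ← mulVec_mulVec, e1, ← e2, mulVec_mulVec, nonsing_inv_mul _ h.isUnit, one_mulVec]
  have eB : B = !![0, B 0 1, B 0 2; 1, B 1 1, B 1 2; 0, B 2 1, B 2 2] := by
    have c0 := congrFun c 0; have c1 := congrFun c 1; have c2 := congrFun c 2
    simp at c0 c1 c2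
    ext i j
    fin_cases i <;> fin_cases j <;> simp [c0, c1, c2]
  rcases dich_aux (B 0 1) (B 0 2) (B 1 1) (B 1 2) (B 2 1) (B 2 2) with ⟨x, hx⟩ | ⟨f, g, hx⟩
  · rw [← eB] at hx
    rw [s.inv.1, s.inv.2, s.det_eq]
    exact Or.inl (s.trans (sim_comp B x hx))
  · rw [← eB] at hx
    exact Or.inr ⟨f, g, s.trans hx⟩

theorem Sim.quad {A B : M F} (h : Sim A B) {s t : F} (k : A * A - s • A + t • 1 = 0) :
    B * B - s • B + t • 1 = 0 := by
  obtain ⟨P, h1, h2⟩ := h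
  have : P * (B * B - s • B + t • 1) = (A * A - s • A + t • 1) * P := by
    simp only [mul_add, add_mul, mul_sub, sub_mul, mul_smul_comm, smul_mul_assoc, mul_one, one_mul, ← mul_assoc, ← h2]
    rw [mul_assoc A P, ← h2, mul_assoc]
  rw [k, zero_mul] at this
  have e := congrArg (P⁻¹ * ·) this
  simpa only [← mul_assoc, nonsing_inv_mul _ h1.isUnit, one_mul, mul_zero] using e

theorem sim_nc {A : M F} (hA : ∀ c : F, A ≠ c • 1) {f g : F} (k : A * A - (f + g) • A + (f * g) • 1 = 0)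
    (t : A.trace = 2 * f + g) : Sim A (nc f g) := by
  rcases dich hA with h | ⟨f', g', h⟩
  · have := congrFun (congrFun (h.quad k) 2) 0
    simp [comp] at this
  · have k1 := congrFun (congrFun (h.quad k) 1) 0
    have t' := h.inv.1
    rw [t] at t'
    simp [nc, Fin.sum_univ_three, trace] at k1 t'
    have : f' = f := by grind
    have : g' = g := by grind
    subst_vars
    exact h

/-- `A` is a product of two matrices similar to `x` -/
def Prod (x A : M F) : Prop := ∃ X Y, Sim X x ∧ Sim Y x ∧ A = X * Y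

theorem Prod.of_sim {x A B : M F} (h : Sim A B) (k : Prod x B) : Prod x A := by
  obtain ⟨P, h1, h2⟩ := h.symm
  obtain ⟨X, Y, hX, hY, rfl⟩ := k
  refine ⟨P⁻¹ * X * P, P⁻¹ * Y * P, (Sim.conj h1).symm.trans hX, (Sim.conj h1).symm.trans hY, ?_⟩
  calc A = P⁻¹ * (P * A) := by rw [← mul_assoc, nonsing_inv_mul _ h1.isUnit, one_mul]
    _ = P⁻¹ * X * (P * P⁻¹) * Y * P := by rw [← h2, mul_nonsing_inv _ h1.isUnit]; simp only [mul_assoc, mul_one]
    _ = _ := by simp only [mul_assoc]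

theorem Prod.map {K : Type*} [Field K] (f : F →+* K) {x A : M F} (h : Prod x A) : Prod (x.map f) (A.map f) := by
  obtain ⟨X, Y, hX, hY, rfl⟩ := h
  exact ⟨_, _, hX.map f, hY.map f, Matrix.map_mul⟩

def dg (a : F) : M F := !![a, 0, 0; 0, 1, 0; 0, 0, a⁻¹]

theorem prod_lu {a : F} (h0 : a ≠ 0) (h1 : a * a ≠ 1) {B : M F} (k1 : B 0 0 = a * a)
    (k2 : B 0 0 * B 1 1 - B 0 1 * B 1 0 = a * a) (k3 : B.det = 1) : Prod (dg a) B := by
  have a1 : a - 1 ≠ 0 := fun e => h1 (by rw [sub_eq_zero.1 e, mul_one])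
  have a2 : a * a - 1 ≠ 0 := sub_ne_zero.2 h1
  have a3 : a * a ≠ 0 := mul_ne_zero h0 h0
  have L : ∀ x y z : F, Sim !![a, 0, 0; x, 1, 0; y, z, a⁻¹] (dg a) := fun x y z => by
    refine ⟨!![1, 0, 0; x / (a - 1), 1, 0; a * (y + z * x / (a - 1)) / (a * a - 1), a * z / (a - 1), 1],
      by simp [det_fin_three], ?_⟩
    ext i j
    fin_cases i <;> fin_cases j <;> simp [dg, mul_apply, Fin.sum_univ_three] <;> grind
  have U : ∀ x y z : F, Sim !![a, x, y; 0, 1, z; 0, 0, a⁻¹] (dg a) := fun x y z => by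
    refine ⟨!![1, -x / (a - 1), -a * (y - a * z * x / (a - 1)) / (a * a - 1); 0, 1, -a * z / (a - 1); 0, 0, 1],
      by simp [det_fin_three], ?_⟩
    ext i j
    fin_cases i <;> fin_cases j <;> simp [dg, mul_apply, Fin.sum_univ_three] <;> grind
  refine ⟨_, _, L (B 1 0 / a) (B 2 0 / a) (B 2 1 - B 2 0 * B 0 1 / (a * a)),
    U (B 0 1 / a) (B 0 2 / a) (B 1 2 - B 1 0 * B 0 2 / (a * a)), ?_⟩
  rw [det_fin_three] at k3
  ext i j
  fin_cases i <;> fin_cases j <;> simp [mul_apply, Fin.sum_univ_three] <;> grind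

theorem prod_dg {a : F} (h0 : a ≠ 0) (h1 : a * a ≠ 1) {A : M F} (hA : ∀ c : F, A ≠ c • 1) (hd : A.det = 1) :
    Prod (dg a) A := by
  rcases dich hA with h | ⟨f, g, h⟩
  · refine Prod.of_sim h ?_
    generalize A.trace = s
    generalize e2 A = t
    set v := s - a * a - 1 - a⁻¹ * a⁻¹ with hv
    set w := a * a + a * a * v + 1 + a⁻¹ * a⁻¹ - t with hw
    set H : M F := !![a * a, 0, a * w; a, 1, w + v; 0, 1, v + a⁻¹ * a⁻¹] with hH
    have d : H.det = 1 := by simp [hH, det_fin_three]; grind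
    have k := sim_comp H ![1, 0, 0] (by simp [hH, kry, dotProduct, det_fin_three, Fin.sum_univ_three, h0])
    have e1 : H.trace = s := by simp [hH, trace, Fin.sum_univ_three]; grind
    have e2 : e2 H = t := by simp [hH, e2]; grind
    rw [e1, e2, d] at k
    rw [hd]
    exact Prod.of_sim k.symm (prod_lu h0 h1 (by simp [hH]) (by simp [hH]) d)
  · refine Prod.of_sim h ?_
    have d : f * f * g = 1 := by
      have := h.det_eq
      simp [hd, nc, det_fin_three] at this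
      grind
    set x := a * a - f with hx
    set y := a * a / f - a * a with hy
    set z := g - a * a / f with hz
    set B : M F := !![f + x, y, z; x, f + y, z; x, y, f + z] with hB
    have k : Sim B (nc f g) := sim_nc (fun c e => by
        have e1 := congrFun (congrFun e 1) 0
        have e2 := congrFun (congrFun e 0) 1
        simp [hB] at e1 e2
        grind) (by
        ext i j
        fin_cases i <;> fin_cases j <;> simp [hB] <;> grind)
      (by simp [hB, trace, Fin.sum_univ_three]; grind)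
    exact Prod.of_sim k.symm (prod_lu h0 h1 (by simp [hB]; grind) (by simp [hB]; grind)
      (by rw [k.det_eq, ← h.det_eq, hd]))

def x4 (F : Type*) [Field F] : M F := !![1, 0, 0; 0, 0, -1; 0, 1, 0]

instance fact3 : Fact (Nat.Prime 3) := ⟨Nat.prime_three⟩

theorem prod_comp3 (s t : ZMod 3) : Prod (x4 (ZMod 3)) (comp s t 1) := by
  fin_cases s <;> fin_cases t
  · exact ⟨!![2, 1, 0; 1, 1, 0; 1, 0, 1], !![2, 0, 1; 2, 0, 2; 1, 1, 2],
      ⟨!![0, 0, 1; 0, 1, 1; 2, 1, 1], by decide, by decide⟩, ⟨!![1, 1, 1; 0, 1, 0; 2, 2, 0], by decide, by decide⟩, by decide⟩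
  · exact ⟨!![0, 1, 0; 2, 0, 0; 2, 2, 1], !![2, 0, 1; 0, 0, 1; 2, 1, 2],
      ⟨!![0, 0, 1; 0, 1, 0; 2, 1, 0], by decide, by decide⟩, ⟨!![1, 1, 1; 2, 0, 2; 2, 2, 0], by decide, by decide⟩, by decide⟩
  · exact ⟨!![0, 1, 0; 2, 0, 0; 1, 2, 1], !![2, 0, 2; 0, 0, 1; 1, 1, 2],
      ⟨!![0, 0, 1; 0, 1, 0; 2, 0, 2], by decide, by decide⟩, ⟨!![1, 1, 1; 1, 0, 1; 1, 1, 0], by decide, by decide⟩, by decide⟩
  · exact ⟨!![2, 1, 0; 1, 1, 0; 0, 1, 1], !![2, 0, 1; 2, 0, 2; 1, 1, 2],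
      ⟨!![0, 0, 1; 0, 1, 1; 2, 2, 0], by decide, by decide⟩, ⟨!![1, 1, 1; 0, 1, 0; 2, 2, 0], by decide, by decide⟩, by decide⟩
  · exact ⟨!![0, 1, 0; 2, 0, 0; 2, 0, 1], !![2, 0, 1; 0, 0, 1; 2, 1, 2],
      ⟨!![0, 0, 1; 0, 1, 0; 2, 2, 2], by decide, by decide⟩, ⟨!![1, 1, 1; 2, 0, 2; 2, 2, 0], by decide, by decide⟩, by decide⟩
  · exact ⟨!![0, 1, 0; 2, 0, 0; 1, 0, 1], !![2, 0, 2; 0, 0, 1; 1, 1, 2],
      ⟨!![0, 0, 1; 0, 1, 0; 2, 1, 1], by decide, by decide⟩, ⟨!![1, 1, 1; 1, 0, 1; 1, 1, 0], by decide, by decide⟩, by decide⟩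
  · exact ⟨!![2, 1, 0; 1, 1, 0; 2, 2, 1], !![2, 0, 1; 2, 0, 2; 1, 1, 2],
      ⟨!![0, 0, 1; 0, 1, 1; 2, 0, 2], by decide, by decide⟩, ⟨!![1, 1, 1; 0, 1, 0; 2, 2, 0], by decide, by decide⟩, by decide⟩
  · exact ⟨!![0, 1, 0; 2, 0, 0; 2, 1, 1], !![2, 0, 1; 0, 0, 1; 2, 1, 2],
      ⟨!![0, 0, 1; 0, 1, 0; 2, 0, 1], by decide, by decide⟩, ⟨!![1, 1, 1; 2, 0, 2; 2, 2, 0], by decide, by decide⟩, by decide⟩
  · exact ⟨!![0, 1, 0; 2, 0, 0; 1, 1, 1], !![2, 0, 2; 0, 0, 1; 1, 1, 2],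
      ⟨!![0, 0, 1; 0, 1, 0; 2, 2, 0], by decide, by decide⟩, ⟨!![1, 1, 1; 1, 0, 1; 1, 1, 0], by decide, by decide⟩, by decide⟩

theorem prod_nc3 (f : ZMod 3) (hf : f ≠ 0) : Prod (x4 (ZMod 3)) (nc f 1) := by
  fin_cases f
  · exact absurd rfl hf
  · exact ⟨!![0, 0, 1; 1, 1, 2; 2, 0, 0], !![0, 0, 2; 1, 1, 1; 0, 2, 0],
      ⟨!![0, 0, 1; 1, 0, 2; 0, 1, 0], by decide, by decide⟩, ⟨!![1, 0, 1; 1, 0, 2; 2, 2, 0], by decide, by decide⟩, by decide⟩
  · exact ⟨!![0, 0, 1; 1, 1, 2; 2, 0, 0], !![0, 0, 1; 1, 1, 2; 0, 1, 0],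
      ⟨!![0, 0, 1; 1, 0, 2; 0, 1, 0], by decide, by decide⟩, ⟨!![1, 1, 1; 1, 2, 2; 1, 1, 2], by decide, by decide⟩, by decide⟩

theorem prod_three {A : M (ZMod 3)} (hA : ∀ c : ZMod 3, A ≠ c • 1) (hd : A.det = 1) : Prod (x4 (ZMod 3)) A := by
  rcases dich hA with h | ⟨f, g, h⟩
  · exact Prod.of_sim h (hd ▸ prod_comp3 _ _)
  · have d : f * f * g = 1 := by
      have := h.det_eq
      simp [hd, nc, det_fin_three] at this
      grind
    have : f ≠ 0 ∧ g = 1 := by clear h; revert f g; decide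
    exact Prod.of_sim h (this.2 ▸ prod_nc3 f this.1)

theorem prod_card_three [Fintype F] (h : Fintype.card F = 3) {A : M F} (hA : ∀ c : F, A ≠ c • 1) (hd : A.det = 1) :
    Prod (x4 F) A := by
  let e : ZMod 3 ≃+* F := ZMod.ringEquivOfPrime F Nat.prime_three h
  have := (prod_three (A := A.map e.symm.toRingHom) (fun c k => hA (e c) (by
      ext i j
      have := congrArg e (congrFun (congrFun k i) j)
      by_cases hij : i = j <;> simpa [hij, one_apply] using this)) (by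
      rw [← RingHom.mapMatrix_apply, ← RingHom.map_det, hd, map_one])).map e.toRingHom
  convert this using 1
  · ext i j
    fin_cases i <;> fin_cases j <;> simp [x4]
  · ext i j; simp

theorem exists_sl {x X : SpecialLinearGroup (Fin 3) F} (hx : ∀ t : F, Commute (diagonal ![t, 1, 1]) x.1)
    (h : Sim X.1 x.1) : ∃ u : SpecialLinearGroup (Fin 3) F, X = u * x * u⁻¹ := by
  obtain ⟨P, h1, h2⟩ := h
  refine ⟨⟨P * diagonal ![P.det⁻¹, 1, 1], by simp [Fin.prod_univ_three, h1]⟩, eq_mul_inv_of_mul_eq (Subtype.ext ?_)⟩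
  change X.1 * (P * _) = P * _ * x.1
  rw [← mul_assoc, h2, mul_assoc, ← (hx _).eq, mul_assoc]

theorem psl_of_prod {x : SpecialLinearGroup (Fin 3) F} (hx : ∀ t : F, Commute (diagonal ![t, 1, 1]) x.1)
    (h : ∀ A : M F, (∀ c : F, A ≠ c • 1) → A.det = 1 → Prod x.1 A) (g : ProjectiveSpecialLinearGroup (Fin 3) F)
    (hg : g ≠ 1) : ∃ u v : ProjectiveSpecialLinearGroup (Fin 3) F,
      g = (u * (x : ProjectiveSpecialLinearGroup (Fin 3) F) * u⁻¹) * (v * x * v⁻¹) := by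
  obtain ⟨A, rfl⟩ := QuotientGroup.mk_surjective g
  obtain ⟨X, Y, hX, hY, e⟩ := h A.1 (fun c k => hg ((QuotientGroup.eq_one_iff _).2 (Subgroup.mem_center_iff.2
    fun B => Subtype.ext (by change B.1 * A.1 = A.1 * B.1; rw [k]; simp)))) A.2
  obtain ⟨u, hu⟩ := exists_sl (X := ⟨X, hX.det_eq.trans x.2⟩) hx hX
  obtain ⟨v, hv⟩ := exists_sl (X := ⟨Y, hY.det_eq.trans x.2⟩) hx hY
  refine ⟨u, v, ?_⟩
  rw [← QuotientGroup.mk_inv, ← QuotientGroup.mk_inv, ← QuotientGroup.mk_mul, ← QuotientGroup.mk_mul,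
    ← QuotientGroup.mk_mul, ← QuotientGroup.mk_mul, ← QuotientGroup.mk_mul, ← hu, ← hv]
  exact congrArg _ (Subtype.ext e)

end H70.M3
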