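import Cfsg.Agent.H62.SpInSL

set_option autoImplicit false

/-! Abstract systems of transvections (McLaughlin's theorem, `p` odd): a pairing `b : X × Y → F` and
a relation `C v φ` ("the transvection with centre `v` and axis `φ` is present"). -/

namespace H70

open Module

variable {F X Y : Type*} [Field F] [AddCommGroup X] [Module F X] [AddCommGroup Y] [Module F Y]

/-- An abstract connected system of transvections without unipotent radical. -/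
structure TSys (b : X →ₗ[F] Y →ₗ[F] F) (C : X → Y → Prop) : Prop where
  zero : ∀ {v φ}, C v φ → b v φ = 0
  zero_l : ∀ φ, C 0 φ
  zero_r : ∀ v, C v 0
  smul_l : ∀ (c : F) {v φ}, C v φ → C (c • v) φ
  smul_r : ∀ (c : F) {v φ}, C v φ → C v (c • φ)
  add_l : ∀ {v w φ}, C v φ → C w φ → C (v + w) φ
  add_r : ∀ {v φ ψ}, C v φ → C v ψ → C v (φ + ψ)
  conj : ∀ {v φ w ψ}, C v φ → C w ψ → C (w + b w φ • v) (ψ - b v ψ • φ)
  min_l : ∀ U : Submodule F X, (∀ v φ, C v φ → ∀ x ∈ U, b x φ • v ∈ U) →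
    ∀ v φ, C v φ → v ≠ 0 → φ ≠ 0 → v ∈ U → U = ⊤
  min_r : ∀ U : Submodule F Y, (∀ v φ, C v φ → ∀ ψ ∈ U, b v ψ • φ ∈ U) →
    ∀ v φ, C v φ → v ≠ 0 → φ ≠ 0 → φ ∈ U → U = ⊤
  rad_l : ∀ {v φ}, C v φ → (∀ ψ, b v ψ = 0) → v = 0 ∨ φ = 0
  rad_r : ∀ {v φ}, C v φ → (∀ x, b x φ = 0) → v = 0 ∨ φ = 0
  faith : ∀ {v φ r l}, C v φ → C (v + r) (φ + l) → (∀ ψ, b r ψ = 0) → (∀ x, b x l = 0) →
    v ≠ 0 → φ ≠ 0 → r = 0 ∧ l = 0
  ex : ∃ v φ, C v φ ∧ v ≠ 0 ∧ φ ≠ 0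

namespace TSys

variable {b : X →ₗ[F] Y →ₗ[F] F} {C : X → Y → Prop}

theorem flip (h : TSys b C) : TSys b.flip (fun φ v => C v φ) where
  zero := fun h1 => h.zero h1
  zero_l := h.zero_r
  zero_r := h.zero_l
  smul_l := fun c _ _ h1 => h.smul_r c h1
  smul_r := fun c _ _ h1 => h.smul_l c h1
  add_l := fun h1 h2 => h.add_r h1 h2
  add_r := fun h1 h2 => h.add_l h1 h2
  conj := fun {φ v ψ w} h1 h2 => by
    have := h.conj (h.smul_l (-1) h1) h2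
    simpa [sub_eq_add_neg] using this
  min_l := fun U hU φ v h1 h2 h3 h4 => h.min_r U (fun v φ hc => hU φ v hc) v φ h1 h3 h2 h4
  min_r := fun U hU φ v h1 h2 h3 h4 => h.min_l U (fun v φ hc => hU φ v hc) v φ h1 h3 h2 h4
  rad_l := fun h1 h2 => (h.rad_r h1 h2).symm
  rad_r := fun h1 h2 => (h.rad_l h1 h2).symm
  faith := fun h1 h2 h3 h4 h5 h6 => (h.faith h1 h2 h4 h3 h6 h5).symm
  ex := by obtain ⟨v, φ, h1, h2, h3⟩ := h.ex; exact ⟨φ, v, h1, h3, h2⟩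

theorem sub_l (h : TSys b C) {v w : X} {φ : Y} (h1 : C v φ) (h2 : C w φ) : C (v - w) φ := by
  have := h.add_l h1 (h.smul_l (-1) h2)
  simpa [sub_eq_add_neg] using this

theorem sub_r (h : TSys b C) {v : X} {φ ψ : Y} (h1 : C v φ) (h2 : C v ψ) : C v (φ - ψ) :=
  h.flip.sub_l h1 h2

theorem of_smul_l (h : TSys b C) {c : F} (hc : c ≠ 0) {v : X} {φ : Y} (h1 : C (c • v) φ) :
    C v φ := by
  have := h.smul_l c⁻¹ h1
  rwa [smul_smul, inv_mul_cancel₀ hc, one_smul] at this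

/-- The mixed commutator rule. -/
theorem mix (h : TSys b C) {v w : X} {φ ψ : Y} (h1 : C v φ) (h2 : C w ψ) (h3 : b w φ ≠ 0)
    (h4 : b v ψ = 0) : C v ψ := by
  have h5 := h.conj h1 h2
  rw [h4, zero_smul, sub_zero] at h5
  have h6 := h.sub_l h5 h2
  rw [add_sub_cancel_left] at h6
  exact h.of_smul_l h3 h6

/-- `v` is a centre. -/
def IsC (C : X → Y → Prop) (v : X) : Prop := ∃ φ, φ ≠ 0 ∧ C v φ

theorem move (h : TSys b C) {z y : X} {φ : Y} (h1 : C z φ) (h2 : IsC C y) (h3 : b y φ ≠ 0)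
    (c : F) : IsC C (y + c • z) := by
  obtain ⟨ψ, hψ, h2⟩ := h2
  have h4 := h.conj (h.smul_l (c / b y φ) h1) h2
  rw [smul_smul, mul_div_cancel₀ _ h3] at h4
  refine ⟨_, fun h0 => ?_, h4⟩
  have h5 := congrArg (b z) h0
  have h6 := congrArg (b y) h0
  simp only [map_sub, map_smul, h.zero h1, h.zero h2, smul_eq_mul, mul_zero, sub_zero, map_zero,
    LinearMap.smul_apply] at h5 h6
  apply hψ
  rw [map_smul, LinearMap.smul_apply, h5] at h0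
  simpa using h0

theorem IsC.smul (h : TSys b C) {v : X} (hv : IsC C v) (c : F) : IsC C (c • v) := by
  obtain ⟨φ, h1, h2⟩ := hv
  exact ⟨φ, h1, h.smul_l c h2⟩

theorem exists_axis (h : TSys b C) {δ : X} (hδ : ∃ ψ, b δ ψ ≠ 0) :
    ∃ u θ, C u θ ∧ u ≠ 0 ∧ b δ θ ≠ 0 := by
  by_contra hc
  push Not at hc
  obtain ⟨v, φ, h1, h2, h3⟩ := h.ex
  have := h.min_r (LinearMap.ker (b δ)) (fun v φ hv ψ _ => by
    by_cases h0 : v = 0
    · simp [h0]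
    · simp [hc v φ hv h0]) v φ h1 h2 h3 (hc v φ h1 h2)
  obtain ⟨ψ, hψ⟩ := hδ
  exact hψ (show ψ ∈ LinearMap.ker (b δ) from this ▸ Submodule.mem_top)

/-- Lemma S: the centres of the transvections moving `δ` span `X`. -/
theorem exists_two (h : TSys b C) {δ : X} (hδ : ∃ ψ, b δ ψ ≠ 0) {φ : Y} (hφ : ∃ x, b x φ ≠ 0) :
    ∃ u θ, C u θ ∧ b δ θ ≠ 0 ∧ b u φ ≠ 0 := by
  by_contra hc
  push Not at hc
  obtain ⟨u₀, θ₀, h1, h2, h3⟩ := h.exists_axis hδ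
  have hθ₀ : θ₀ ≠ 0 := by rintro rfl; simp at h3
  set S : Submodule F X := Submodule.span F {u | ∃ θ, C u θ ∧ b δ θ ≠ 0} with hS
  have hT : S = ⊤ := by
    refine h.min_l S (fun w ψ hw x hx => ?_) u₀ θ₀ h1 h2 hθ₀ (Submodule.subset_span ⟨θ₀, h1, h3⟩)
    induction hx using Submodule.span_induction with
    | mem u hu =>
      obtain ⟨θ, hu, hθ⟩ := hu
      by_cases h0 : b δ ψ = 0
      · have h4 : u + b u ψ • w ∈ S :=
          Submodule.subset_span ⟨_, h.conj hw hu, by simpa [h0] using hθ⟩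
        have h5 := S.sub_mem h4 (Submodule.subset_span ⟨θ, hu, hθ⟩)
        simpa using h5
      · exact S.smul_mem _ (Submodule.subset_span ⟨ψ, hw, h0⟩)
    | zero => simp
    | add x y _ _ hx hy => simpa [add_smul] using S.add_mem hx hy
    | smul c x _ hx => simpa [mul_smul] using S.smul_mem c hx
  obtain ⟨x, hx⟩ := hφ
  have : S ≤ LinearMap.ker (b.flip φ) := Submodule.span_le.2 fun u ⟨θ, h4, h5⟩ => hc u θ h4 h5
  exact hx (this (hT ▸ Submodule.mem_top : x ∈ S))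

theorem not_rad_r (h : TSys b C) {v : X} {φ : Y} (h1 : C v φ) (h2 : v ≠ 0) (h3 : φ ≠ 0) :
    ∃ x, b x φ ≠ 0 := by
  by_contra hc
  push Not at hc
  exact (h.rad_r h1 hc).elim h2 h3

theorem not_rad_l (h : TSys b C) {v : X} {φ : Y} (h1 : C v φ) (h2 : v ≠ 0) (h3 : φ ≠ 0) :
    ∃ ψ, b v ψ ≠ 0 := h.flip.not_rad_r h1 h3 h2

/-- Lemma M: a line with all points but one centres. -/
theorem isC_of_line (h : TSys b C) (h2 : (2 : F) ≠ 0) {z δ : X} (hδ : ∃ ψ, b δ ψ ≠ 0)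
    (hz : ∀ e : F, IsC C (z + e • δ)) : IsC C δ := by
  by_contra hn
  have first : ∀ z' φ (c : F), c ≠ 0 → C z' φ → b δ φ ≠ 0 → IsC C (z' + c • δ) → False := by
    intro z' φ c hc h1 h3 h4
    have h5 := h.move h1 h4 (by simp [h.zero h1, hc, h3]) (-1)
    have h6 := IsC.smul h h5 c⁻¹
    apply hn
    convert h6 using 1
    rw [neg_smul, one_smul, add_neg_cancel_comm, smul_smul, inv_mul_cancel₀ hc, one_smul]
  choose φ hφ0 hφ using hz
  have hd : ∀ e, b δ (φ e) = 0 := fun e => by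
    by_contra h0
    refine first _ _ 1 one_ne_zero (hφ e) h0 ⟨φ (e + 1), hφ0 _, ?_⟩
    convert hφ (e + 1) using 1
    module
  have hzz : ∀ e, b z (φ e) = 0 := fun e => by simpa [hd e] using h.zero (hφ e)
  have hz0 : z ≠ 0 := by
    rintro rfl
    exact hn ⟨φ 1, hφ0 1, by simpa using hφ 1⟩
  have hφz : C z (φ 0) := by simpa using hφ 0
  obtain ⟨u, θ, hu, hθ, huφ⟩ := h.exists_two hδ (h.not_rad_r hφz hz0 (hφ0 0))
  have hθ0 : θ ≠ 0 := by rintro rfl; simp at hθ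
  obtain ⟨e, he0, he⟩ : ∃ e : F, e ≠ 0 ∧ b (z + e • δ) θ ≠ 0 := by
    by_contra hc
    push Not at hc
    have h3 := hc 1 one_ne_zero
    have h4 := hc (-1) (by simp)
    simp only [map_add, map_smul, LinearMap.add_apply, LinearMap.smul_apply, smul_eq_mul] at h3 h4
    exact mul_ne_zero h2 hθ (by linear_combination h3 - h4)
  by_cases h0 : b u (φ e) = 0
  · have h3 : C u (φ e) := h.mix hu (hφ e) he h0
    have h4 : C z (φ e) := h.mix hφz h3 huφ (hzz e)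
    have h5 := h.sub_l (hφ e) h4
    rw [add_sub_cancel_left] at h5
    exact hn ⟨φ e, hφ0 e, h.of_smul_l he0 h5⟩
  · have h3 := h.move (hφ e) ⟨θ, hθ0, hu⟩ h0 1
    have h4 := h.move hφz h3 (by simpa [hzz 0, hd 0] using huφ) (-1)
    refine first u θ e he0 hu hθ ?_
    convert h4 using 1
    module

/-- Every vector outside the radical is a centre. -/
theorem isC_of_not_rad [FiniteDimensional F X] (h : TSys b C) (h2 : (2 : F) ≠ 0) {x : X}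
    (hx : ∃ ψ, b x ψ ≠ 0) : IsC C x := by
  obtain ⟨v₀, φ₀, h0, hv₀, hφ₀⟩ := h.ex
  obtain ⟨U, ⟨hU0, hU⟩, hmax⟩ := (set_has_maximal_iff_noetherian.2
    (inferInstance : IsNoetherian F X)) {U | v₀ ∈ U ∧ ∀ y ∈ U, (∃ ψ, b y ψ ≠ 0) → IsC C y}
    ⟨F ∙ v₀, Submodule.mem_span_singleton_self _, fun y hy _ => by
      obtain ⟨c, rfl⟩ := Submodule.mem_span_singleton.1 hy
      exact ⟨φ₀, hφ₀, h.smul_l c h0⟩⟩
  have hT : U = ⊤ := by
    refine h.min_l U (fun w ψ hw y hy => ?_) v₀ φ₀ h0 hv₀ hφ₀ hU0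
    by_cases hyψ : b y ψ = 0
    · simp [hyψ]
    refine U.smul_mem _ ?_
    by_contra hwU
    refine hmax (U ⊔ F ∙ w) ⟨Submodule.mem_sup_left hU0, fun y' hy' hr => ?_⟩
      (lt_of_le_of_ne le_sup_left fun he => hwU
        (he ▸ Submodule.mem_sup_right (Submodule.mem_span_singleton_self w)))
    obtain ⟨y₁, hy₁, w', hw', rfl⟩ := Submodule.mem_sup.1 hy'
    obtain ⟨c, rfl⟩ := Submodule.mem_span_singleton.1 hw'
    by_cases h1 : b y₁ ψ = 0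
    · refine h.isC_of_line h2 (z := y) hr fun e => ?_
      have h3 : b (y + e • y₁) ψ ≠ 0 := by simpa [h1] using hyψ
      have := h.move hw (hU _ (U.add_mem hy (U.smul_mem e hy₁)) ⟨ψ, h3⟩) h3 (e * c)
      convert this using 1
      module
    · exact h.move hw (hU _ hy₁ ⟨ψ, h1⟩) h1 c
  exact hU x (hT ▸ Submodule.mem_top) hx

/-- The radical vanishes. -/
theorem rad_eq_zero [FiniteDimensional F X] (h : TSys b C) (h2 : (2 : F) ≠ 0) {r : X}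
    (hr : ∀ ψ, b r ψ = 0) : r = 0 := by
  by_contra hr0
  obtain ⟨v, φ, hv, hv0, hφ0⟩ := h.ex
  have hvr := h.not_rad_l hv hv0 hφ0
  have hvr' : ∃ ψ, b (v + r) ψ ≠ 0 := by simpa [hr] using hvr
  have hvr0 : v + r ≠ 0 := by
    intro h0; obtain ⟨ψ, hψ⟩ := hvr'; simp [h0] at hψ
  have same : ∀ χ, χ ≠ 0 → C v χ → C (v + r) χ → False := fun χ h0 h3 h4 => by
    have h5 := h.sub_l h4 h3
    rw [add_sub_cancel_left] at h5
    exact (h.rad_l h5 hr).elim hr0 h0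
  have claim1 : ∀ x ξ, C x ξ → b v ξ ≠ 0 → ∀ φ', C (v + r) φ' → b x φ = 0 → b x φ' = 0 := by
    intro x ξ hx hξ φ' h3 h4
    by_contra h5
    have h6 : C x φ := h.mix hx hv hξ h4
    exact same φ hφ0 hv (h.mix h3 h6 h5 (by simp [hr, h.zero hv]))
  have claim2 : ∀ x ξ, C x ξ → b v ξ ≠ 0 → ∀ φ', C (v + r) φ' → b x φ ≠ 0 → b x φ' = 0 →
      φ' = 0 := by
    intro x ξ hx hξ φ' h3 h4 h5
    by_contra h0
    have h6 : C x φ' := h.mix hx h3 (by simpa [hr] using hξ) h5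
    exact same φ' h0 (h.mix hv h6 h4 (by simpa [hr] using h.zero h3)) h3
  obtain ⟨φ', hφ'0, hφ'⟩ := h.isC_of_not_rad h2 hvr'
  obtain ⟨x₁, ξ₁, hx₁, hξ₁, hx₁φ⟩ := h.exists_two hvr (h.not_rad_r hv hv0 hφ0)
  have hx₁φ' : b x₁ φ' ≠ 0 := fun h0 => hφ'0 (claim2 x₁ ξ₁ hx₁ hξ₁ φ' hφ' hx₁φ h0)
  by_cases hd : ∀ δ, b δ φ = 0 → b δ φ' = 0
  · obtain ⟨c, hc⟩ := H62.exists_smul_of_ker_le (φ := b.flip φ) (ψ := b.flip φ') hd
    have hc' : ∀ x, b x φ' = c * b x φ := fun x => by simpa using LinearMap.congr_fun hc x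
    have hc0 : c ≠ 0 := by rintro rfl; exact hx₁φ' (by simp [hc'])
    refine hr0 (h.faith (l := φ' - c • φ) (h.smul_r c hv) (by simpa using hφ') hr
      (fun x => by simp [hc']) hv0 (smul_ne_zero hc0 hφ0)).1
  · push Not at hd
    obtain ⟨δ, h3, h4⟩ := hd
    obtain ⟨η, hη0, hη⟩ := h.isC_of_not_rad h2 (x := δ) ⟨φ', h4⟩
    by_cases h5 : b v η = 0
    · have h6 : C (v + r) η := h.mix hφ' hη h4 (by simp [hr, h5])
      have h7 := claim2 x₁ ξ₁ hx₁ hξ₁ _ (h.sub_r h6 (h.smul_r (b x₁ η / b x₁ φ') hφ')) hx₁φ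
        (by simp [hx₁φ'])
      have h8 := congrArg (b δ) h7
      simp only [map_sub, map_smul, h.zero hη, smul_eq_mul, zero_sub, map_zero, neg_eq_zero,
        mul_eq_zero, h4, or_false] at h8
      rw [h8, zero_smul, sub_zero] at h7
      exact hη0 h7
    · exact h4 (claim1 δ η hη h5 φ' hφ' h3)

theorem ne_l [FiniteDimensional F X] (h : TSys b C) (h2 : (2 : F) ≠ 0) {x : X} (hx : x ≠ 0) :
    ∃ ψ, b x ψ ≠ 0 := by
  by_contra hc
  push Not at hc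
  exact hx (h.rad_eq_zero h2 hc)

theorem ne_r [FiniteDimensional F Y] (h : TSys b C) (h2 : (2 : F) ≠ 0) {φ : Y} (hφ : φ ≠ 0) :
    ∃ x, b x φ ≠ 0 := h.flip.ne_l h2 hφ

theorem isC [FiniteDimensional F X] (h : TSys b C) (h2 : (2 : F) ≠ 0) {x : X} (hx : x ≠ 0) :
    IsC C x := h.isC_of_not_rad h2 (h.ne_l h2 hx)

/-- The axes belonging to a centre. -/
def Phi (h : TSys b C) (v : X) : Submodule F Y where
  carrier := {φ | C v φ}
  add_mem' := h.add_r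
  zero_mem' := h.zero_r v
  smul_mem' := fun c _ h1 => h.smul_r c h1

/-- The linear case. -/
theorem linear_case [FiniteDimensional F X] [FiniteDimensional F Y] (h : TSys b C)
    (h2 : (2 : F) ≠ 0) (hl : ∃ v φ₁ φ₂, v ≠ 0 ∧ C v φ₁ ∧ C v φ₂ ∧ φ₁ ≠ 0 ∧ φ₂ ∉ F ∙ φ₁)
    (x : X) (ξ : Y) (hx : b x ξ = 0) : C x ξ := by
  obtain ⟨v₀, φ₁, φ₂, hv₀, h₁, h₂, hφ₁, hφ₂⟩ := hl
  obtain ⟨P, ⟨v, hv, rfl, h₁, h₂⟩, hmax⟩ := (set_has_maximal_iff_noetherian.2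
    (inferInstance : IsNoetherian F Y)) {P | ∃ v, v ≠ 0 ∧ P = h.Phi v ∧ C v φ₁ ∧ C v φ₂}
    ⟨_, v₀, hv₀, rfl, h₁, h₂⟩
  have hvr := h.ne_l h2 hv
  have hfull : ∀ ξ, b v ξ = 0 → C v ξ := by
    intro ξ hξ
    by_contra hn
    have hξ0 : ξ ≠ 0 := by rintro rfl; exact hn (h.zero_r v)
    obtain ⟨x, hx0, hx⟩ := h.flip.isC h2 hξ0
    have hN : ∀ φ, C v φ → b x φ = 0 := fun φ hφ => by
      by_contra h3
      exact hn (h.mix hφ hx h3 hξ)
    obtain ⟨y, η, hy, hη, hξy⟩ := h.exists_two hvr (h.ne_r h2 hξ0)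
    obtain ⟨φ, hφ0, hφ, hφy⟩ : ∃ φ, φ ≠ 0 ∧ C v φ ∧ b y φ = 0 := by
      by_cases h3 : b y φ₁ = 0
      · exact ⟨φ₁, hφ₁, h₁, h3⟩
      · refine ⟨φ₂ - (b y φ₂ / b y φ₁) • φ₁, fun h0 => hφ₂ ?_, h.sub_r h₂ (h.smul_r _ h₁),
          by simp [h3]⟩
        exact Submodule.mem_span_singleton.2 ⟨_, (sub_eq_zero.1 h0).symm⟩
    have hxφ : C x φ := h.mix hx (h.mix hy hφ hη hφy) hξy (hN φ hφ)
    obtain ⟨y', η', hy', hη', hφy'⟩ := h.exists_two hvr (h.ne_r h2 hφ0)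
    have hle : ∀ χ, C v χ → C x χ := fun χ hχ => by
      have h3 : C v (χ - (b y' χ / b y' φ) • φ) := h.sub_r hχ (h.smul_r _ hφ)
      have h4 := h.mix hxφ (h.mix hy' h3 hη' (by simp [hφy'])) hφy' (hN _ h3)
      simpa using h.add_r h4 (h.smul_r (b y' χ / b y' φ) hxφ)
    exact hmax (h.Phi x) ⟨x, hx0, rfl, hle _ h₁, hle _ h₂⟩
      (lt_of_le_of_ne hle fun he => hn (show ξ ∈ h.Phi v from he ▸ hx))
  have step : ∀ v, (∀ ξ, b v ξ = 0 → C v ξ) → ∀ y η, C y η → b v η ≠ 0 →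
      ∀ ξ, b y ξ = 0 → C y ξ := by
    intro v hf y η hy hη ξ hξ
    have h3 : b v (ξ - (b v ξ / b v η) • η) = 0 := by simp [hη]
    have h4 := h.mix hy (hf _ h3) hη (by simp [hξ, h.zero hy])
    simpa using h.add_r h4 (h.smul_r (b v ξ / b v η) hy)
  by_cases hx0 : x = 0
  · rw [hx0]; exact h.zero_l ξ
  obtain ⟨ζ, hζ0, hζ⟩ := h.isC h2 hx0
  obtain ⟨y, η, hy, hη, hζy⟩ := h.exists_two hvr (h.ne_r h2 hζ0)
  exact step y (step v hfull y η hy hη) x ζ hζ hζy ξ hx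

/-- The symplectic case. -/
theorem symplectic_case [FiniteDimensional F X] [FiniteDimensional F Y] (h : TSys b C)
    (h2 : (2 : F) ≠ 0) (hl : ∀ v φ₁ φ₂, v ≠ 0 → C v φ₁ → C v φ₂ → φ₁ ≠ 0 → φ₂ ∈ F ∙ φ₁) :
    ∃ J : X →ₗ[F] Y, (∀ x, C x (J x)) ∧ ∀ x, J x = 0 → x = 0 := by
  have sym : ∀ v φ w ψ, v ≠ 0 → C v φ → C w ψ → ψ ≠ 0 → b v ψ = 0 → b w φ = 0 := by
    intro v φ w ψ hv h1 h3 hψ h4
    by_contra h5
    have hφ : φ ≠ 0 := by rintro rfl; simp at h5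
    obtain ⟨c, rfl⟩ := Submodule.mem_span_singleton.1 (hl v φ ψ hv h1 (h.mix h1 h3 h5 h4) hφ)
    have := h.zero h3
    simp only [map_smul, smul_eq_mul, mul_eq_zero, h5, or_false] at this
    simp [this] at hψ
  obtain ⟨v₀, φ₀, h₀, hv₀, hφ₀⟩ := h.ex
  have hJt : ∀ w, ∃ ψ, b w φ₀ ≠ 0 → C w ψ ∧ b v₀ ψ = - b w φ₀ := by
    intro w
    by_cases hw : b w φ₀ = 0
    · exact ⟨0, fun h3 => absurd hw h3⟩
    have hw0 : w ≠ 0 := by rintro rfl; simp at hw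
    obtain ⟨ψ, hψ0, hψ⟩ := h.isC h2 hw0
    have h3 : b v₀ ψ ≠ 0 := fun h4 => hw (sym v₀ φ₀ w ψ hv₀ h₀ hψ hψ0 h4)
    exact ⟨(- b w φ₀ / b v₀ ψ) • ψ, fun _ => ⟨h.smul_r _ hψ, by simp [h3]⟩⟩
  choose Jt hJt using hJt
  have hJt0 : ∀ w, b w φ₀ ≠ 0 → Jt w ≠ 0 := fun w hw h0 => by
    have := (hJt w hw).2
    rw [h0, map_zero] at this
    exact hw (neg_eq_zero.1 this.symm)
  have anti : ∀ w w', b w φ₀ ≠ 0 → b w' φ₀ ≠ 0 → b w (Jt w') = - b w' (Jt w) := by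
    intro w w' hw hw'
    have hw0 : w ≠ 0 := by rintro rfl; simp at hw
    by_cases hα : b w (Jt w') = 0
    · rw [hα, sym w _ w' _ hw0 (hJt w hw).1 (hJt w' hw').1 (hJt0 w' hw') hα, neg_zero]
    have h3 := h.conj (h.smul_l (b w' φ₀ / (b w (Jt w') * b w φ₀)) (hJt w hw).1) (hJt w' hw').1
    have h4 := sym v₀ φ₀ _ _ hv₀ h₀ h3 (fun h0 => hα (by
      have := congrArg (b w) h0
      simpa [h.zero (hJt w hw).1] using this)) (by
      simp only [map_sub, map_smul, LinearMap.smul_apply, smul_eq_mul, (hJt w hw).2,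
        (hJt w' hw').2]
      field_simp
      ring)
    simp only [map_add, map_smul, LinearMap.add_apply, LinearMap.smul_apply, smul_eq_mul] at h4
    field_simp at h4
    have h5 : b w' φ₀ * (b w (Jt w') + b w' (Jt w)) = 0 := by linear_combination h4
    exact eq_neg_of_add_eq_zero_left ((mul_eq_zero.1 h5).resolve_left hw')
  obtain ⟨x₀, hx₀⟩ : ∃ x₀, b x₀ φ₀ = 1 := by
    obtain ⟨x, hx⟩ := h.ne_r h2 hφ₀
    exact ⟨(b x φ₀)⁻¹ • x, by simp [hx]⟩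
  have hx₀' : b x₀ φ₀ ≠ 0 := by simp [hx₀]
  have ext : ∀ χ χ', (∀ x, b x φ₀ ≠ 0 → b x χ = b x χ') → χ = χ' := by
    intro χ χ' hχ
    by_contra h0
    obtain ⟨x, hx⟩ := h.ne_r h2 (sub_ne_zero.2 h0)
    rw [map_sub, sub_ne_zero] at hx
    by_cases h3 : b x φ₀ = 0
    · have h4 := hχ (x + x₀) (by simp [h3, hx₀])
      simp only [map_add, LinearMap.add_apply, hχ x₀ hx₀', add_left_inj] at h4
      exact hx h4
    · exact hx (hχ x h3)
  have hj : ∀ y, ∃ χ, ∀ x, b x φ₀ ≠ 0 → b x χ = - b y (Jt x) := fun y =>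
    ⟨Jt (y + (1 - b y φ₀) • x₀) - (1 - b y φ₀) • Jt x₀, fun x hx => by
      rw [map_sub, map_smul, anti x _ hx (by simp [hx₀]), anti x x₀ hx hx₀']
      simp only [map_add, map_smul, LinearMap.add_apply, LinearMap.smul_apply, smul_eq_mul]
      ring⟩
  choose j hj using hj
  let J : X →ₗ[F] Y :=
    { toFun := j
      map_add' := fun y y' => ext _ _ fun x hx => by
        simp only [map_add, hj _ x hx, LinearMap.add_apply]; ring
      map_smul' := fun c y => ext _ _ fun x hx => by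
        simp only [map_smul, hj _ x hx, LinearMap.smul_apply, smul_eq_mul, RingHom.id_apply]
        ring }
  have hJ : ∀ y x, b x φ₀ ≠ 0 → b x (J y) = - b y (Jt x) := hj
  have hJJ : ∀ y, b y φ₀ ≠ 0 → J y = Jt y := fun y hy =>
    ext _ _ fun x hx => by rw [hJ y x hx, anti x y hx hy]
  have key : ∀ y, y ≠ 0 → ∃ u, b u φ₀ ≠ 0 ∧ b y (Jt u) ≠ 0 := fun y hy => by
    obtain ⟨u, θ, hu, hθ, huφ⟩ := h.exists_two (h.ne_l h2 hy) ⟨x₀, hx₀'⟩
    have hu0 : u ≠ 0 := by rintro rfl; simp at huφ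
    obtain ⟨c, rfl⟩ := Submodule.mem_span_singleton.1
      (hl u _ θ hu0 (hJt u huφ).1 hu (hJt0 u huφ))
    exact ⟨u, huφ, fun h0 => hθ (by simp [h0])⟩
  refine ⟨J, fun y => ?_, fun y hy => ?_⟩
  · by_cases hy : b y φ₀ = 0
    swap
    · rw [hJJ y hy]; exact (hJt y hy).1
    by_cases hy0 : y = 0
    · rw [hy0]; exact h.zero_l _
    obtain ⟨u, hu, hβ⟩ := key y hy0
    have hyu : b (y + u) φ₀ ≠ 0 := by simpa [hy] using hu
    have h3 := h.conj (h.smul_l (- (b y (Jt u))⁻¹) (hJt u hu).1) (hJt _ hyu).1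
    rw [← hJJ _ hyu] at h3
    have h4 : b u (Jt u) = 0 := h.zero (hJt u hu).1
    convert h3 using 1
    · simp [h4, smul_smul, hβ]
    · simp [hJ y u hu, hJJ u hu, h4, hβ]
  · by_contra hy0
    obtain ⟨u, hu, hβ⟩ := key y hy0
    have := hJ y u hu
    rw [hy, map_zero] at this
    exact hβ (neg_eq_zero.1 this.symm)

/-- McLaughlin's alternative for an abstract system. -/
theorem alternative [FiniteDimensional F X] [FiniteDimensional F Y] (h : TSys b C)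
    (h2 : (2 : F) ≠ 0) : (∀ x ξ, b x ξ = 0 → C x ξ) ∨
      ∃ J : X →ₗ[F] Y, (∀ x, C x (J x)) ∧ (∀ x, J x = 0 → x = 0) ∧
        ∀ x φ, x ≠ 0 → C x φ → ∃ c : F, φ = c • J x := by
  by_cases hl : ∃ v φ₁ φ₂, v ≠ 0 ∧ C v φ₁ ∧ C v φ₂ ∧ φ₁ ≠ 0 ∧ φ₂ ∉ F ∙ φ₁
  · exact Or.inl (h.linear_case h2 hl)
  · push Not at hl
    obtain ⟨J, h3, h4⟩ := h.symplectic_case h2 hl
    refine Or.inr ⟨J, h3, h4, fun x φ hx hφ => ?_⟩
    obtain ⟨c, hc⟩ := Submodule.mem_span_singleton.1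
      (hl x (J x) φ hx (h3 x) hφ fun h0 => hx (h4 x h0))
    exact ⟨c, hc.symm⟩

end TSys

end H70
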