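import Cfsg.Agent.H70.McL1

set_option autoImplicit false

/-! McLaughlin's theorem for linear groups generated by (full) transvection groups without
unipotent radical: decomposition into components. -/

namespace H70

open Module H62

variable {F V : Type*} [Field F] [AddCommGroup V] [Module F V]

theorem TSys.surj {X Y : Type*} [AddCommGroup X] [Module F X] [AddCommGroup Y] [Module F Y]
    [FiniteDimensional F X] [FiniteDimensional F Y] {b : X →ₗ[F] Y →ₗ[F] F} {C : X → Y → Prop}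
    (hs : TSys b C) (h2 : (2 : F) ≠ 0) :
    finrank F X = finrank F Y ∧ ∀ φ : Dual F X, ∃ ξ : Y, ∀ x, b x ξ = φ x := by
  have i1 : Function.Injective b :=
    (injective_iff_map_eq_zero _).2 fun x hx => by
      by_contra h0
      obtain ⟨ψ, hψ⟩ := hs.ne_l h2 h0
      exact hψ (by rw [hx]; rfl)
  have i2 : Function.Injective b.flip :=
    (injective_iff_map_eq_zero _).2 fun x hx => by
      by_contra h0
      obtain ⟨ψ, hψ⟩ := hs.ne_r h2 h0
      exact hψ (LinearMap.congr_fun hx ψ)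
  have d1 := LinearMap.finrank_le_finrank_of_injective i1
  have d2 := LinearMap.finrank_le_finrank_of_injective i2
  have d3 : finrank F (Y →ₗ[F] F) = finrank F Y := Subspace.dual_finrank_eq
  have d4 : finrank F (X →ₗ[F] F) = finrank F X := Subspace.dual_finrank_eq
  refine ⟨by omega, fun φ => ?_⟩
  have d5 : finrank F Y = finrank F (X →ₗ[F] F) := by omega
  obtain ⟨ξ, hξ⟩ := (LinearMap.injective_iff_surjective_of_finrank_eq_finrank d5).1 i2 φ
  exact ⟨ξ, fun x => LinearMap.congr_fun hξ x⟩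

/-- `U` is invariant under `H`. -/
def LInv (H : Subgroup (V ≃ₗ[F] V)) (U : Submodule F V) : Prop := ∀ h ∈ H, ∀ x ∈ U, h x ∈ U

/-- The transvection with centre `v` and axis `φ` lies in `H`. -/
def LTv (H : Subgroup (V ≃ₗ[F] V)) (v : V) (φ : Dual F V) : Prop := φ v = 0 ∧ HasTv H φ v

/-- `H` is generated by full transvection groups and has no unipotent radical. -/
structure TvG (H : Subgroup (V ≃ₗ[F] V)) : Prop where
  gen : ∀ K : Subgroup (V ≃ₗ[F] V),
    (∀ g ∈ H, ∀ (v : V) (φ : Dual F V), φ v = 0 → (∀ x, g x = x + φ x • v) → g ∈ K) → H ≤ K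
  smul : ∀ (c : F) (v : V) (φ : Dual F V), φ v = 0 → HasTv H φ v → HasTv H (c • φ) v
  op : ∀ U₁ U₂ : Submodule F V, LInv H U₁ → LInv H U₂ → ∀ g ∈ H, (∀ x, g x - x ∈ U₂) →
    (∀ x ∈ U₂, g x - x ∈ U₁) → (∀ x ∈ U₁, g x = x) → g = 1

/-- Minimal invariant subspaces containing a centre. -/
def LMin (H : Subgroup (V ≃ₗ[F] V)) (W : Submodule F V) : Prop :=
  LInv H W ∧ (∃ v ∈ W, ∃ φ, v ≠ 0 ∧ φ ≠ 0 ∧ LTv H v φ) ∧
    ∀ U, LInv H U → ∀ v φ, LTv H v φ → v ≠ 0 → φ ≠ 0 → v ∈ W → v ∈ U → W ≤ U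

/-- The span of the axes of the transvections with centre in `W`. -/
def LAx (H : Subgroup (V ≃ₗ[F] V)) (W : Submodule F V) : Submodule F (Dual F V) :=
  Submodule.span F {φ | ∃ v ∈ W, v ≠ 0 ∧ LTv H v φ}

/-- The common kernel of the axes. -/
def LPerp (H : Subgroup (V ≃ₗ[F] V)) (W : Submodule F V) : Submodule F V :=
  (LAx H W).dualCoannihilator

/-- The group generated by the transvections with centre in `W`. -/
def LK (H : Subgroup (V ≃ₗ[F] V)) (W : Submodule F V) : Subgroup (V ≃ₗ[F] V) :=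
  Subgroup.closure {g | ∃ v ∈ W, ∃ φ, LTv H v φ ∧ ∀ x, g x = x + φ x • v}

variable {H : Subgroup (V ≃ₗ[F] V)} {U W W' : Submodule F V}

theorem LInv.tv (hU : LInv H U) {v : V} {φ : Dual F V} (h : LTv H v φ) {x : V} (hx : x ∈ U) :
    φ x • v ∈ U := by
  obtain ⟨g, hg, hgx⟩ := h.2
  have := U.sub_mem (hU g hg x hx) hx
  rwa [hgx, add_sub_cancel_left] at this

theorem LInv.inf (hU : LInv H U) (hW : LInv H W) : LInv H (U ⊓ W) :=
  fun h hh x hx => ⟨hU h hh x hx.1, hW h hh x hx.2⟩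

theorem LInv.map_eq (hU : LInv H U) {h : V ≃ₗ[F] V} (hh : h ∈ H) :
    U.map (h : V →ₗ[F] V) = U := by
  refine le_antisymm ?_ fun x hx => ⟨h⁻¹ x, hU _ (H.inv_mem hh) x hx, by simp⟩
  rintro _ ⟨x, hx, rfl⟩
  exact hU h hh x hx

theorem mem_LAx {v : V} {φ : Dual F V} (h : LTv H v φ) (hv : v ∈ W) (h0 : v ≠ 0) :
    φ ∈ LAx H W := Submodule.subset_span ⟨v, hv, h0, h⟩

theorem mem_LPerp {x : V} : x ∈ LPerp H W ↔ ∀ φ ∈ LAx H W, φ x = 0 :=
  Submodule.mem_dualCoannihilator x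

theorem mem_LPerp' {x : V} :
    x ∈ LPerp H W ↔ ∀ v ∈ W, v ≠ 0 → ∀ φ, LTv H v φ → φ x = 0 := by
  rw [mem_LPerp]
  refine ⟨fun h v hv h0 φ hφ => h φ (mem_LAx hφ hv h0), fun h φ hφ => ?_⟩
  have : LAx H W ≤ LinearMap.ker (Module.Dual.eval F V x) :=
    Submodule.span_le.2 fun φ ⟨v, hv, h0, hφ⟩ => h v hv h0 φ hφ
  exact this hφ

theorem LK_le : LK H W ≤ H := by
  refine (Subgroup.closure_le _).2 ?_
  rintro g ⟨v, -, φ, ⟨-, k, hk, hkx⟩, hg⟩
  have : g = k := LinearEquiv.ext fun x => by rw [hg, hkx]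
  exact this ▸ hk

theorem LK_induction {P : (V ≃ₗ[F] V) → Prop} {g : V ≃ₗ[F] V} (hg : g ∈ LK H W) (h1 : P 1)
    (hmul : ∀ a b, P a → P b → P (a * b))
    (htv : ∀ g, ∀ v ∈ W, ∀ φ, LTv H v φ → (∀ x, g x = x + φ x • v) → P g) : P g := by
  induction hg using Subgroup.closure_induction'' with
  | one => exact h1
  | mem g hg => obtain ⟨v, hv, φ, hφ, hg⟩ := hg; exact htv g v hv φ hφ hg
  | inv_mem g hg =>
    obtain ⟨v, hv, φ, hφ, hg⟩ := hg
    refine htv _ v hv (-φ) ⟨by simp [hφ.1], hφ.2.neg_left hφ.1⟩ fun x => ?_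
    apply g.injective
    rw [LinearEquiv.coe_inv, LinearEquiv.apply_symm_apply]
    simp only [hg, map_add, map_smul, hφ.1, LinearMap.neg_apply]
    module
  | mul a b _ _ ha hb => exact hmul a b ha hb

theorem LK_sub_mem {g : V ≃ₗ[F] V} (hg : g ∈ LK H W) (x : V) : g x - x ∈ W := by
  revert x
  refine LK_induction (P := fun g => ∀ x, g x - x ∈ W) hg (by simp) (fun a b ha hb x => ?_)
    (fun g v hv φ _ hg x => by rw [hg, add_sub_cancel_left]; exact W.smul_mem _ hv)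
  have := W.add_mem (ha (b x)) (hb x)
  simpa using this

theorem LK_fix {g : V ≃ₗ[F] V} (hg : g ∈ LK H W) {x : V} (hx : x ∈ LPerp H W) : g x = x := by
  refine LK_induction (P := fun g => g x = x) hg rfl (fun a b ha hb => by simp [ha, hb])
    (fun g v hv φ hφ hg => ?_)
  by_cases h0 : v = 0
  · simp [hg, h0]
  · simp [hg, mem_LPerp'.1 hx v hv h0 φ hφ]

theorem LK_conj (hW : LInv H W) {h g : V ≃ₗ[F] V} (hh : h ∈ H) (hg : g ∈ LK H W) :
    h * g * h⁻¹ ∈ LK H W := by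
  refine LK_induction (P := fun g => h * g * h⁻¹ ∈ LK H W) hg (by simp) (fun a b ha hb => ?_)
    (fun g v hv φ hφ hg => Subgroup.subset_closure ⟨h v, hW h hh v hv,
      φ ∘ₗ (h.symm : V →ₗ[F] V), ⟨by simp [hφ.1], hφ.2.conj hh⟩, fun x => by simp [hg]⟩)
  have := (LK H W).mul_mem ha hb
  simpa [mul_assoc] using this

/-- Restriction to an invariant subspace. -/
def lres (K : Subgroup (V ≃ₗ[F] V)) (W : Submodule F V) (hW : LInv K W) : K →* (W ≃ₗ[F] W) where
  toFun g :=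
    { toFun := fun x => ⟨(g : V ≃ₗ[F] V) x, hW _ g.2 _ x.2⟩
      map_add' := fun x y => Subtype.ext (by simp)
      map_smul' := fun c x => Subtype.ext (by simp)
      invFun := fun x => ⟨(g : V ≃ₗ[F] V)⁻¹ x, hW _ (K.inv_mem g.2) _ x.2⟩
      left_inv := fun x => Subtype.ext (by simp)
      right_inv := fun x => Subtype.ext (by simp) }
  map_one' := LinearEquiv.ext fun x => Subtype.ext rfl
  map_mul' := fun a b => LinearEquiv.ext fun x => Subtype.ext rfl

theorem lres_apply (K : Subgroup (V ≃ₗ[F] V)) (W : Submodule F V) (hW : LInv K W) (g : K)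
    (x : W) : ((lres K W hW g x : W) : V) = (g : V ≃ₗ[F] V) x := rfl

namespace TvG

theorem inv_of (hH : TvG H) (h : ∀ v φ, LTv H v φ → ∀ x ∈ U, φ x • v ∈ U) : LInv H U := by
  let K : Subgroup (V ≃ₗ[F] V) :=
    { carrier := {g | ∀ x, x ∈ U ↔ g x ∈ U}
      mul_mem' := fun {a b} ha hb x => by rw [hb x, ha]; rfl
      one_mem' := fun x => Iff.rfl
      inv_mem' := fun {a} ha x => by rw [ha (a⁻¹ x)]; simp }
  have := hH.gen K fun g hg v φ hφ hgx x => ⟨fun hx => by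
    rw [hgx]; exact U.add_mem hx (h v φ ⟨hφ, g, hg, hgx⟩ x hx), fun hx => by
    have h2 := U.sub_mem hx (h v φ ⟨hφ, g, hg, hgx⟩ _ hx)
    simpa [hgx, hφ] using h2⟩
  exact fun g hg x hx => (this hg x).1 hx

theorem f1 (hH : TvG H) (hU : LInv H U) {v : V} {φ : Dual F V} (h : LTv H v φ) (hv : v ∈ U)
    (hφ : ∀ x ∈ U, φ x = 0) : v = 0 ∨ φ = 0 := by
  obtain ⟨g, hg, hgx⟩ := h.2
  have h1 := hH.op U U hU hU g hg
    (fun x => by rw [hgx, add_sub_cancel_left]; exact U.smul_mem _ hv)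
    (fun x _ => by rw [hgx, add_sub_cancel_left]; exact U.smul_mem _ hv)
    (fun x hx => by simp [hgx, hφ x hx])
  by_cases h0 : v = 0
  · exact Or.inl h0
  · refine Or.inr (LinearMap.ext fun x => ?_)
    have := hgx x
    rw [h1] at this
    simpa [h0] using this

theorem mem_perp (hH : TvG H) (hW : LInv H W) {u : V} {θ : Dual F V} (h : LTv H u θ) (hθ : θ ≠ 0)
    (hu : u ∉ W) : u ∈ LPerp H W := by
  have h1 : ∀ x ∈ W, θ x = 0 := fun x hx => by
    by_contra h0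
    exact hu ((W.smul_mem_iff h0).1 (hW.tv h hx))
  refine mem_LPerp'.2 fun v hv h0 φ hφ => ?_
  have h2 := h.2.comm_left h.1 hφ.2 hφ.1 (h1 v hv)
  have h3 := (hH.f1 hW ⟨by simp [h1 v hv], h2⟩ hv fun x hx => by simp [h1 x hx]).resolve_left h0
  simpa [hθ] using h3

theorem inv_perp (hH : TvG H) (hW : LInv H W) : LInv H (LPerp H W) := by
  refine hH.inv_of fun u θ h x hx => ?_
  by_cases hθ : θ = 0
  · simp [hθ]
  by_cases hu0 : u = 0
  · simp [hu0]
  by_cases hu : u ∈ W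
  · simp [mem_LPerp'.1 hx u hu hu0 θ h]
  · exact Submodule.smul_mem _ _ (hH.mem_perp hW h hθ hu)

theorem exists_min [FiniteDimensional F V] (hH : TvG H) {v : V} {φ : Dual F V} (h : LTv H v φ)
    (hv : v ≠ 0) (hφ : φ ≠ 0) : ∃ W, LMin H W ∧ v ∈ W := by
  let U₀ : Submodule F V := sInf {U | LInv H U ∧ v ∈ U}
  have hU₀ : LInv H U₀ := fun g hg x hx =>
    Submodule.mem_sInf.2 fun U hU => hU.1 g hg x (Submodule.mem_sInf.1 hx U hU)
  have hvU₀ : v ∈ U₀ := Submodule.mem_sInf.2 fun U hU => hU.2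
  obtain ⟨W, ⟨hW, hc, hle⟩, hmin⟩ := (IsArtinian.set_has_minimal
    {U : Submodule F V | LInv H U ∧ (∃ v ∈ U, ∃ φ, v ≠ 0 ∧ φ ≠ 0 ∧ LTv H v φ) ∧ U ≤ U₀}
    ⟨U₀, hU₀, ⟨v, hvU₀, φ, hv, hφ, h⟩, le_rfl⟩)
  refine ⟨W, ⟨hW, hc, fun U hU w ψ h1 h2 h3 h4 h5 => ?_⟩, ?_⟩
  · by_contra hn
    exact hmin (W ⊓ U) ⟨hW.inf hU, ⟨w, ⟨h4, h5⟩, ψ, h2, h3, h1⟩, inf_le_left.trans hle⟩
      (lt_of_le_of_ne inf_le_left fun he => hn (he ▸ inf_le_right))
  · by_contra hn
    have h1 : U₀ ≤ LPerp H W := sInf_le ⟨hH.inv_perp hW, hH.mem_perp hW h hφ hn⟩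
    obtain ⟨w, hw, ψ, h2, h3, h4⟩ := hc
    exact (hH.f1 hW h4 hw fun x hx => mem_LPerp'.1 (h1 (hle hx)) w hw h2 ψ h4).elim h2 h3

theorem le_perp (hH : TvG H) (hW : LMin H W) (hW' : LMin H W') (hne : W ≠ W') :
    W' ≤ LPerp H W := by
  obtain ⟨u, hu, θ, h1, h2, h3⟩ := hW'.2.1
  refine hW'.2.2 _ (hH.inv_perp hW.1) u θ h3 h1 h2 hu (hH.mem_perp hW.1 h3 h2 fun h4 => hne ?_)
  exact le_antisymm (hW.2.2 _ hW'.1 u θ h3 h1 h2 h4 hu) (hW'.2.2 _ hW.1 u θ h3 h1 h2 hu h4)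

/-- The evaluation pairing between a subspace and a space of functionals. -/
def ev (W : Submodule F V) (A : Submodule F (Dual F V)) : W →ₗ[F] A →ₗ[F] F :=
  LinearMap.mk₂ F (fun x φ => (φ : Dual F V) x) (by simp) (by simp) (by simp) (by simp)

@[simp] theorem ev_apply (W : Submodule F V) (A : Submodule F (Dual F V)) (x : W) (φ : A) :
    ev W A x φ = (φ : Dual F V) x := rfl

theorem tsys [FiniteDimensional F V] (hH : TvG H) (hW : LMin H W) :
    TSys (ev W (LAx H W)) (fun (v : W) (φ : LAx H W) => LTv H (v : V) (φ : Dual F V)) where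
  zero := fun h => h.1
  zero_l := fun φ => ⟨by simp, HasTv.zero_right _ _⟩
  zero_r := fun v => ⟨by simp, HasTv.zero_left _ _⟩
  smul_l := fun c v φ h => ⟨by simp [h.1], (HasTv.smul_left_iff c).1 (hH.smul c _ _ h.1 h.2)⟩
  smul_r := fun c v φ h => ⟨by simp [h.1], hH.smul c _ _ h.1 h.2⟩
  add_l := fun h1 h2 => ⟨by simp [h1.1, h2.1], h1.2.add_right h2.2 h2.1⟩
  add_r := fun h1 h2 => ⟨by simp [h1.1, h2.1], h1.2.add_left h2.2 h1.1⟩
  conj := fun h1 h2 => ⟨by simp [h1.1, h2.1, mul_comm], h1.2.conj_tv h1.1 h2.2⟩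
  min_l := by
    intro U hU v φ h1 h2 h3 h4
    have h5 : LInv H (U.map W.subtype) := by
      refine hH.inv_of ?_
      rintro u θ hu _ ⟨x, hx, rfl⟩
      by_cases hu0 : u = 0
      · simp [hu0]
      by_cases huW : u ∈ W
      · exact ⟨_, hU ⟨u, huW⟩ ⟨θ, mem_LAx hu huW hu0⟩ hu x hx, rfl⟩
      · have : θ x = 0 := by
          by_contra h0
          exact huW ((W.smul_mem_iff h0).1 (hW.1.tv hu x.2))
        simp [this]
    have h6 := hW.2.2 _ h5 v φ h1 (by simpa using h2) (by simpa using h3) v.2 ⟨v, h4, rfl⟩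
    refine eq_top_iff.2 fun x _ => ?_
    obtain ⟨y, hy, he⟩ := h6 x.2
    exact (Subtype.ext he : y = x) ▸ hy
  min_r := by
    intro U hU v φ h1 h2 h3 h4
    have hmem : ∀ x, x ∈ (U.map (LAx H W).subtype).dualCoannihilator ↔
        ∀ ψ ∈ U, (ψ : Dual F V) x = 0 := fun x => by
      rw [Submodule.mem_dualCoannihilator]
      exact ⟨fun h ψ hψ => h _ ⟨ψ, hψ, rfl⟩, by rintro h _ ⟨ψ, hψ, rfl⟩; exact h ψ hψ⟩
    have h5 : LInv H (U.map (LAx H W).subtype).dualCoannihilator := by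
      refine hH.inv_of fun u θ hu x hx => ?_
      by_cases hu0 : u = 0
      · simp [hu0]
      by_cases hθ : θ = 0
      · simp [hθ]
      rw [hmem] at hx ⊢
      intro ψ hψ
      by_cases huW : u ∈ W
      · have := hx _ (hU ⟨u, huW⟩ ⟨θ, mem_LAx hu huW hu0⟩ hu ψ hψ)
        simpa [mul_comm] using this
      · simp [mem_LPerp.1 (hH.mem_perp hW.1 hu hθ huW) ψ ψ.2]
    have h6 : LAx H W ≤ U.map (LAx H W).subtype := by
      refine Submodule.span_le.2 ?_
      rintro θ ⟨u, huW, hu0, hu⟩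
      rw [← Subspace.dualCoannihilator_dualAnnihilator_eq (W := U.map (LAx H W).subtype)]
      refine (Submodule.mem_dualAnnihilator θ).2 fun x hx => ?_
      by_contra h0
      have hθ : θ ≠ 0 := by rintro rfl; simp at h0
      have h7 := hW.2.2 _ h5 u θ hu hu0 hθ huW
        ((Submodule.smul_mem_iff _ h0).1 (h5.tv hu hx))
      exact (hH.f1 h5 h1 (h7 v.2) fun y hy => (hmem y).1 hy φ h4).elim (by simpa using h2)
        (by simpa using h3)
    refine eq_top_iff.2 fun x _ => ?_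
    obtain ⟨y, hy, he⟩ := h6 x.2
    exact (Subtype.ext he : y = x) ▸ hy
  rad_l := fun {v φ} h1 h2 => by
    have := hH.f1 (hH.inv_perp hW.1) h1 (mem_LPerp.2 fun ψ hψ => h2 ⟨ψ, hψ⟩)
      fun x hx => mem_LPerp.1 hx φ φ.2
    simpa using this
  rad_r := fun {v φ} h1 h2 => by
    have := hH.f1 hW.1 h1 v.2 fun x hx => h2 ⟨x, hx⟩
    simpa using this
  faith := by
    intro v φ r l h1 h2 h3 h4 h5 h6
    obtain ⟨g, hg, hgx⟩ := h1.2.neg_left h1.1
    obtain ⟨k, hk, hkx⟩ := h2.2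
    have hφv : (φ : Dual F V) v = 0 := h1.1
    have hφr : (φ : Dual F V) r = 0 := h3 φ
    have e : ∀ x, (g * k) x - x = ((φ : Dual F V) x + (l : Dual F V) x) • ((v : V) + r) -
        (φ : Dual F V) x • (v : V) := fun x => by
      simp only [LinearEquiv.mul_apply, hgx, hkx, map_add, map_smul, LinearMap.neg_apply,
        Submodule.coe_add, LinearMap.add_apply, hφv, hφr]
      module
    have h7 := hH.op (W ⊓ LPerp H W) W (hW.1.inf (hH.inv_perp hW.1)) hW.1 (g * k)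
      (H.mul_mem hg hk)
      (fun x => by
        rw [e]; exact W.sub_mem (W.smul_mem _ (W.add_mem v.2 r.2)) (W.smul_mem _ v.2))
      (fun x hx => by
        have h8 : (l : Dual F V) x = 0 := h4 ⟨x, hx⟩
        rw [e, h8, add_zero, smul_add, add_sub_cancel_left]
        exact Submodule.smul_mem _ _ ⟨r.2, mem_LPerp.2 fun ψ hψ => h3 ⟨ψ, hψ⟩⟩)
      (fun x hx => by
        rw [← sub_eq_zero, e, mem_LPerp.1 hx.2 φ φ.2, mem_LPerp.1 hx.2 l l.2]
        simp)
    obtain ⟨x, hx, hφx⟩ : ∃ x ∈ W, (φ : Dual F V) x ≠ 0 := by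
      by_contra hc
      push Not at hc
      exact (hH.f1 hW.1 h1 v.2 hc).elim (by simpa using h5) (by simpa using h6)
    have h9 : r = 0 := by
      have h10 := e x
      have h8 : (l : Dual F V) x = 0 := h4 ⟨x, hx⟩
      rw [h7, h8, add_zero, smul_add, add_sub_cancel_left] at h10
      simpa [hφx] using h10.symm
    refine ⟨h9, Subtype.ext (LinearMap.ext fun y => ?_)⟩
    have h10 := e y
    rw [h7, h9, add_smul] at h10
    have h11 : (v : V) ≠ 0 := by simpa using h5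
    simpa [h11] using h10.symm
  ex := by
    obtain ⟨v, hv, φ, h1, h2, h3⟩ := hW.2.1
    exact ⟨⟨v, hv⟩, ⟨φ, mem_LAx h3 hv h1⟩, h3, by simpa using h1, by simpa using h2⟩

theorem ev_surj [FiniteDimensional F V] (hH : TvG H) (h2 : (2 : F) ≠ 0) (hW : LMin H W) :
    finrank F W = finrank F (LAx H W) ∧
      ∀ φ : Dual F W, ∃ ξ : LAx H W, ∀ x : W, (ξ : Dual F V) x = φ x := by
  exact (hH.tsys hW).surj h2

theorem isCompl [FiniteDimensional F V] (hH : TvG H) (h2 : (2 : F) ≠ 0) (hW : LMin H W) :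
    IsCompl W (LPerp H W) := by
  have hd : Disjoint W (LPerp H W) := by
    refine Submodule.disjoint_def.2 fun x hx hx' => ?_
    have := (hH.tsys hW).rad_eq_zero h2 (r := ⟨x, hx⟩) fun ψ => mem_LPerp.1 hx' ψ ψ.2
    simpa using this
  refine (Submodule.isCompl_iff_disjoint _ _ ?_).2 hd
  have h3 := Subspace.finrank_add_finrank_dualCoannihilator_eq (LAx H W)
  have h4 := (hH.ev_surj h2 hW).1
  unfold LPerp
  omega

theorem range_res [FiniteDimensional F V] (hH : TvG H) (h2 : (2 : F) ≠ 0) (hW : LMin H W)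
    (hI : LInv (LK H W) W) :
    ((lres _ W hI).range : Set (W ≃ₗ[F] W)) =
        {f : W ≃ₗ[F] W | LinearMap.det (f : W →ₗ[F] W) = 1} ∨
      ∃ B : LinearMap.BilinForm F W, B.IsAlt ∧ B.Nondegenerate ∧
        ((lres _ W hI).range : Set (W ≃ₗ[F] W)) =
          {f : W ≃ₗ[F] W | ∀ x y, B (f x) (f y) = B x y} := by
  have ind : ∀ P : (W ≃ₗ[F] W) → Prop, P 1 → (∀ a b, P a → P b → P (a * b)) →
      (∀ (g : W ≃ₗ[F] W) (v : W) (φ : LAx H W), v ≠ 0 → LTv H v φ →
        (∀ x, g x = x + (φ : Dual F V) x • v) → P g) → ∀ f ∈ (lres _ W hI).range, P f := by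
    rintro P p1 pm pt _ ⟨⟨g, hg⟩, rfl⟩
    have := LK_induction (P := fun g => ∃ hg : g ∈ LK H W, P (lres _ W hI ⟨g, hg⟩)) hg
      ⟨(LK H W).one_mem, by
        have : (⟨1, (LK H W).one_mem⟩ : LK H W) = 1 := rfl
        rw [this, map_one]; exact p1⟩
      (fun a b ⟨ha, ha'⟩ ⟨hb, hb'⟩ => ⟨(LK H W).mul_mem ha hb, by
        have : (⟨a * b, (LK H W).mul_mem ha hb⟩ : LK H W) = ⟨a, ha⟩ * ⟨b, hb⟩ := rfl
        rw [this, map_mul]; exact pm _ _ ha' hb'⟩)
      (fun g v hv φ hφ hg => ⟨Subgroup.subset_closure ⟨v, hv, φ, hφ, hg⟩, by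
        by_cases h0 : v = 0
        · convert p1
          exact LinearEquiv.ext fun x => Subtype.ext (by simp [lres_apply, hg, h0])
        · exact pt _ ⟨v, hv⟩ ⟨φ, mem_LAx hφ hv h0⟩ (by simpa using h0) hφ
            fun x => Subtype.ext (by simp [lres_apply, hg])⟩)
    exact this.2
  have has : ∀ (v : W) (φ : LAx H W), LTv H v φ →
      ∃ g ∈ (lres _ W hI).range, ∀ x, g x = x + (φ : Dual F V) x • v := by
    intro v φ hφ
    obtain ⟨g, hg, hgx⟩ := hφ.2
    exact ⟨_, ⟨⟨g, Subgroup.subset_closure ⟨v, v.2, φ, hφ, hgx⟩⟩, rfl⟩,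
      fun x => Subtype.ext (by simp [lres_apply, hgx])⟩
  rcases (hH.tsys hW).alternative h2 with hl | ⟨J, hJ, hJ0, hJ1⟩
  · left
    refine Set.Subset.antisymm (fun f hf => ?_) fun f hf => ?_
    · refine ind (fun f => LinearMap.det (f : W →ₗ[F] W) = 1) (by simp) (fun a b ha hb => ?_)
        (fun g v φ _ hφ hg => ?_) f hf
      · have : ((a * b : W ≃ₗ[F] W) : W →ₗ[F] W) = (a : W →ₗ[F] W) * (b : W →ₗ[F] W) := rfl
        rw [this, map_mul, ha, hb, mul_one]
      · rw [det_of_tv (φ := (φ : Dual F V) ∘ₗ W.subtype) (u := v) hg]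
        simp [hφ.1]
    · refine mem_of_det_eq_one (fun φ u hu => ?_) f hf
      obtain ⟨ξ, hξ⟩ := (hH.ev_surj h2 hW).2 φ
      obtain ⟨g, hg, hgx⟩ := has u ξ (hl u ξ (by simp [hξ, hu]))
      exact ⟨g, hg, fun x => by rw [hgx, hξ]⟩
  · right
    let B : LinearMap.BilinForm F W := (ev W (LAx H W)).compl₂ J
    have hB : ∀ x y, B x y = (J y : Dual F V) x := fun x y => rfl
    have hA : B.IsAlt := fun x => (hJ x).1
    have hN : ∀ y, (∀ x, B x y = 0) → y = 0 := fun y hy => by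
      by_contra h0
      obtain ⟨x, hx⟩ := (hH.tsys hW).ne_r h2 (φ := J y) fun h3 => h0 (hJ0 y h3)
      exact hx (hy x)
    have hN' : B.Nondegenerate :=
      ⟨fun y hy => hN y fun x => by rw [alt_swap hA, hy, neg_zero], hN⟩
    refine ⟨B, hA, hN', Set.Subset.antisymm (fun f hf => ?_) fun f hf => ?_⟩
    · refine ind (fun f => ∀ x y, B (f x) (f y) = B x y) (fun x y => rfl)
        (fun a b ha hb x y => by rw [LinearEquiv.mul_apply, LinearEquiv.mul_apply, ha, hb])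
        (fun g v φ hv hφ hg => ?_) f hf
      obtain ⟨c, rfl⟩ := hJ1 v φ hv hφ
      exact isom_of_sp hA (v := v) (c := c) fun x => by rw [hg]; simp [hB]
    · refine mem_of_forall_fullSp hN' hA (fun v c => ?_) f hf
      obtain ⟨g, hg, hgx⟩ := has v (c • J v) ((hH.tsys hW).smul_r c (hJ v))
      exact ⟨g, hg, fun x => by rw [hgx]; simp [hB]⟩

/-- Components: minimal subspaces and the zero subspace. -/
theorem comp_facts [FiniteDimensional F V] (hH : TvG H) (h2 : (2 : F) ≠ 0)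
    (hW : W = ⊥ ∨ LMin H W) : LInv H W ∧ IsCompl W (LPerp H W) ∧
      (∀ W', (W' = ⊥ ∨ LMin H W') → W ≠ W' → W' ≤ LPerp H W) ∧
      ∀ hI : LInv (LK H W) W, ((lres _ W hI).range : Set (W ≃ₗ[F] W)) =
        {f : W ≃ₗ[F] W | LinearMap.det (f : W →ₗ[F] W) = 1} ∨
      ∃ B : LinearMap.BilinForm F W, B.IsAlt ∧ B.Nondegenerate ∧
        ((lres _ W hI).range : Set (W ≃ₗ[F] W)) =
          {f : W ≃ₗ[F] W | ∀ x y, B (f x) (f y) = B x y} := by
  rcases hW with rfl | hW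
  · have hP : LPerp H ⊥ = ⊤ := eq_top_iff.2 fun x _ => mem_LPerp'.2 fun v hv h0 =>
      absurd (by simpa using hv) h0
    refine ⟨fun h _ x hx => by simpa using hx, by rw [hP]; exact isCompl_bot_top,
      fun W' _ _ => by rw [hP]; exact le_top, fun hI => Or.inl ?_⟩
    have hs : ∀ f : (⊥ : Submodule F V) ≃ₗ[F] (⊥ : Submodule F V), f = 1 :=
      fun f => LinearEquiv.ext fun x => Subsingleton.elim _ _
    ext f
    rw [hs f]
    exact iff_of_true (Subgroup.one_mem _) (by simp)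
  · refine ⟨hW.1, hH.isCompl h2 hW, fun W' hW' hne => ?_, hH.range_res h2 hW⟩
    rcases hW' with rfl | hW'
    · exact bot_le
    · exact hH.le_perp hW hW' hne

/-- McLaughlin's theorem. -/
theorem main [Finite V] [FiniteDimensional F V] (hH : TvG H) (h2 : (2 : F) ≠ 0) :
    ∃ (n : ℕ) (W : Fin (n + 1) → Submodule F V) (K : Fin n → Subgroup (V ≃ₗ[F] V)),
      1 ≤ n ∧ DirectSum.IsInternal W ∧
      (∀ h ∈ H, ∀ i, (W i).map (h : V →ₗ[F] V) = W i) ∧
      (∀ j, K j ≤ H ∧ ((K j).subgroupOf H).Normal) ∧ ⨆ j, K j = H ∧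
      (∀ j, K j ⊓ (⨆ j' ∈ {j' : Fin n | j' ≠ j}, K j') = ⊥) ∧
      (∀ j j', j ≠ j' → ∀ a ∈ K j, ∀ b ∈ K j', a * b = b * a) ∧
      (∀ j, ∀ h ∈ K j, ∀ i : Fin (n + 1), i ≠ j.succ → ∀ v ∈ W i, h v = v) ∧
      (∀ j, ∃ ρ : ↥(K j) →* (↥(W j.succ) ≃ₗ[F] ↥(W j.succ)),
        (∀ (h : ↥(K j)) (v : ↥(W j.succ)), ((ρ h v : ↥(W j.succ)) : V) = (h : V ≃ₗ[F] V) (v : V)) ∧
        ((ρ.range : Set (↥(W j.succ) ≃ₗ[F] ↥(W j.succ))) =
            {f : ↥(W j.succ) ≃ₗ[F] ↥(W j.succ) | LinearMap.det (f : ↥(W j.succ) →ₗ[F] ↥(W j.succ)) = 1} ∨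
          ∃ B : LinearMap.BilinForm F ↥(W j.succ), B.IsAlt ∧ B.Nondegenerate ∧
            (ρ.range : Set (↥(W j.succ) ≃ₗ[F] ↥(W j.succ))) = {f : ↥(W j.succ) ≃ₗ[F] ↥(W j.succ) | ∀ x y, B (f x) (f y) = B x y})) := by
  classical
  let ι := {W : Submodule F V // W = ⊥ ∨ LMin H W}
  have : Finite (Submodule F V) :=
    Finite.of_injective (fun W : Submodule F V => (W : Set V)) SetLike.coe_injective
  obtain ⟨n, ⟨e⟩⟩ := Finite.exists_equiv_fin ι
  let M : Fin n → Submodule F V := fun j => (e.symm j).1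
  have hM := fun j => hH.comp_facts h2 (e.symm j).2
  have hMP : ∀ j j', j ≠ j' → M j' ≤ LPerp H (M j) := fun j j' hne =>
    (hM j).2.2.1 _ (e.symm j').2 fun he => hne (e.symm.injective (Subtype.ext he))
  let W : Fin (n + 1) → Submodule F V := Fin.cons (⨅ j, LPerp H (M j)) M
  have hW0 : W 0 = ⨅ j, LPerp H (M j) := rfl
  have hWs : ∀ j, W j.succ = M j := fun j => rfl
  have hWP : ∀ j i, i ≠ j.succ → W i ≤ LPerp H (M j) := by
    intro j i hi
    rcases Fin.eq_zero_or_eq_succ i with rfl | ⟨k, rfl⟩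
    · exact iInf_le _ j
    · exact hMP j k fun h => hi (by rw [h])
  let π : Fin n → V →ₗ[F] V := fun j => (M j).subtype ∘ₗ (M j).projectionOnto _ (hM j).2.1
  have hπ1 : ∀ j x, π j x ∈ M j := fun j x => Subtype.property _
  have hπ2 : ∀ j, ∀ x ∈ M j, π j x = x := fun j x hx =>
    congrArg Subtype.val (Submodule.projectionOnto_apply_left (hM j).2.1 ⟨x, hx⟩)
  have hπ3 : ∀ j, ∀ x ∈ LPerp H (M j), π j x = 0 := fun j x hx =>
    congrArg Subtype.val (Submodule.projectionOnto_apply_of_mem_right (hM j).2.1 hx)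
  have hπ4 : ∀ j x, x - π j x ∈ LPerp H (M j) := fun j x => by
    obtain ⟨a, ha, c, hc, rfl⟩ := Submodule.mem_sup.1
      (show x ∈ M j ⊔ LPerp H (M j) from (hM j).2.1.sup_eq_top ▸ Submodule.mem_top)
    simpa [hπ2 j a ha, hπ3 j c hc] using hc
  refine ⟨n, W, fun j => LK H (M j), Fin.pos (e ⟨⊥, Or.inl rfl⟩), ?_, fun h hh i => ?_,
    fun j => ⟨LK_le, ⟨fun g hg h => LK_conj (hM j).1 h.2 hg⟩⟩, ?_, fun j => ?_,
    fun j j' hne a ha b hb => ?_, fun j h hh i hi v hv => LK_fix hh (hWP j i hi hv),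
    fun j => ⟨lres _ _ fun g hg => (hM j).1 g (LK_le hg), fun h v => rfl, (hM j).2.2.2 _⟩⟩
  · refine (DirectSum.isInternal_submodule_iff_iSupIndep_and_iSup_eq_top W).2 ⟨fun i => ?_, ?_⟩
    · rcases Fin.eq_zero_or_eq_succ i with rfl | ⟨k, rfl⟩
      · refine Submodule.disjoint_def.2 fun x hx hx' => ?_
        have h3 : (⨆ i, ⨆ (_ : i ≠ 0), W i) ≤ LinearMap.ker (LinearMap.id - ∑ j, π j) := by
          refine iSup₂_le fun i hi => ?_
          obtain ⟨k, rfl⟩ := Fin.exists_succ_eq.2 hi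
          intro y hy
          rw [LinearMap.mem_ker, LinearMap.sub_apply, LinearMap.sum_apply,
            Finset.sum_eq_single k (fun j _ hj => hπ3 j y (hMP j k hj hy)) (by simp),
            hπ2 k y hy]
          simp
        have h4 := h3 hx'
        rw [LinearMap.mem_ker, LinearMap.sub_apply, LinearMap.sum_apply,
          Finset.sum_eq_zero fun j _ => hπ3 j x ((Submodule.mem_iInf _).1 hx j)] at h4
        simpa using h4
      · exact (hM k).2.1.disjoint.mono_right (iSup₂_le fun i hi => hWP k i hi)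
    · refine eq_top_iff.2 fun x _ => ?_
      have h3 : x - ∑ j, π j x ∈ W 0 := (Submodule.mem_iInf _).2 fun k => by
        rw [← Finset.add_sum_erase _ _ (Finset.mem_univ k), ← sub_sub]
        exact Submodule.sub_mem _ (hπ4 k x) (Submodule.sum_mem _ fun j hj =>
          hMP k j (Finset.ne_of_mem_erase hj).symm (hπ1 j x))
      have h4 := Submodule.add_mem _ (Submodule.mem_iSup_of_mem (p := W) 0 h3)
        (Submodule.sum_mem _ fun j (_ : j ∈ Finset.univ) =>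
          Submodule.mem_iSup_of_mem (p := W) j.succ (hπ1 j x))
      simpa using h4
  · rcases Fin.eq_zero_or_eq_succ i with rfl | ⟨k, rfl⟩
    · refine LInv.map_eq (fun g hg x hx => (Submodule.mem_iInf _).2 fun j => ?_) hh
      exact hH.inv_perp (hM j).1 g hg x ((Submodule.mem_iInf _).1 hx j)
    · exact (hM k).1.map_eq hh
  · refine le_antisymm (iSup_le fun j => LK_le) (hH.gen _ fun g hg v φ hφ hgx => ?_)
    by_cases h0 : v = 0 ∨ φ = 0
    · have : g = 1 := LinearEquiv.ext fun x => by rcases h0 with h0 | h0 <;> simp [hgx, h0]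
      rw [this]; exact Subgroup.one_mem _
    push Not at h0
    obtain ⟨U, hU, hv⟩ := hH.exists_min ⟨hφ, g, hg, hgx⟩ h0.1 h0.2
    refine Subgroup.mem_iSup_of_mem (e ⟨U, Or.inr hU⟩) (Subgroup.subset_closure
      ⟨v, ?_, φ, ⟨hφ, g, hg, hgx⟩, hgx⟩)
    simpa [M] using hv
  · refine eq_bot_iff.2 fun g hg => ?_
    let S : Subgroup (V ≃ₗ[F] V) :=
      { carrier := {g | ∀ x ∈ M j, g x = x}
        mul_mem' := fun {a b} ha hb x hx => by simp [ha x hx, hb x hx]
        one_mem' := fun x _ => rfl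
        inv_mem' := fun {a} ha x hx => by
          apply a.injective; simp [ha x hx] }
    have h3 : (⨆ j' ∈ {j' : Fin n | j' ≠ j}, LK H (M j')) ≤ S :=
      iSup₂_le fun j' hj' g hg x hx => LK_fix hg (hMP j' j hj' hx)
    refine Subgroup.mem_bot.2 (LinearEquiv.ext fun x => ?_)
    have h4 := h3 hg.2 _ (hπ1 j x)
    have h5 := LK_fix hg.1 (hπ4 j x)
    rw [map_sub, h4, sub_left_inj] at h5
    exact h5
  · refine LinearEquiv.ext fun x => ?_
    have h3 := LK_fix ha (hMP j j' hne (LK_sub_mem hb x))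
    have h4 := LK_fix hb (hMP j' j hne.symm (LK_sub_mem ha x))
    rw [map_sub, sub_eq_iff_eq_add] at h3 h4
    simp only [LinearEquiv.mul_apply, h3, h4]
    abel

end TvG

end H70
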