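import Cfsg.Agent.H68.OuSpec
import Cfsg.Agent.H59.Std

/-! Commutators in special unitary groups: the fields with four and nine elements. -/

set_option autoImplicit false
set_option linter.unusedSectionVars false

namespace H70.OuW

open Polynomial Module H53 H60.Ore H68.Ou Matrix
open H59 (perp mem_perp form_smul_left form_smul_right stdForm stdForm_apply)

universe u

variable {F : Type u} [Field F] {σ : F →+* F}

theorem ed_single {V : Type*} [AddCommGroup V] [Module F V] [FiniteDimensional F V] {g : End F V}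
    {φ : F[X]} (hm : φ.Monic) (hi : Irreducible φ) {k : ℕ} (h1 : aeval g (φ ^ (k + 1)) = 0)
    (h2 : aeval g (φ ^ k) ≠ 0) (hd : (k + 1) * φ.natDegree = finrank F V) :
    ed g = {φ ^ (k + 1)} := by
  rw [Ne, aeval_eq_zero_iff_ed] at h2
  push Not at h2
  obtain ⟨Q, hQ, h2⟩ := h2
  obtain ⟨i, hik, h3⟩ := (dvd_prime_pow hi.prime _).1 ((aeval_eq_zero_iff_ed _ _).1 h1 Q hQ)
  have e := eq_of_monic_of_associated (ed_isPP g Q hQ).monic (hm.pow i) h3
  subst e
  have hi' : i = k + 1 := by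
    by_contra h
    exact h2 (pow_dvd_pow _ (by omega))
  subst hi'
  obtain ⟨t, ht⟩ := Multiset.exists_cons_of_mem hQ
  have h4 := dg_ed g
  rw [ht, dg_cons, hm.natDegree_pow, hd] at h4
  rcases Multiset.empty_or_exists_mem t with rfl | ⟨P, hP⟩
  · exact ht
  · obtain ⟨t', rfl⟩ := Multiset.exists_cons_of_mem hP
    have := (ed_isPP g P (by rw [ht]; simp)).natDegree_pos
    rw [dg_cons] at h4
    omega

theorem inv_toLin' {n : Type} [Fintype n] [DecidableEq n] {A : Matrix n n F}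
    (h : (A.map σ)ᵀ * A = 1) : Inv (stdForm σ n) (toLin' A) := fun x y => by
  have e : ∀ u v : n → F, stdForm σ n u v = (σ ∘ u) ⬝ᵥ v := fun u v => rfl
  have e2 : σ ∘ (A *ᵥ x) = A.map σ *ᵥ (σ ∘ x) := funext fun i => RingHom.map_mulVec σ A x i
  rw [e, e, toLin'_apply, toLin'_apply, e2, ← vecMul_transpose, ← dotProduct_mulVec, mulVec_mulVec, h,
    one_mulVec]

theorem aeval_toLin' {n : Type} [Fintype n] [DecidableEq n] (A : Matrix n n F) (P : F[X]) :
    aeval (toLin' A : End F (n → F)) P = toLin' (aeval A P) :=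
  aeval_algHom_apply (toLinAlgEquiv' : Matrix n n F ≃ₐ[F] _).toAlgHom A P

theorem pow_card_sub [Finite F] {n : ℕ} (h : Nat.card F = n + 1) {a : F} (ha : a ≠ 0) : a ^ n = 1 := by
  haveI := Fintype.ofFinite F
  have := FiniteField.pow_card_sub_one_eq_one a ha
  rwa [← Nat.card_eq_fintype_card, h] at this

theorem char_of_card [Finite F] {p : ℕ} (h : Nat.card F = p * p) : (p : F) = 0 := by
  haveI := Fintype.ofFinite F
  have := FiniteField.cast_card_eq_zero F
  rw [← Nat.card_eq_fintype_card, h, Nat.cast_mul] at this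
  exact mul_self_eq_zero.1 this

section four

theorem irr_four [Finite F] (h4 : Nat.card F = 4) {D : F} (hD : D ^ 3 = 1) (h1 : D ≠ 1) :
    Irreducible (X ^ 3 - C D : F[X]) :=
  X_pow_sub_C_irreducible_of_prime Nat.prime_three fun b hb => by
    rcases eq_or_ne b 0 with rfl | h
    · rw [← hb] at hD; simp at hD
    · exact h1 (hb.symm.trans (pow_card_sub h4 h))

theorem ed_cube {A : Matrix (Fin 3) (Fin 3) F} {D : F} (hi : Irreducible (X ^ 3 - C D : F[X]))
    (h : A * A * A = D • 1) : ed (toLin' A : End F (Fin 3 → F)) = {X ^ 3 - C D} := by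
  have := ed_single (g := (toLin' A : End F (Fin 3 → F))) (monic_X_pow_sub_C D three_ne_zero) hi
    (k := 0) ?_ (by simp) (by rw [natDegree_X_pow_sub_C]; simp)
  · rwa [zero_add, pow_one] at this
  · rw [zero_add, pow_one, aeval_toLin', map_sub, map_pow, aeval_X, aeval_C, pow_three', h,
      Algebra.algebraMap_eq_smul_one, sub_self, map_zero]

theorem tri_four (c : Cj σ) (h2 : (2 : F) = 0) (hσ : ∀ a, σ a = a ^ 2) {l w : F} (hl : l ^ 3 = 1)
    (hw : w ^ 2 + w + 1 = 0) (hi : Irreducible (X ^ 3 - C w : F[X])) :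
    Tri σ {(X - C l) ^ 3} {X ^ 3 - C w} {X ^ 3 - C w} := by
  haveI : CharP F 2 := CharTwo.of_one_ne_zero_of_two_eq_zero one_ne_zero h2
  refine ⟨Fin 3 → F, _, _, inferInstance, stdForm σ (Fin 3),
    toLin' !![l, l, l; l, l * w, l * w ^ 2; l, l * w ^ 2, l * w], toLin' !![0, 0, w; 1, 0, 0; 0, 1, 0],
    isSF_of_isHerm (H59.isHerm_stdForm c.ne c.inv _), inv_toLin' ?_, inv_toLin' ?_, ?_, ?_, ?_⟩
  · ext i j
    fin_cases i <;> fin_cases j <;> simp [Matrix.mul_apply, Fin.sum_univ_three, hσ] <;> grind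
  · ext i j
    fin_cases i <;> fin_cases j <;> simp [Matrix.mul_apply, Fin.sum_univ_three, hσ] <;> grind
  · have e : (!![l, l, l; l, l * w, l * w ^ 2; l, l * w ^ 2, l * w] : Matrix _ _ F) -
        algebraMap F _ l = !![0, l, l; l, l * w ^ 2, l * w ^ 2; l, l * w ^ 2, l * w ^ 2] := by
      ext i j
      fin_cases i <;> fin_cases j <;> simp [Matrix.algebraMap_matrix_apply] <;> grind
    refine ed_single (monic_X_sub_C l) (irreducible_X_sub_C l) (k := 2) ?_ ?_ (by simp)
    · rw [aeval_toLin', map_pow, map_sub, aeval_X, aeval_C, e, map_eq_zero_iff _ toLin'.injective,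
        pow_three']
      ext i j
      fin_cases i <;> fin_cases j <;> simp <;> grind
    · rw [aeval_toLin', map_pow, map_sub, aeval_X, aeval_C, e, Ne, map_eq_zero_iff _ toLin'.injective,
        pow_two]
      intro h
      have := congrFun (congrFun h 1) 1
      simp at this
      grind
  · rw [End.mul_eq_comp, ← toLin'_mul]
    refine ed_cube hi ?_
    ext i j
    fin_cases i <;> fin_cases j <;> simp <;> grind
  · refine ed_cube hi ?_
    ext i j
    fin_cases i <;> fin_cases j <;> simp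

theorem sd_cubic [Finite F] (h4 : Nat.card F = 4) (hσ : ∀ a, σ a = a ^ 2) {φ : F[X]} (h : SD σ φ)
    (hi : Irreducible φ) (h3 : φ.natDegree = 3) : ∃ D : F, D ^ 3 = 1 ∧ D ≠ 1 ∧ φ = X ^ 3 - C D := by
  have h2 : (2 : F) = 0 := by exact_mod_cast char_of_card (F := F) (p := 2) h4
  haveI : CharP F 2 := CharTwo.of_one_ne_zero_of_two_eq_zero one_ne_zero h2
  have hD : φ.coeff 0 ^ 3 = 1 := pow_card_sub h4 h.c0
  have hb := coeff_pstar (σ := σ) h.c0 (i := 1) (by omega)
  rw [h.sd, h3, hσ, hσ, eq_inv_mul_iff_mul_eq₀ (pow_ne_zero _ h.c0)] at hb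
  have e := h.mon.as_sum
  rw [h3] at e
  simp only [Finset.sum_range_succ, Finset.range_zero, Finset.sum_empty] at e
  have hr : ∀ t, φ.eval t ≠ 0 := fun t => hi.not_isRoot_of_natDegree_ne_one (by omega)
  have ev : ∀ t, φ.eval t = t ^ 3 + φ.coeff 2 * t ^ 2 + φ.coeff 1 * t + φ.coeff 0 := fun t => by
    conv_lhs => rw [e]
    simp
    ring
  norm_num at hb
  generalize φ.coeff 0 = d at *
  generalize φ.coeff 1 = b at *
  generalize φ.coeff 2 = a at *
  have ha : a = 0 := by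
    by_contra ha
    have := pow_card_sub h4 ha
    refine hr a ?_
    rw [ev]
    grind
  have hb0 : b = 0 := by grind
  refine ⟨d, hD, ?_, ?_⟩
  · rintro rfl
    refine hr 1 ?_
    rw [ev]
    grind
  · rw [e, ha, hb0, sub_eq_add_neg, ← C_neg, CharTwo.neg_eq]
    simp

theorem split_four (h2 : (2 : F) = 0) {a w : F} (ha : a ^ 3 = 1) (hw : w ^ 2 + w + 1 = 0) :
    edc (X ^ 3 - C 1 : F[X]) = {X - C a, X - C (a * w), X - C (a * w ^ 2)} := by
  haveI : CharP F 2 := CharTwo.of_one_ne_zero_of_two_eq_zero one_ne_zero h2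
  have e : (X ^ 3 - C 1 : F[X]) = (X - C a) * ((X - C (a * w)) * (X - C (a * w ^ 2))) := by
    have h1 := congrArg (C : F → F[X]) ha
    have h3 := congrArg (C : F → F[X]) hw
    simp only [map_pow, map_add, map_mul, map_one, map_zero] at h1 h3 ⊢
    grind
  rw [e, edc_lin_mul, edc_lin_mul, edc_pp (isPP_lin _)]
  · rfl
  · simp only [eval_sub, eval_X, eval_C]
    grind
  · simp only [eval_mul, eval_sub, eval_X, eval_C]
    grind

end four

theorem good_nine [Finite F] (hH : JobH.{u}) (hN : JobN.{u}) (hE : JobED.{u}) (c : Cj σ)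
    (h9 : Nat.card F = 9) : Good σ {(X - C (-1)) ^ 3, X - C (-1)} := by
  have h3 : (3 : F) = 0 := by exact_mod_cast char_of_card (F := F) (p := 3) h9
  obtain ⟨hAv, -, -, -, -, -, k9⟩ := hN F σ c
  obtain ⟨hMu, i, hi⟩ := k9 h9
  obtain ⟨χ, nd⟩ := hAv 2 1 le_rfl mu_one
  obtain ⟨V, _, _, _, B, g, L, hB, hg, hed, fr, hL⟩ :=
    ((hH F σ 1 0 1 c).1 _ (sd_lin mu_neg_one) (irreducible_X_sub_C _)).2
  have hdim : finrank F V = 4 := by
    rw [← dg_ed g, hed, Multiset.insert_eq_cons, dg_cons, dg_singleton, natDegree_pow, natDegree_pow,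
      natDegree_X_sub_C]
  obtain ⟨hL2, hp⟩ : finrank F L = 2 ∧ perp B L = L := by
    rcases fr.dim hB with h | h
    · exact ⟨by omega, h.2⟩
    · omega
  obtain ⟨N, hN⟩ : ∃ N : End F V, N = g + 1 := ⟨_, rfl⟩
  have hN' : ∀ k, aeval g ((X - C (-1) : F[X]) ^ k) = N ^ k := fun k => by
    rw [map_pow, map_sub, aeval_X, aeval_C, map_neg, map_one, sub_neg_eq_add, hN]
  have hNa : ∀ v, N v = g v + v := fun v => by rw [hN]; rfl
  have n3 : N ^ 3 = 0 := by
    rw [← hN', aeval_eq_zero_iff_ed, hed]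
    intro P hP
    simp only [Multiset.insert_eq_cons, Multiset.mem_cons, Multiset.mem_singleton] at hP
    rcases hP with rfl | rfl <;> exact pow_dvd_pow _ (by omega)
  have n2 : N ^ 2 ≠ 0 := by
    rw [← hN', Ne, aeval_eq_zero_iff_ed, hed]
    intro h
    have := natDegree_le_of_dvd (h _ (Multiset.mem_cons_self _ _)) (pow_ne_zero _ (X_sub_C_ne_zero _))
    simp only [natDegree_pow, natDegree_X_sub_C] at this
    omega
  have hNL : ∀ u ∈ L, N u ∈ L := fun u hu => hNa u ▸ L.add_mem (hL u hu) hu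
  obtain ⟨e₂, h₂, hne⟩ : ∃ e ∈ L, N e ≠ 0 := by
    by_contra h
    push Not at h
    refine n2 (LinearMap.ext fun v => h (N v) ?_)
    rw [← hp, mem_perp]
    intro x hx
    have e : g x = -x := eq_neg_of_add_eq_zero_left (hNa x ▸ h x hx)
    have := hg x v
    rw [e, map_neg, LinearMap.neg_apply] at this
    rw [hNa, map_add, ← this, add_neg_cancel]
  have hNN : N (N e₂) = 0 := by
    have k := End.ker_pow_eq_ker_pow_finrank_of_le (f := (N.restrict hNL : End F L)) (m := 3)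
      (by omega)
    have k3 : (⟨e₂, h₂⟩ : L) ∈ LinearMap.ker ((N.restrict hNL : End F L) ^ 3) :=
      Subtype.ext (LinearMap.congr_fun n3 e₂)
    rw [k, hL2] at k3
    exact congrArg Subtype.val k3
  obtain ⟨e₁, he₁⟩ : ∃ e, e = -N e₂ := ⟨_, rfl⟩
  have h₁ : e₁ ∈ L := he₁ ▸ L.neg_mem (hNL _ h₂)
  have ne₁ : e₁ ≠ 0 := he₁ ▸ neg_ne_zero.2 hne
  have g₁ : g e₁ = -e₁ := eq_neg_of_add_eq_zero_left (by rw [← hNa, he₁, map_neg, hNN, neg_zero])
  have g₂ : g e₂ = -e₂ - e₁ := by rw [he₁, hNa]; abel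
  have li : ∀ a b : F, a • e₁ + b • e₂ = 0 → a = 0 ∧ b = 0 := fun a b h => by
    have k := congrArg N h
    rw [map_add, map_smul, map_smul, hNa e₁, g₁, neg_add_cancel, smul_zero, zero_add, map_zero] at k
    have hb := (smul_eq_zero.1 k).resolve_right hne
    rw [hb, zero_smul, add_zero] at h
    exact ⟨(smul_eq_zero.1 h).resolve_right ne₁, hb⟩
  -- the polynomial
  have e := nd.mon.as_sum
  rw [nd.deg] at e
  simp only [Finset.sum_range_succ, Finset.range_zero, Finset.sum_empty] at e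
  have hr : ∀ t, χ.eval t ≠ 0 := fun t =>
    nd.irr.not_isRoot_of_natDegree_ne_one (by rw [nd.deg]; omega)
  have hd0 := nd.c0
  have hσd := nd.det
  have ea : ∀ (y : End F V) v, aeval y χ v = y (y v) + χ.coeff 1 • y v + χ.coeff 0 • v := fun y v => by
    conv_lhs => rw [e]
    simp [pow_two, Algebra.algebraMap_eq_smul_one]
    abel
  have ev : ∀ t, χ.eval t = t ^ 2 + χ.coeff 1 * t + χ.coeff 0 := fun t => by
    conv_lhs => rw [e]
    simp
    ring
  generalize χ.coeff 0 = d at hd0 hσd ea ev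
  generalize χ.coeff 1 = s at ea ev
  rw [one_mul] at hσd
  have hdd : d * d = 1 := by
    have a1 : Mu σ (d ^ 2) := (hMu _).2 (by rw [← pow_mul]; exact pow_card_sub h9 hd0)
    rw [H68.Ou.Mu, map_pow, ← hσd, ← pow_add] at a1
    have a2 := (hMu d).2 a1
    rwa [H68.Ou.Mu, ← hσd] at a2
  have hs : s ≠ 0 := by
    rintro rfl
    rcases mul_self_eq_one_iff.1 hdd with rfl | rfl
    · exact hr i (by rw [ev]; linear_combination hi)
    · exact hr 1 (by rw [ev]; ring)
  obtain ⟨t, ht⟩ : ∃ t, t * s = d := ⟨d / s, div_mul_cancel₀ _ hs⟩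
  have m₁ : (-s) • e₂ ∈ L := L.smul_mem _ h₂
  have m₂ : t • e₁ + (-s) • e₂ ∈ L := L.add_mem (L.smul_mem _ h₁) m₁
  obtain ⟨y, hy, y₁, y₂⟩ := (hB.isHerm c.ne).witt_two (u := e₁) (v := e₂) (w := (-s) • e₂)
    (z := t • e₁ + (-s) • e₂) (LinearIndependent.pair_iff.2 li)
    (LinearIndependent.pair_iff.2 fun a b h => by
      obtain ⟨k1, k2⟩ := li (b * t) (-(a + b) * s) (by rw [← h]; module)
      have hb : b = 0 := (mul_eq_zero.1 k1).resolve_right (by rintro rfl; exact hd0 (by simpa using ht.symm))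
      have := (mul_eq_zero.1 k2).resolve_right hs
      exact ⟨by simpa [hb] using this, hb⟩)
    (by rw [fr.iso _ h₁ _ h₁, fr.iso _ m₁ _ m₁]) (by rw [fr.iso _ h₁ _ h₂, fr.iso _ m₁ _ m₂])
    (by rw [fr.iso _ h₂ _ h₂, fr.iso _ m₂ _ m₂])
  have hy' : Inv B (y : End F V) := hy
  refine ⟨pr σ χ, ⟨V, _, _, inferInstance, B, g, y, hB, hg, hy', by rw [hed]; simp, ?_, ?_⟩,
    CS.of_irr nd.mon nd.irr (by simp [pr]), 1, mu_one, by rw [nd.dm]; simp⟩
  · refine (hE F V σ B _ χ 2 1 e₁ hB (hg.mul hy') nd ne₁ ?_).1 hdim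
    rw [ea]
    simp only [End.mul_apply, LinearEquiv.coe_coe, y₁, y₂, g₁, g₂, map_smul, map_sub, map_neg, map_add]
    rw [← ht]
    linear_combination (norm := module) (s * s * h3) • e₂ + (s * s * h3) • e₁
  · refine (hE F V σ B _ χ 2 1 e₁ hB hy' nd ne₁ ?_).1 hdim
    rw [ea]
    simp only [LinearEquiv.coe_coe, y₁, y₂, map_smul]
    rw [← ht]
    module

theorem jobW (hH : JobH.{u}) (hN : JobN.{u}) (hE : JobED.{u}) : JobW.{u} := by
  intro F _ _ σ c
  refine ⟨fun h4 => ?_, good_nine hH hN hE c⟩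
  obtain ⟨-, -, -, hκ, -, k4, -⟩ := hN F σ c
  have h2 : (2 : F) = 0 := by exact_mod_cast char_of_card (F := F) (p := 2) h4
  have hσ : ∀ a, σ a = a ^ 2 := fun a => by
    rcases eq_or_ne a 0 with rfl | h
    · simp
    · have k := pow_card_sub h4 h
      have := (k4 h4 a).2 k
      exact mul_left_cancel₀ h (by rw [H68.Ou.Mu] at this; linear_combination this - k)
  have hw : ∀ w : F, w ^ 3 = 1 → w ≠ 1 → w ^ 2 + w + 1 = 0 := fun w h h1 =>
    mul_left_cancel₀ (sub_ne_zero.2 h1) (by linear_combination h)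
  refine ⟨fun l D hl hD h1 => ⟨irr_four h4 hD h1, tri_four c h2 hσ hl (hw D hD h1) (irr_four h4 hD h1)⟩,
    fun φ => sd_cubic h4 hσ, fun a ha => ?_⟩
  obtain ⟨w, h, h1, -⟩ := hκ 1 1
  have k := (k4 h4 w).1 h
  exact ⟨a * w, a * w ^ 2, by grind, by grind, by grind, split_four h2 ha (hw w k h1)⟩

end H70.OuW
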