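import Cfsg.Agent.H70.R3Spec

/-! Assembly of the tower for coprime linear groups with two orbits on non-zero vectors. -/

set_option autoImplicit false

namespace H70.R3

open Cfsg H28 H90 H34.TL Module Subgroup MulAction

universe u

theorem num_one {p n : ℕ} (hp : 5 ≤ p) (hn : 2 ≤ n) : (p - 1) * (n * n) + 1 < p ^ n := by
  induction n, hn using Nat.le_induction with
  | base =>
    obtain ⟨r, rfl⟩ : ∃ r, p = r + 1 := ⟨p - 1, by omega⟩
    rw [Nat.add_sub_cancel]
    nlinarith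
  | succ n hn ih =>
    have h2 : (n + 1) * (n + 1) ≤ 5 * (n * n) := by nlinarith
    have h3 := Nat.mul_le_mul_left (p - 1) h2
    have h4 := Nat.mul_le_mul_left (p ^ n) hp
    rw [mul_left_comm (p - 1) 5] at h3
    rw [pow_succ]
    omega

variable {G V : Type u} [Group G] [AddCommGroup V] [DistribMulAction G V] [Finite G] [Finite V]
  [FaithfulSMul G V] {p n : ℕ} {v₁ v₂ : V}

theorem Bad.framed (h : Bad G V p n v₁ v₂) (hP : Prim G V) : Framed G V p n 2 := fun B _ _ => by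
  have := h.nontrivial
  obtain ⟨A, hB, hA⟩ := exists_maxAb B
  have := hA.normal
  have := hA.comm
  obtain ⟨E, _, _, _, ⟨D⟩⟩ := hP A hA.normal hA.comm
  obtain ⟨k, h1, h2, h3, h4⟩ := h.field E
  have : Module.Finite E V := Module.Finite.of_finite
  have := finrank_pos (R := E) (M := V)
  refine ⟨A, E, inferInstance, inferInstance, inferInstance, k, hB, ⟨hA, ⟨D⟩, h1, h2, h3, h4⟩, ?_⟩
  by_contra hd
  have hd : finrank E V = 1 := by omega
  rw [hd, mul_one] at h3
  subst h3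
  have hC : centralizer (A : Set G) = A := by
    by_contra hne
    refine hA.not_comm_centralizer hne ⟨⟨fun x y => Subtype.ext
      (comm_of_irreducible (V := V) _ (fun W hW => ?_) x.2 y.2)⟩⟩
    refine or_iff_not_imp_left.2 fun h2 => eq_top_iff.2 fun w _ => ?_
    obtain ⟨⟨u, hu⟩, hu0⟩ := (AddSubgroup.ne_bot_iff_exists_ne_zero).1 h2
    obtain ⟨c, rfl⟩ := (finrank_eq_one_iff_of_nonzero' u fun e => hu0 (Subtype.ext e)).1 hd w
    exact D.smul_mem W hW c hu
  have h5 : A.index ≤ k := Nat.le_of_dvd h1 (hC ▸ D.index_centralizer_dvd h.prime h2)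
  have h6 := card_le_cls_mul A
  have h7 := h.le_card
  have h8 := h.lt
  have h9 := num_one (p := p) (by have := h.ge11; omega) h.two_le
  rw [← A.card_mul_index] at h7
  have h10 : 2 * (Nat.card A * A.index) ≤ (p - 1) * (k * k) := calc
    2 * (Nat.card A * A.index) ≤ 2 * (cls G * A.index * A.index) := by gcongr
    _ = 2 * cls G * (A.index * A.index) := by ring
    _ ≤ _ := Nat.mul_le_mul (by omega) (Nat.mul_le_mul h5 h5)
  omega

theorem Two.chr (h : Two G V p n v₁ v₂) (hP : Prim G V) : Chr G n := by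
  have := h.nontrivial
  obtain ⟨E, _, _, _, ⟨D⟩⟩ := hP (center G) inferInstance inferInstance
  obtain ⟨k, h1, h2, h3, h4⟩ := h.field E
  obtain ⟨ψ, h5, h6, h7⟩ := exists_char D h.prime h.cop (MonoidHom.id G) Function.injective_id
    (fun x y hy => (mem_center_iff.1 hy x).symm) h.irr
  exact ⟨ψ, h5, h6, h7.trans (h3 ▸ Nat.le_mul_of_pos_left _ h1)⟩

omit [FaithfulSMul G V] in
theorem Two.bad (jS : JobSmall.{u}) (h : Two G V p n v₁ v₂) (hk : 2 * cls G < p) :
    Bad G V p n v₁ v₂ := by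
  have h1 := h.le_card
  have h2 := jS G
  have h3 := three_le_cls (G := G)
  have h4 : 0 < cls G := Nat.card_pos
  have h5 : p ^ 2 ≤ p ^ n := Nat.pow_le_pow_right h.prime.pos h.two_le
  have h6 : 11 ≤ p := by
    by_contra h6
    have h7 := h.prime
    have h8 : p ≤ 10 := by omega
    interval_cases p <;> first | (norm_num at h7; done) | (unfold cls at *; omega)
  refine ⟨h, hk, h6, fun h7 => ?_⟩
  by_contra h8
  have h9 : p ≠ 12 := fun e => by have := h.prime; rw [e] at this; norm_num at this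
  obtain rfl : p = 11 := by omega
  have h10 : 11 ^ 4 ≤ 11 ^ n := Nat.pow_le_pow_right (by norm_num) h7
  omega

omit [FaithfulSMul G V] in
theorem Two.half (h : Two G V p n v₁ v₂) (hS : ¬ Scal G V p v₁) :
    2 * (stabilizer G v₁).index + 1 = p ^ n := by
  obtain ⟨c, hc, h1⟩ : ∃ c : ℕ, ¬ p ∣ c ∧ ∀ g : G, g • v₁ ≠ c • v₁ := by
    simpa [Scal] using hS
  have inj : ∀ w : V, c • w = 0 → w = 0 := fun w hw => AddMonoid.addOrderOf_eq_one_iff.1
    (Nat.eq_one_of_dvd_coprimes ((Nat.Prime.coprime_iff_not_dvd h.prime).2 hc)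
      (addOrderOf_dvd_of_nsmul_eq_zero (h.exp w)) (addOrderOf_dvd_of_nsmul_eq_zero hw))
  obtain ⟨g, hg⟩ := (h.cover (c • v₁) fun e => h.ne₁ (inj _ e)).resolve_left fun ⟨g, e⟩ => h1 g e
  have h2 : stabilizer G (c • v₁) = stabilizer G v₁ := Subgroup.ext fun x => by
    rw [mem_stabilizer_iff, mem_stabilizer_iff, smul_comm]
    exact ⟨fun e => sub_eq_zero.1 (inj _ (by rw [nsmul_sub, e, sub_self])), fun e => by rw [e]⟩
  have h3 : (stabilizer G v₂).index = (stabilizer G v₁).index := by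
    rw [← h2, ← hg, index_stabilizer, index_stabilizer, orbit_smul]
  have := h.add
  omega

theorem jobT_of (jS : JobSmall.{u}) (jAb : JobAb.{u}) (jImp : JobImp.{u}) (jTwo : JobTwo.{u})
    (jLift : JobLift.{u}) (jD2 : JobD2.{u}) (jDual : JobDual.{u}) (jFour : JobFour.{u})
    (jSrg : JobSrgN) (jI : JobTypeI.{u}) (jBig : JobBig.{u}) (jExp : JobExp.{u})
    (jRank : JobRank.{u}) (jNA : JobNumA) (jNB : JobNumB) (jLA : JobLatA.{u}) (jLB : JobLatB.{u})
    (jMon : JobMon.{u}) (jMeet : JobMeet.{u}) (jCnt : JobCnt.{u}) (jX : JobX4.{u}) (jN4 : JobNum4)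
    (j19 : Job19.{u}) (jL4 : JobLat4.{u}) : JobT.{u} := by
  intro G V _ _ _ _ _ _ p n v₁ v₂ h0
  by_contra! hk
  have h := h0.bad jS hk
  have := h0.nontrivial
  have hP := (jAb G V p n v₁ v₂ h0 h0.irr).resolve_right (jImp G V p n v₁ v₂ h)
  have h2 := h.framed hP
  have hc := h0.chr hP
  obtain rfl | hn : n = 2 ∨ 3 ≤ n := by have := h0.two_le; omega
  · exact jTwo G V p v₁ v₂ h h2 hc
  have lift : ∀ (A : Subgroup G) (E : Type) [Field E] [Finite E] [Module E V] (k : ℕ),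
      Frame V p n A E k → FChr (centralizer (A : Set G)) (finrank E V) := fun A E _ _ _ k hF => by
    obtain ⟨D⟩ := hF.fd
    have := hF.char
    exact jLift G V p A E h0.prime h0.cop D
  have h3 : Framed G V p n 3 := fun B hB hB' => by
    obtain ⟨A, E, _, _, _, k, h4, h5, h6⟩ := h2 B hB hB'
    refine ⟨A, E, inferInstance, inferInstance, inferInstance, k, h4, h5, ?_⟩
    by_contra h7
    have h8 : finrank E V = 2 := by omega
    exact jD2 G V p n v₁ v₂ A E k h hn h5 h8 (h8 ▸ lift A E k h5)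
  have hI := jI G V p n v₁ v₂ _ h hn h2 hc (stabilizer G v₁).index_dvd_card
  have hS : Scal G V p v₁ := by_contra fun e => hI (.inl (h0.half e))
  obtain ⟨a', b', r, s, h4, h5, h6, h7, h8, h9⟩ := jFour jDual G V p n v₁ v₂ h0 hS
  obtain ⟨m, rfl, h10 | ⟨h10, h11⟩⟩ := jSrg p n _ _ a' b' r s h0.prime (h0.not_dvd v₁)
    (h0.not_dvd v₂) (fun e => h0.cop (e.trans h4)) (fun e => h0.cop (e.trans h5)) h0.add h6 h7 h8 h9
  · exact jI G V p _ v₁ v₂ _ h hn h2 hc (h10.trans (index_dvd_card _)) (.inr ⟨m, rfl, rfl⟩)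
  obtain rfl | hm : m = 2 ∨ 3 ≤ m := by omega
  · exact jL4 jX jN4 j19 G V p v₁ v₂ h h3 hc hS h10 h11 (jCnt jMon jMeet G hc.fchr)
  have h12 := h10.trans (index_dvd_card _)
  have pb : ∀ (A : Subgroup G) (E : Type) [Field E] [Finite E] [Module E V] (k : ℕ),
      Frame V p (2 * m) A E k → 3 ≤ finrank E V → PB p m (finrank E V) := fun A E _ _ _ k hF hd =>
    jLA jBig jExp jRank G V p m v₁ v₂ A E k h0 (by omega) h3 h12 hF hd (lift A E k hF)
  have h13 := h.ge13 (by omega)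
  obtain ⟨A, E, _, _, _, k, -, h14, h15⟩ := h3 ⊥ inferInstance inferInstance
  have h16 : finrank E V ≤ 2 * m := h14.mul ▸ Nat.le_mul_of_pos_left _ h14.pos
  obtain ⟨h17, h18, h19⟩ := jNA p m h13 hm fun r e h17 h18 =>
    ⟨(pb A E k h14 h15 r e h17 h18).1.trans (by omega),
      fun c hc => (pb A E k h14 h15 r e h17 h18).2 c (h16.trans hc)⟩
  exact jLB jBig G V p m v₁ v₂ h h3 hc h12 pb (jNB p m h0.prime h13 hm h18 h17 h19)

theorem main_of (jT : JobT.{u}) (jQ : JobQ.{u}) (jA : JobAff.{u}) (jC : JobConv.{u}) {G : Type u}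
    [Group G] [Finite G] (p : ℕ) [hp : Fact p.Prime] (hs : IsPSolvable p G)
    (h3 : Nat.card {c : ConjClasses G // ∃ g : G, ConjClasses.mk g = c ∧
      ∃ k : ℕ, orderOf g = p ^ k} = 3) :
    p - 1 ≤ 2 * kp p G ∧ (2 * kp p G = p - 1 ↔ (p ≠ 2 ∧ 2 * Nat.card G = p * (p - 1) ∧
      ∃ f : G →* affineGroup (ZMod p), Function.Injective f)) := by
  classical
  let X := {c : ConjClasses G // ∃ g : G, ConjClasses.mk g = c ∧ ∃ k : ℕ, orderOf g = p ^ k}
  let o : X := ⟨ConjClasses.mk 1, 1, rfl, 0, by simp⟩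
  have := Fintype.ofFinite X
  have h1 : (Finset.univ.erase o).card = 2 := by
    rw [Finset.card_erase_of_mem (Finset.mem_univ _), Finset.card_univ, ← Nat.card_eq_fintype_card,
      h3]
  obtain ⟨⟨_, x₁, rfl, k₁, h4⟩, ⟨_, x₂, rfl, h5⟩, -, h6⟩ := Finset.card_eq_two.1 h1
  have hc : C3 p G := ⟨x₁, x₂, fun y hy hk => by
    have h7 : (⟨ConjClasses.mk y, y, rfl, hk⟩ : X) ∈ Finset.univ.erase o :=
      Finset.mem_erase.2 ⟨fun e => hy (isConj_one_left.1
        (ConjClasses.mk_eq_mk_iff_isConj.1 (congrArg Subtype.val e))), Finset.mem_univ _⟩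
    rw [h6, Finset.mem_insert, Finset.mem_singleton] at h7
    exact h7.imp (fun e => (ConjClasses.mk_eq_mk_iff_isConj.1 (congrArg Subtype.val e)).symm)
      fun e => (ConjClasses.mk_eq_mk_iff_isConj.1 (congrArg Subtype.val e)).symm⟩
  have hd : p ∣ Nat.card G := by
    refine (dvd_pow_self p ?_).trans (h4 ▸ orderOf_dvd_natCard x₁)
    rintro rfl
    have h7 := h6.ge (Finset.mem_insert_self _ _)
    obtain rfl := orderOf_eq_one_iff.1 h4
    exact (Finset.mem_erase.1 h7).1 rfl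
  have key : ∀ (H : Type u) [Group H] [Finite H], IsPSolvable p H → pPrimeCore p H = ⊥ →
      p ∣ Nat.card H → C3 p H → p ≤ 2 * kp p H ∨ (p - 1 ≤ 2 * kp p H ∧ p ≠ 2 ∧
        2 * Nat.card H = p * (p - 1) ∧ ∃ f : H →* affineGroup (ZMod p), Function.Injective f) :=
    fun H _ _ h7 h8 h9 h10 => or_iff_not_imp_left.2 fun h11 => (jA jT H p h7 h8 h9 h10
      fun N _ h12 h13 h14 => h11 ((jQ H p N).2.2 h7 h10 h12 h13 h14)).resolve_left h11
  have h7 : p ≤ 2 * kp p G ∨ (p - 1 ≤ 2 * kp p G ∧ p ≠ 2 ∧ 2 * Nat.card G = p * (p - 1) ∧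
      ∃ f : G →* affineGroup (ZMod p), Function.Injective f) := by
    by_cases hO : pPrimeCore p G = ⊥
    · exact key G hs hO hd hc
    have h0 := H2.not_dvd_card_pPrimeCore p G
    have h8 := (jQ G p (pPrimeCore p G)).1 h0 hO
    have h9 := key _ (H18.isPSolvable_quotient hs (pPrimeCore p G))
      (H2.pPrimeCore_quotient_pPrimeCore p G) (((hp.out.dvd_mul).1
        ((pPrimeCore p G).card_mul_index ▸ hd)).resolve_left h0) ((jQ G p _).2.1 hc)
    omega
  have h8 := hp.out.two_le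
  refine ⟨by omega, fun e => (h7.resolve_left (by omega)).2, fun ⟨h9, h10, f, hf⟩ => ?_⟩
  have := jC G p f hf h9 h10
  omega

end H70.R3
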