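import Cfsg.Agent.Base

/-! A real element of prime power order bigger than two makes the automizer of an abelian Sylow subgroup even. -/

namespace H70

theorem two_dvd_automizer {G : Type*} [Group G] [Finite G] {p : ℕ} [Fact p.Prime] (P : Sylow p G)
    (hP : IsMulCommutative (P : Subgroup G)) {x : G} {k : ℕ} (hx : orderOf x = p ^ k) (h2 : x * x ≠ 1)
    (hr : IsConj x x⁻¹) :
    2 ∣ ((Subgroup.centralizer ((P : Subgroup G) : Set G)).subgroupOf
      (Subgroup.normalizer ((P : Subgroup G) : Set G))).index := by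
  obtain ⟨Q, hQ⟩ := (IsPGroup.of_card (G := Subgroup.zpowers x) (by rw [Nat.card_zpowers, hx])).exists_le_sylow
  obtain ⟨g, rfl⟩ := MulAction.exists_smul_eq G Q P
  have hy : g * x * g⁻¹ ∈ g • Q := Subgroup.smul_mem_pointwise_smul _ (MulAut.conj g) _ (hQ (Subgroup.mem_zpowers x))
  obtain ⟨c, hc⟩ := isConj_iff.1 hr
  obtain ⟨y, ey⟩ : ∃ y, y = g * x * g⁻¹ := ⟨_, rfl⟩
  rw [← ey] at hy
  have e : (g * c⁻¹ * g⁻¹)⁻¹ * y * (g * c⁻¹ * g⁻¹) = y⁻¹ := by
    rw [ey, conj_inv (a := x), ← hc]; group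
  obtain ⟨n, hn, en⟩ := (g • Q).conj_eq_normalizer_conj_of_mem y _ hy (e ▸ (g • Q : Sylow p G).1.inv_mem hy)
  rw [e] at en
  have hN : ((Subgroup.centralizer (((g • Q : Sylow p G) : Subgroup G) : Set G)).subgroupOf
      (Subgroup.normalizer (((g • Q : Sylow p G) : Subgroup G) : Set G))).Normal :=
    Subgroup.normal_subgroupOf_centralizer_normalizer _
  by_contra ho
  obtain ⟨m, hm⟩ := Nat.not_even_iff_odd.1 (mt even_iff_two_dvd.1 ho)
  have := Subgroup.pow_index_mem (H := (Subgroup.centralizer (((g • Q : Sylow p G) : Subgroup G) : Set G)).subgroupOf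
      (Subgroup.normalizer (((g • Q : Sylow p G) : Subgroup G) : Set G))) ⟨n, hn⟩
  rw [hm] at this
  have k1 : y * n ^ (2 * m + 1) = n ^ (2 * m + 1) * y := this y hy
  have c2 : Commute y (n ^ 2) := by
    have e1 : y * n = n * y⁻¹ := by rw [en]; group
    have e2 : y⁻¹ * n = n * y := by
      rw [inv_mul_eq_iff_eq_mul, ← mul_assoc, e1, inv_mul_cancel_right]
    rw [Commute, SemiconjBy, pow_two, ← mul_assoc, e1, mul_assoc, e2, mul_assoc]
  rw [pow_succ, pow_mul, ← mul_assoc, (c2.pow_right m).eq, mul_assoc, mul_assoc, mul_right_inj] at k1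
  rw [mul_assoc, k1, inv_mul_cancel_left, inv_eq_iff_mul_eq_one, ey, conj_mul, conj_eq_one_iff] at en
  exact h2 en

end H70
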