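/- X3 tower (S4752): jobs N, E1, L4, L8. -/
import Cfsg.Agent.H34.X3Lat

set_option autoImplicit false

namespace H70.X3

open H34.X3 Finset Matrix

universe u

theorem jobN : JobN.{u} := by
  intro ι _ n e w g a hn h1 h2 hs g3 g9 ha
  have key : ∀ (s : Fin n → ℤ) O, (∑ O', s O' • w O') ⬝ᵥ w O = s O + e * ∑ O', s O' := fun s O => by
    rw [sum_dotProduct, mul_sum, ← sum_ite_eq_of_mem' univ O s (mem_univ O), ← sum_add_distrib]
    refine sum_congr rfl fun O' _ => ?_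
    rw [smul_dotProduct, smul_eq_mul]
    split_ifs with c
    · rw [c, h1]; ring
    · rw [h2 _ _ c]; ring
  have tar : ∀ (h : Fin n → ℤ) (ε S : ℤ), ∑ O, h O - ε * ∑ O, a ⬝ᵥ w O = 9 * S → ∀ O,
      (ε • a + ∑ O', (h O' - ε * a ⬝ᵥ w O' - e * S) • w O') ⬝ᵥ w O = h O := fun h ε S e1 O => by
    rw [add_dotProduct, key, sum_sub_distrib, sum_sub_distrib, ← mul_sum, e1, sum_const, card_univ,
      Fintype.card_fin, nsmul_eq_mul, ← mul_assoc, hn, smul_dotProduct, smul_eq_mul]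
    ring
  obtain ⟨T, hT⟩ : (3 : ℤ) ∣ ∑ O, a ⬝ᵥ w O := by
    rcases Int.prime_three.dvd_or_dvd (show (3 : ℤ) ∣ e * (∑ O, a ⬝ᵥ w O) ^ 2 by omega) with c | c
    · have := c.mul_left n
      omega
    · exact Int.prime_three.dvd_of_dvd_pow c
  by_cases c : (3 : ℤ) ∣ T
  · obtain ⟨S, rfl⟩ := c
    have k := tar 0 1 (-S) (by rw [hT]; simp; ring)
    generalize hv : (1 : ℤ) • a + ∑ O', ((0 : Fin n → ℤ) O' - 1 * a ⬝ᵥ w O' - e * -S) • w O' = v at k
    have hu : v ⬝ᵥ v = 1 := by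
      nth_rw 2 [← hv]
      rw [dotProduct_add, dotProduct_sum, sum_eq_zero fun O _ => by rw [dotProduct_smul, k]; simp,
        ← hv, one_smul, add_zero, add_dotProduct, sum_dotProduct]
      simp only [smul_dotProduct, smul_eq_mul, dotProduct_comm (w _) a, sub_mul, Pi.zero_apply,
        zero_mul, one_mul, sum_sub_distrib, ← mul_sum, ← sq, sum_const_zero]
      rw [hT] at ha ⊢
      nlinarith
    obtain ⟨i, hi⟩ := unit_eq hu
    obtain ⟨O, hO⟩ := hs i
    have := k O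
    rcases hi with rfl | rfl <;> simp [ee_dot, hO] at this
  · obtain ⟨G, hG⟩ := g3
    have : 9 ∣ ∑ O, g O - 1 * ∑ O, a ⬝ᵥ w O ∨ 9 ∣ ∑ O, g O - -1 * ∑ O, a ⬝ᵥ w O := by
      rw [hG] at g9
      rw [hG, hT]
      rcases (by omega : G % 3 = 1 ∨ G % 3 = 2) with a | a <;>
        rcases (by omega : T % 3 = 1 ∨ T % 3 = 2) with b | b <;> omega
    rcases this with ⟨S, e⟩ | ⟨S, e⟩
    exacts [⟨1, _, .inl rfl, tar g _ S e⟩, ⟨-1, _, .inr rfl, tar g _ S e⟩]

section
variable {ι κ : Type*} [Fintype ι]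

theorem on1 {w : Fin 8 → ι → ℤ} {d : ι → ℤ} {o : ι} (h : W0 1 w d o) :
    On (Sum.elim (fun O => w O + ee o) fun _ : Unit => ee o) :=
  have oo : ee o o = 1 := (dot_ee _ o).symm.trans (ee_self o)
  On.elim ⟨fun O => by simp [dot_ee, ee_dot, oo, h.self, h.at_o],
    fun O O' n => by simp [dot_ee, ee_dot, oo, h.gram _ _ n, h.at_o]⟩
    (on_unit (ee_self o)) fun O _ => by rw [add_dotProduct, ee_self, dot_ee, h.at_o]; rfl

theorem step {m : ℕ} {u : Fin m → ι → ℤ} (hu : On u) {v y : ι → ℤ} (hy : y ⬝ᵥ y = 1)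
    (h : ∀ i, v ⬝ᵥ u i = 0) (h1 : v ⬝ᵥ y ≠ 0) : On (vecCons y u) :=
  hu.cons hy fun i => orth_of hy (hu.1 i) h1 (h i)

theorem step' {m : ℕ} {u : Fin m → ι → ℤ} (hu : On u) {v : ι → ℤ} (h : ∀ i, v ⬝ᵥ u i = 0)
    (h8 : v ⬝ᵥ v ≤ 8) (ho : ∃ i, Odd (v i)) : ∃ (u' : Fin (m + 1) → ι → ℤ) (r : ι → ℤ), On u' ∧
      (∀ i, r ⬝ᵥ u' i = 0) ∧ r ⬝ᵥ r = v ⬝ᵥ v - 1 := by
  obtain ⟨y, r, hy, h1, rfl, h2⟩ := peel h8 ho
  have n : (y + r) ⬝ᵥ y ≠ 0 := by rw [add_dotProduct, hy, h1]; decide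
  refine ⟨_, r, step hu hy h n, fun i => ?_, h2⟩
  cases i using Fin.cases with
  | zero => exact h1
  | succ i =>
    have := h i
    rwa [add_dotProduct, dotProduct_comm, orth_of hy (hu.1 i) n (h i), zero_add] at this

theorem on0 {y : ι → ℤ} (hy : y ⬝ᵥ y = 1) : On ![y] :=
  On.cons ⟨fun i => i.elim0, fun i => i.elim0⟩ hy fun i => i.elim0

end

theorem jobE1 : JobE1.{u} := by
  refine ⟨fun ι κ _ _ w d o a h hs _ hc => ?_, fun ι κ _ _ w d o p q h hc hp hq hpq hs => ?_⟩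
  · have := ((on1 h).count (fun i => by
      by_contra! c
      obtain ⟨O, hO⟩ := hs i
      have := c (.inl O)
      have := c (.inr ())
      simp_all) d).1
    simp at this
    omega
  obtain ⟨j, hj⟩ := Fintype.card_eq_one_iff.1 hc
  have hx := on1 h
  generalize hxe : Sum.elim (fun O => w O + ee o) (fun _ : Unit => ee o) = x at hx
  have x1 : ∀ O, x (.inl O) = w O + x (.inr ()) := fun O => by rw [← hxe]; rfl
  have x2 : x (.inr ()) ⬝ᵥ d = 1 := by rw [← hxe]; exact (ee_dot d o).trans h.one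
  have key : ∀ {a : κ → ι → ℤ}, Fm 2 2 g1 w a → a j ⬝ᵥ d = 0 → ∃ c, c ⬝ᵥ c = 1 ∧
      (∀ i, x i ⬝ᵥ c = 0) ∧ a j = ∑ O, g1 O • x (.inl O) + c ∧ 3 ∣ c ⬝ᵥ d := fun {a} ha hd => by
    obtain ⟨c, e1, e2, e3⟩ := hx.rest (a j)
    have := dnn c
    simp only [Fintype.sum_sum_type, x1, dotProduct_add, ha.prod, ha.self, univ_unique,
      sum_singleton] at e1 e3
    obtain s0 : a j ⬝ᵥ x (.inr ()) = 0 := by
      simp [Fin.sum_univ_succ, g1] at e3
      generalize a j ⬝ᵥ x (.inr ()) = s at e3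
      have : s < 1 := by nlinarith
      have : -1 < s := by nlinarith
      omega
    simp only [PUnit.default_eq_unit, s0, add_zero, zero_smul, ← x1] at e1 e3
    refine ⟨c, by rw [e3]; decide, fun i => (dotProduct_comm _ _).trans (e2 i), e1, ?_⟩
    rw [e1, add_dotProduct, sum_dotProduct] at hd
    simp only [smul_dotProduct, x1, add_dotProduct, h.deg, x2] at hd
    have : ∑ O, g1 O • ((0 : ℤ) + 1) = -3 := by decide
    omega
  obtain ⟨c, c1, c2, c3, c4⟩ := key hp (hpq.dp j)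
  obtain ⟨c', c1', c2', c3', c4'⟩ := key hq (hpq.dq j)
  have cc : c ⬝ᵥ c' = 0 := by
    have := hpq.self j
    have e : ∀ O, q j ⬝ᵥ x (.inl O) = g1 O := fun O => by
      rw [c3', add_dotProduct, dotProduct_comm c', c2', add_zero]
      exact On.sum_dot (x := fun O => x (.inl O))
        ⟨fun _ => hx.1 _, fun _ _ n => hx.2 _ _ fun e => n (Sum.inl_injective e)⟩ g1 O
    rw [c3, add_dotProduct, sum_dotProduct] at this
    simp only [smul_dotProduct, dotProduct_comm (x _), e] at this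
    rw [c3', dotProduct_add, dotProduct_sum] at this
    simp only [dotProduct_smul, dotProduct_comm c (x _), c2, smul_zero, sum_const_zero] at this
    have : ∑ O, g1 O • g1 O = 3 := by decide
    omega
  obtain ⟨k1, k2⟩ := (hx.elim ((on_unit c1).elim (on_unit c1') fun _ _ => cc) fun i k => by
      rcases k with k | k; exacts [c2 i, c2' i]).count (fun i => by
    by_contra! z
    have z1 : ∀ k, x k i = 0 := fun k => z (.inl k)
    obtain ⟨k, hk⟩ := (hs i fun O => by simpa [z1] using (congrFun (x1 O) i).symm).2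
    have z2 : c i = 0 := z (.inr (.inl ()))
    have z3 : c' i = 0 := z (.inr (.inr ()))
    rw [hj k, c3, c3'] at hk
    simp [z1, z2, z3] at hk) d
  refine ⟨by simpa using k1, k2.trans ?_⟩
  rw [Nat.card_congr (Equiv.subtypeEquivRight (q := fun k => k.isLeft = true) ?_),
    Nat.card_eq_fintype_card]
  · decide
  rintro ((O | _) | _ | _)
  · simp [x1, h.deg, x2]
  · simp [x2]
  · simpa using c4
  · simpa using c4'

theorem l4 {ι : Type*} [Fintype ι] {w : Fin 2 → ι → ℤ} {d : ι → ℤ} {o : ι} (h : W0 4 w d o)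
    (hs : ∀ i, ∃ O, w O i ≠ 0) {a b : ι → ℤ} (ha : a ⬝ᵥ a = 1) (hb : b ⬝ᵥ b = 1)
    (ab : b ⬝ᵥ a = 0) (e : w 0 - w 1 = a + b) (ao : a ⬝ᵥ ee o = 0) (bo : b ⬝ᵥ ee o = 0)
    (h1 : w 0 ⬝ᵥ a = 1) (h0 : w 0 ⬝ᵥ b = 0) : Fintype.card ι = 6 := by
  have wo : w 0 ⬝ᵥ ee o = -1 := (dot_ee _ _).trans (h.at_o 0)
  have oo := ee_self o
  have ww := h.self 0
  generalize ee o = O at *
  obtain ⟨x, y, z, hx, hy, hz, xy, xz, yz, e'⟩ := split3 (v := w 0 + O - a) (by
    simp only [sub_dotProduct, dotProduct_sub, add_dotProduct, dotProduct_add, dotProduct_comm O,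
      dotProduct_comm a (w 0)]
    omega)
  have on3 : On ![a, b, O] := ((on0 oo).cons hb (by simpa [dotProduct_comm O] using bo)).cons ha
    (by simp [Fin.forall_fin_succ, dotProduct_comm O, ab, ao])
  have o3 : ∀ i, (x + y + z) ⬝ᵥ ![a, b, O] i = 0 := by
    rw [← e']
    simp [Fin.forall_fin_succ, dotProduct_comm O, dotProduct_comm a b, *, -e']
  have on3' : On ![z, y, x] := ((on0 hx).cons hy (by simpa [dotProduct_comm x] using xy)).cons hz
    (by simp [Fin.forall_fin_succ, dotProduct_comm _ z, xz, yz])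
  have n : ∀ i, (x + y + z) ⬝ᵥ ![z, y, x] i ≠ 0 := by
    simp [Fin.forall_fin_succ, dotProduct_comm _ z, dotProduct_comm x y, *, -e']
  have := ((on3.elim on3' fun i k => orth_of (on3'.1 k) (on3.1 i) (n k) (o3 i)).count (fun i => by
    by_contra! c
    obtain ⟨k, hk⟩ := hs i
    have a1 := congrFun e i
    have a2 := congrFun e' i
    simp only [Sum.forall, Sum.elim_inl, Sum.elim_inr, Fin.forall_fin_succ] at c
    simp at c
    simp only [Pi.add_apply, Pi.sub_apply, c] at a1 a2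
    fin_cases k <;> simp at hk <;> omega) d).1
  simpa using this

theorem jobL4 : JobL4.{u} := by
  intro ι κ _ _ w d o p h hs _ hc
  have w0 := h.self 0
  have w1 := h.self 1
  have w2 := h.gram 0 1 (by decide)
  obtain ⟨a, b, ha, hb, ab, e⟩ := split2 (v := w 0 - w 1) (by
    simp only [sub_dotProduct, dotProduct_sub, dotProduct_comm (w 1) (w 0)]; omega)
  have e1 : a ⬝ᵥ ee o + b ⬝ᵥ ee o = 0 := by
    rw [← add_dotProduct, ← e, dot_ee]; simp [h.at_o]
  have ao : a ⬝ᵥ ee o = 0 := by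
    rcases unit_cases ha (ee_self o) with k | k | k
    · exact k
    all_goals simp [k, ha, ab] at e1
  have bo : b ⬝ᵥ ee o = 0 := by omega
  have e2 : w 0 ⬝ᵥ a + w 0 ⬝ᵥ b = 1 := by rw [← dotProduct_add, ← e, dotProduct_sub]; omega
  have := (((on0 (ee_self o)).cons hb (by simpa [dotProduct_comm (ee o)] using bo)).cons ha
    (by simp [Fin.forall_fin_succ, dotProduct_comm (ee o), ab, ao])).bessel (w 0)
  simp [Fin.sum_univ_succ, dot_ee, h.at_o, w0] at this
  have : w 0 ⬝ᵥ a = 1 ∨ w 0 ⬝ᵥ a = 0 := by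
    have : w 0 ⬝ᵥ a < 2 := by nlinarith
    have : -1 < w 0 ⬝ᵥ a := by nlinarith
    omega
  rcases this with k | k
  · have := l4 h hs ha hb ab e ao bo k (by omega)
    omega
  · have := l4 h hs hb ha ((dotProduct_comm _ _).trans ab) (e.trans (add_comm _ _)) bo ao (by omega) k
    omega

theorem jobL8 : JobL8.{u} := by
  intro st ι κ _ _ w d o a h _ ha hc
  have wo : w 0 ⬝ᵥ ee o = -1 := (dot_ee _ _).trans (h.at_o 0)
  have ww := h.self 0
  have r8 : (w 0 + ee o) ⬝ᵥ (w 0 + ee o) = 8 := by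
    simp only [add_dotProduct, dotProduct_add, dotProduct_comm (ee o) (w 0), ee_self]; omega
  obtain ⟨u1, r1, o1, p1, n1⟩ := step' (on0 (ee_self o)) (v := w 0 + ee o)
    (by simp [wo, ee_self]) r8.le (by
      by_contra! c
      have : 2 ∣ (w 0 + ee o) ⬝ᵥ d :=
        dvd_sum fun i _ => (Int.not_odd_iff_even.1 (c i)).two_dvd.mul_right _
      rw [add_dotProduct, h.deg, ee_dot, h.one] at this
      omega)
  obtain ⟨u2, r2, o2, p2, n2⟩ := step' o1 p1 (by omega) (exists_odd (by omega))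
  obtain ⟨u3, r3, o3, p3, n3⟩ := step' o2 p2 (by omega) (exists_odd (by omega))
  obtain ⟨u4, hu, n4⟩ := exists_unit (v := r3) (by rintro rfl; simp at n3; omega)
  have c5 := (step o3 hu p3 n4.ne').card_le
  rw [Fintype.card_fin] at c5
  obtain ⟨y, x, hy, hx, xy, e⟩ := st ι κ a (by omega) ha.self ha.gram
  have on := hx.elim (on_unit hy) fun j _ => xy j
  obtain ⟨r, e1, e2, e3⟩ := on.rest (w 0)
  obtain rfl := on.eq_zero (by simp; omega) e2
  have e4 : ∀ j, w 0 ⬝ᵥ x j = 3 - w 0 ⬝ᵥ y := fun j => by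
    have := ha.prod j 0
    rw [e, dotProduct_comm, dotProduct_add] at this
    exact eq_sub_of_add_eq this
  simp only [Fintype.sum_sum_type, Sum.elim_inl, Sum.elim_inr, e4, sum_const, card_univ,
    Fintype.card_unit, one_smul, add_zero, zero_dotProduct, ww, nsmul_eq_mul] at e1 e3
  generalize w 0 ⬝ᵥ y = γ at e1 e3
  have l4 : (4 : ℤ) ≤ Fintype.card κ := by omega
  have : γ ≤ 3 := by nlinarith [mul_nonneg (by omega : (0 : ℤ) ≤ Fintype.card κ) (sq_nonneg (3 - γ))]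
  have : 2 ≤ γ := by nlinarith [mul_le_mul_of_nonneg_right l4 (sq_nonneg (3 - γ))]
  interval_cases γ
  · omega
  · have := congrFun e1 o
    simp [h.at_o] at this
    omega

end H70.X3
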